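import Cfsg.Agent.Lib.GD.Bas

/-! # Finite subgroups of `GL₂(D)`: the frame `Gr Γ 1 c` does not occur -/

set_option autoImplicit false

namespace H99.GD

open H13.PS QuaternionGroup Subgroup
open scoped MatrixGroups

variable {H : Type*} [Group H] [Finite H] {St : H → Prop} {T : Sylow 2 H}

namespace B2

variable {k : ℕ} {Γ : Subgroup (Wr k)} {Ψ : Wr k → H}

theorem mem_a (hΓ : Gr Γ 1 (cq k)) {i : ZM k} {y : QG k} {b : Bool} (hm : (⟨a i, y, b⟩ : Wr k) ∈ Γ) :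
    y = a i ∨ y = a (i + 2 * cq k) :=
  ((hΓ _).1 hm).imp (·.trans (congrArg a (one_mul i))) (·.trans (congrArg a (by ring)))

theorem mem_xa (hΓ : Gr Γ 1 (cq k)) {i : ZM k} {y : QG k} {b : Bool} (hm : (⟨xa i, y, b⟩ : Wr k) ∈ Γ) :
    y = xa (i + cq k) ∨ y = xa (i + 3 * cq k) :=
  ((hΓ _).1 hm).imp (·.trans (congrArg xa (by ring))) (·.trans (congrArg xa (by ring)))

theorem shape (hΓ : Gr Γ 1 (cq k)) {m : Wr k} (hm : m ∈ Γ) :
    (∃ i j b, m = ⟨a i, a j, b⟩) ∨ ∃ i j b, m = ⟨xa i, xa j, b⟩ := by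
  obtain ⟨i | i, y, b⟩ := m
  · rcases mem_a hΓ hm with rfl | rfl <;> exact .inl ⟨_, _, _, rfl⟩
  · rcases mem_xa hΓ hm with rfl | rfl <;> exact .inr ⟨_, _, _, rfl⟩

theorem hu (hΓ : Gr Γ 1 (cq k)) : up k ∈ Γ := (hΓ _).2 (.inl (congrArg a (one_mul _).symm))

theorem up_a (i j : ZM k) (b : Bool) : (⟨a i, a j, b⟩ : Wr k) * up k = up k * ⟨a i, a j, b⟩ := by
  cases b <;> exact Wr.ext (a_u i) (a_u j) rfl

theorem up_xa (i j : ZM k) (b : Bool) :
    (⟨xa i, xa j, b⟩ : Wr k) * up k = up k * ⟨xa i, xa j, b⟩ * ze k := by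
  cases b <;> exact Wr.ext (congrArg xa (by ring)) (congrArg xa (by ring)) rfl

theorem up_sq : up k * up k = ze k := Wr.ext uu uu rfl

theorem invs (hΓ : Gr Γ 1 (cq k)) {m : Wr k} (hm : m ∈ Γ) (h : m * m = 1) :
    (m = 1 ∨ m = ze k) ∨ (m = si k ∨ m = si k * ze k) ∨ (m = ta k ∨ m = ta k * ze k) ∨
      m = up k * si k * ta k ∨ m = up k * si k * ta k * ze k := by
  obtain ⟨x, y, _ | _⟩ := m
  · rcases invol (congrArg Wr.l h) with rfl | rfl <;> rcases invol (congrArg Wr.r h) with rfl | rfl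
    exacts [.inl (.inl rfl), .inr (.inl (.inl rfl)),
      .inr (.inl (.inr (Wr.ext (one_mul _).symm zz.symm rfl))), .inl (.inr rfl)]
  · have e : x * y = 1 := congrArg Wr.l h
    rcases x with i | i <;> [rcases mem_a hΓ hm with rfl | rfl; rcases mem_xa hΓ hm with rfl | rfl]
    · rcases tor (x := i) (by linear_combination a.inj e) with rfl | rfl
      · exact .inr (.inr (.inl (.inl (Wr.ext rfl (congrArg a (by ring)) rfl))))
      · exact .inr (.inr (.inl (.inr (Wr.ext (congrArg a (by ring)) (congrArg a (by ring)) rfl))))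
    · rcases tor (x := i - cq k) (by linear_combination a.inj e - c4) with e | e
      · exact .inr (.inr (.inr (.inl (Wr.ext (congrArg a (by linear_combination e))
          (congrArg a (by linear_combination e)) rfl))))
      · exact .inr (.inr (.inr (.inr (Wr.ext (congrArg a (by linear_combination e))
          (congrArg a (by linear_combination e)) rfl))))
    · exact absurd (by linear_combination 2 * a.inj ((xx _ _).symm.trans e) - c4) (c2 (k := k))
    · exact absurd (by linear_combination 2 * a.inj ((xx _ _).symm.trans e) - 2 * c4) (c2 (k := k))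

/-- the abstract end of the argument -/
theorem fin {s t v j g x : H} (stc : ∀ g x : H, St (g * x * g⁻¹) ↔ St x)
    (pts : ∀ g ∈ T, St g → g = 1 ∨ g = s ∨ g = t ∨ g = v * s * t)
    (ms : s ∈ T) (mt : t ∈ T) (mv : v ∈ T) (Ss : St s) (St1 : St t) (St2 : St (v * s * t))
    (s1 : s ≠ 1) (t1 : t ≠ 1) (t2 : v * s * t ≠ 1) (n1 : s ≠ t) (n2 : s ≠ v * s * t) (n3 : t ≠ v * s * t)
    (ss : s * s = 1) (tt : t * t = 1) (v2 : v * v = 1) (cs : ∀ g ∈ T, Commute g s) (cv : ∀ g ∈ T, Commute g v)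
    (ext : ∀ y ∈ T, St y → y ≠ 1 → ∃ g : H, g * y * g⁻¹ = s ∧ ∀ x ∈ T, Commute x y → g * x * g⁻¹ ∈ T)
    (j1 : ¬ St (j * s)) (j2 : IsConj j (j * s)) (hx : x ∈ T) (Sx : St x)
    (e : g * j * g⁻¹ = v * x) (hg : g * s * g⁻¹ ∈ T) : False := by
  have mt' : v * s * t ∈ T := mul_mem (mul_mem mv ms) mt
  have c1 : Commute t (v * s * t) := ((cv t mt).mul_right (cs t mt)).mul_right (.refl t)
  have vv : s * t * (v * s * t) = v := by
    rw [← mul_assoc, ← mul_assoc, (cv _ (mul_mem ms mt)).eq, mul_assoc v, mul_assoc s, (cs t mt).eq,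
      ← mul_assoc s, ss, one_mul, mul_assoc, tt, mul_one]
  have cm : ∀ x ∈ T, St x → ∀ y ∈ T, St y → Commute x y := fun x hx sx y hy sy => by
    rcases pts y hy sy with rfl | rfl | rfl | rfl
    exacts [.one_right x, cs x hx, by
      rcases pts x hx sx with rfl | rfl | rfl | rfl
      exacts [.one_left _, (cs _ hy).symm, .refl _, c1.symm], by
      rcases pts x hx sx with rfl | rfl | rfl | rfl
      exacts [.one_left _, (cs _ hy).symm, c1, .refl _]]
  have P3 : ∀ h : H, (∀ x ∈ T, St x → h * x * h⁻¹ ∈ T) → h * v * h⁻¹ = v := fun h hh => by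
    have k : ∀ x ∈ T, St x → x ≠ 1 → h * x * h⁻¹ = s ∨ h * x * h⁻¹ = t ∨ h * x * h⁻¹ = v * s * t :=
      fun x hx sx x1 => (pts _ (hh x hx sx) ((stc _ _).2 sx)).resolve_left (by simpa using x1)
    have d : ∀ {x y : H}, x ≠ y → h * x * h⁻¹ ≠ h * y * h⁻¹ := fun n => by simpa using n
    have d1 := d n1
    have d2 := d n2
    have d3 := d n3
    have c2 := (cs t mt).eq
    have c3 := (cs _ mt').eq
    rw [show h * v * h⁻¹ = h * s * h⁻¹ * (h * t * h⁻¹) * (h * (v * s * t) * h⁻¹) by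
      conv_lhs => rw [← vv]
      group]
    generalize v * s * t = w at *
    rw [← vv]
    rcases k s ms Ss s1 with a | a | a <;> rcases k t mt St1 t1 with b | b | b <;>
      rcases k w mt' St2 t2 with c | c | c <;> rw [a] at d1 d2 ⊢ <;> rw [b] at d1 d3 ⊢ <;>
      rw [c] at d2 d3 ⊢ <;> first | exact absurd rfl d1 | exact absurd rfl d2 | exact absurd rfl d3 | skip
    · rw [mul_assoc, ← c1.eq, mul_assoc]
    · rw [c2]
    · rw [mul_assoc, c3, ← mul_assoc, c2]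
    · rw [c3, mul_assoc, ← c1.eq, mul_assoc]
    · rw [← c1.eq, mul_assoc, c3, ← mul_assoc, c2]
  obtain ⟨h, e1, hh⟩ := ext _ hg ((stc _ _).2 Ss) (by simpa using s1)
  have hh' : ∀ x ∈ T, St x → h * x * h⁻¹ ∈ T := fun x hx sx => hh x hx (cm x hx sx _ hg ((stc _ _).2 Ss))
  have e2 : h * g * j * (h * g)⁻¹ = v * (h * x * h⁻¹) := by
    rw [← P3 h hh', show h * g * j * (h * g)⁻¹ = h * (g * j * g⁻¹) * h⁻¹ by group, e]; group
  have e3 : h * g * (j * s) * (h * g)⁻¹ = v * (h * x * h⁻¹) * s := by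
    rw [← e2]; conv_rhs => rw [← e1]
    group
  have j3 : IsConj (v * (h * x * h⁻¹)) (v * (h * x * h⁻¹) * s) :=
    ((isConj_iff.2 ⟨_, e2⟩).symm.trans j2).trans (isConj_iff.2 ⟨_, e3⟩)
  have j4 : ¬ St (v * (h * x * h⁻¹) * s) := e3 ▸ fun a => j1 ((stc _ _).1 a)
  have j5 : IsConj v (v * s) := by
    rcases pts _ (hh' x hx Sx) ((stc _ _).2 Sx) with a | a | a | a <;> rw [a] at j3 j4
    · rwa [mul_one] at j3
    · rw [mul_assoc v, ss, mul_one] at j3; exact j3.symm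
    · rw [mul_assoc, (cs t mt).eq, ← mul_assoc] at j4; exact absurd St2 j4
    · rw [← mul_assoc, ← mul_assoc, v2, one_mul, mul_assoc, (cs t mt).eq, ← mul_assoc, ss, one_mul] at j4
      exact absurd St1 j4
  obtain ⟨n, e4, hn⟩ := ext_center T (fun x hx => (cv x hx).mul_right (cs x hx)) j5
  exact s1 (mul_left_cancel (a := v) (by rw [← e4, P3 n fun x hx _ => hn x hx (cv x hx), mul_one]))

end B2

open B2 in
theorem Fr.b2 {k : ℕ} {Γ : Subgroup (Wr k)} {Ψ : Wr k → H} (hk : k ≠ 0) (h : Fr Γ Ψ St T)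
    (hΓ : Gr Γ 1 (cq k)) : False := by
  have hv := hu hΓ
  have hw : up k * si k * ta k ∈ Γ := mul_mem (mul_mem hv h.hs) h.ht
  have ew : Ψ (up k * si k * ta k) = Ψ (up k) * Ψ (si k) * Ψ (ta k) := by
    rw [h.mul (mul_mem hv h.hs) h.ht, h.mul hv h.hs]
  have s2 : si k * si k = 1 := Wr.ext (one_mul _) zz rfl
  have t2 : ta k * ta k = 1 := Wr.ext (one_mul _) (one_mul _) rfl
  have w2 : up k * si k * ta k * (up k * si k * ta k) = 1 :=
    Wr.ext (congrArg a (by linear_combination c4)) (congrArg a (by linear_combination c4)) rfl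
  have v2 : Ψ (up k) * Ψ (up k) = 1 := (h.sq hv).2 (.inr up_sq)
  have hj : (⟨xa 0, xa (cq k), false⟩ : Wr k) ∈ Γ := (hΓ _).2 (.inl (congrArg xa (by ring)))
  obtain ⟨b, hb⟩ := exists_w hk
  have hb' : (⟨a b, a b, true⟩ : Wr k) ∈ Γ := (hΓ _).2 (.inl (congrArg a (one_mul _).symm))
  have nj : ∀ {i j : ZM k}, (⟨xa i, xa j, false⟩ : Wr k) ∈ Γ → ¬ St (Ψ ⟨xa i, xa j, false⟩) :=
    fun hm s => z_ne ((H13.PS.xa_sq _).symm.trans (congrArg Wr.l ((h.st hm).1 s)))
  have jj : Ψ ⟨xa 0, xa (cq k), false⟩ * Ψ ⟨xa 0, xa (cq k), false⟩ = 1 :=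
    (h.sq hj).2 (.inr (Wr.ext (H13.PS.xa_sq _) (H13.PS.xa_sq _) rfl))
  obtain ⟨g, m, hm, d, e, hg⟩ := h.thx (fun m => cond (isA m.l) (1 : ℤˣ) (-1)) (-1) (fun m hm n hn => by
    rcases shape hΓ hm with ⟨_, _, _ | _, rfl⟩ | ⟨_, _, _ | _, rfl⟩ <;>
      rcases shape hΓ hn with ⟨_, _, _, rfl⟩ | ⟨_, _, _, rfl⟩ <;> rfl) rfl
    (fun _ _ _ => Int.units_eq_one_or _) jj (h.mem hj)
  have m2 : m * m = ze k := ((h.sq hm).1 (by rw [← e, conj_mul, jj]; group)).resolve_left fun a =>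
    nj hj ((h.stc' g _).1 (e ▸ (h.st hm).2 a))
  have cm : m * up k = up k * m := by
    rcases shape hΓ hm with ⟨i, j, b, rfl⟩ | ⟨i, j, b, rfl⟩
    exacts [up_a i j b, absurd d (by decide : (-1 : ℤˣ) ≠ 1)]
  refine fin (s := Ψ (si k)) (t := Ψ (ta k)) (v := Ψ (up k)) (j := Ψ ⟨xa 0, xa (cq k), false⟩) (g := g)
    (x := Ψ (up k * m)) h.stc' (fun g hg sg => ?_) (h.mem h.hs) (h.mem h.ht) (h.mem hv) h.s_st
    ((h.st h.ht).2 t2) (ew ▸ (h.st hw).2 w2) h.s_ne
    (fun e => ((h.ker h.ht).1 e).elim (fun e => nomatch congrArg Wr.s e) fun e => nomatch congrArg Wr.s e)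
    (fun e => ((h.ker hw).1 (ew.trans e)).elim (fun e => nomatch congrArg Wr.s e)
      fun e => nomatch congrArg Wr.s e)
    (fun e => ((h.eq h.hs h.ht).1 e).elim (fun e => nomatch congrArg Wr.s e)
      fun e => nomatch congrArg Wr.s e)
    (fun e => ((h.eq h.hs hw).1 (e.trans ew.symm)).elim (fun e => nomatch congrArg Wr.s e)
      fun e => nomatch congrArg Wr.s e)
    (fun e => ((h.eq h.ht hw).1 (e.trans ew.symm)).elim
      (fun e => c2 (k := k) (by linear_combination -2 * a.inj (congrArg Wr.l e)))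
      fun e => c2 (k := k) (by linear_combination -2 * a.inj (congrArg Wr.l e) - c4))
    ((h.sq h.hs).2 (.inl s2)) ((h.sq h.ht).2 (.inl t2)) v2 h.s_comm (fun g hg => ?_)
    (fun y hy sy y1 => h.ext_s hy sy y1) (h.mul hj h.hs ▸ nj (mul_mem hj h.hs))
    (isConj_iff.2 ⟨_, (h.cj hb' hj).trans ((congrArg Ψ ?_).trans (h.mul hj h.hs))⟩)
    (h.mem (mul_mem hv hm)) ((h.st (mul_mem hv hm)).2 ?_)
    (by rw [e, h.mul hv hm, ← mul_assoc, v2, one_mul]) (hg _ (h.mem h.hs) (h.s_comm _ (h.mem hj)).symm)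
  · obtain ⟨m, hm, rfl⟩ := (h.syl g).1 hg
    rw [← ew, h.ker hm, h.eq hm h.hs, h.eq hm h.ht, h.eq hm hw]
    exact invs hΓ hm ((h.st hm).1 sg)
  · obtain ⟨m, hm, rfl⟩ := (h.syl g).1 hg
    rw [h.comm hm hv]
    rcases shape hΓ hm with ⟨i, j, b, rfl⟩ | ⟨i, j, b, rfl⟩
    exacts [.inl (up_a i j b), .inr (up_xa i j b)]
  · exact Wr.ext (congrArg xa (by linear_combination -a.inj hb))
      (congrArg xa (by linear_combination -a.inj hb - c4)) rfl
  · rw [mul_assoc, ← mul_assoc m, cm, mul_assoc, m2, ← mul_assoc, up_sq, ze_sq]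

end H99.GD
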