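import Cfsg.Agent.Lib.GD.Bas

/-! # The five-point configuration of a frame of type `Gr Γ (4 κ + 1) 0` -/

set_option autoImplicit false

namespace H99.GD

open H13.PS QuaternionGroup Subgroup
open scoped MatrixGroups

namespace BA

variable {k : ℕ}

theorem odd_cancel {x κ : ZM k} (h : x * (2 * κ + 1) = 0) : x = 0 := by
  have h1 : ∀ n : ℕ, x = x * (-2 * κ) ^ n := fun n => by
    induction n with
    | zero => simp
    | succ n ih => rw [pow_succ, ← mul_assoc, ← ih]; linear_combination h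
  rw [h1 (k + 2), mul_pow, neg_pow, show (2 : ZM k) ^ (k + 2) = 4 * cq k by rw [cq]; ring, c4]
  simp

theorem tor' {x : ZM k} : 2 * x = 0 ↔ x = 0 ∨ x = 2 * cq k :=
  ⟨tor, by rintro (rfl | rfl); exacts [mul_zero _, by linear_combination c4]⟩

theorem pig (x y w : ZM k) : ∃ l, x + y = 2 * l ∨ x + w = 2 * l ∨ y + w = 2 * l := by
  obtain ⟨a, rfl | rfl⟩ := par x <;> obtain ⟨b, rfl | rfl⟩ := par y <;>
    obtain ⟨c, rfl | rfl⟩ := par w
  exacts [⟨a + b, Or.inl (by ring)⟩, ⟨a + b, Or.inl (by ring)⟩, ⟨a + c, Or.inr (Or.inl (by ring))⟩,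
    ⟨b + c + 1, Or.inr (Or.inr (by ring))⟩, ⟨b + c, Or.inr (Or.inr (by ring))⟩,
    ⟨a + c + 1, Or.inr (Or.inl (by ring))⟩, ⟨a + b + 1, Or.inl (by ring)⟩,
    ⟨a + b + 1, Or.inl (by ring)⟩]

/-- the involutions swapping the factors outside the cyclic part -/
def dd (i : ZM k) : Wr k := ⟨xa i, xa (i + 2 * cq k), true⟩
/-- the second swap -/
def tb (k : ℕ) : Wr k := ⟨a (cq k), a (-cq k), true⟩

theorem aa {i j i' j' : ZM k} {b : Bool} (h1 : i = i') (h2 : j = j') :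
    (⟨a i, a j, b⟩ : Wr k) = ⟨a i', a j', b⟩ := by rw [h1, h2]
theorem xx' {i j i' j' : ZM k} {b : Bool} (h1 : i = i') (h2 : j = j') :
    (⟨xa i, xa j, b⟩ : Wr k) = ⟨xa i', xa j', b⟩ := by rw [h1, h2]
theorem a_ze (i j : ZM k) (b : Bool) :
    (⟨a i, a j, b⟩ : Wr k) * ze k = ⟨a (i + 2 * cq k), a (j + 2 * cq k), b⟩ := mul_ze _ _ _
theorem xa_ze (i j : ZM k) (b : Bool) :
    (⟨xa i, xa j, b⟩ : Wr k) * ze k = ⟨xa (i + 2 * cq k), xa (j + 2 * cq k), b⟩ := mul_ze _ _ _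
theorem ta_eq : ta k = ⟨a 0, a 0, true⟩ := rfl
theorem si_eq : si k = ⟨a 0, a (2 * cq k), false⟩ := rfl

theorem dd_mul (i j : ZM k) : dd i * dd j = ⟨a (j - i), a (j - i), false⟩ := by
  simp only [dd, Wr.mul_tt, xx, Bool.not_true]
  exact aa (by linear_combination c4) (by ring)

theorem a_dd (i j : ZM k) : (⟨a i, a i, false⟩ : Wr k) * dd j = dd (j - i) := by
  simp only [dd, Wr.mul_ff, a_mul_xa]
  exact xx' rfl (by ring)

theorem dd_sq (i : ZM k) : dd i * dd i = 1 := by rw [dd_mul, sub_self]; rfl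

theorem cj_a (i j l : ZM k) (b : Bool) : (⟨a i, a j, b⟩ : Wr k) * dd l * (⟨a i, a j, b⟩ : Wr k)⁻¹ =
    dd (l - i - j + cond b (2 * cq k) 0) := by
  cases b <;> simp only [dd, Wr.mul_ff, Wr.mul_tt, Wr.inv_ff, Wr.inv_tt, a_inv, a_mul_xa, xa_mul_a,
    Bool.not_true, Bool.not_false, cond]
  · exact xx' (by ring) (by ring)
  · exact xx' (by ring) (by linear_combination -c4)

theorem cj_x (i j l : ZM k) (b : Bool) :
    (⟨xa i, xa j, b⟩ : Wr k) * dd l * (⟨xa i, xa j, b⟩ : Wr k)⁻¹ =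
      dd (i + j - l + cond b (2 * cq k) 0) := by
  cases b <;> simp only [dd, Wr.mul_ff, Wr.mul_tt, Wr.inv_ff, Wr.inv_tt, xa_inv, a_mul_xa, xx,
    Bool.not_true, Bool.not_false, cond]
  · exact xx' (by ring) (by linear_combination -c4)
  · exact xx' (by linear_combination -c4) (by linear_combination -c4)

theorem ct_a (i j : ZM k) (b : Bool) : (⟨a i, a j, b⟩ : Wr k) * ta k * (⟨a i, a j, b⟩ : Wr k)⁻¹ =
    ⟨a (i - j), a (j - i), true⟩ := by
  cases b <;> simp only [ta, Wr.mul_ff, Wr.mul_tt, Wr.inv_ff, Wr.inv_tt, a_inv, a_mul_a, mul_one,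
    Bool.not_true, Bool.not_false] <;> exact aa (by ring) (by ring)

theorem ct_x (i j : ZM k) (b : Bool) :
    (⟨xa i, xa j, b⟩ : Wr k) * ta k * (⟨xa i, xa j, b⟩ : Wr k)⁻¹ = ⟨a (j - i), a (i - j), true⟩ := by
  cases b <;> simp only [ta, Wr.mul_ff, Wr.mul_tt, Wr.inv_ff, Wr.inv_tt, xa_inv, xx, mul_one,
    Bool.not_true, Bool.not_false] <;>
    exact aa (by linear_combination c4) (by linear_combination c4)

variable {Γ : Subgroup (Wr k)} {κ : ZM k} (hΓ : Gr Γ (4 * κ + 1) 0)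
include hΓ

theorem memA {i j : ZM k} {b : Bool} :
    (⟨a i, a j, b⟩ : Wr k) ∈ Γ ↔ 2 * (j - (4 * κ + 1) * i) = 0 := by
  rw [hΓ, tor']
  change a j = a _ ∨ a j = a _ ↔ _
  simp only [a.injEq, sub_eq_iff_eq_add', add_zero]

theorem memX {i j : ZM k} {b : Bool} :
    (⟨xa i, xa j, b⟩ : Wr k) ∈ Γ ↔ 2 * (j - (4 * κ + 1) * i) = 0 := by
  rw [hΓ, tor']
  change xa j = xa _ ∨ xa j = xa _ ↔ _
  simp only [xa.injEq, sub_eq_iff_eq_add', add_zero]

theorem cases {m : Wr k} (hm : m ∈ Γ) : ∃ i j b, 2 * (j - (4 * κ + 1) * i) = 0 ∧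
    (m = ⟨a i, a j, b⟩ ∨ m = ⟨xa i, xa j, b⟩) := by
  obtain ⟨i | i, j | j, b⟩ := m
  · exact ⟨i, j, b, (memA hΓ).1 hm, Or.inl rfl⟩
  · rcases (hΓ _).1 hm with e | e <;> exact absurd e (by rintro ⟨⟩)
  · rcases (hΓ _).1 hm with e | e <;> exact absurd e (by rintro ⟨⟩)
  · exact ⟨i, j, b, (memX hΓ).1 hm, Or.inr rfl⟩

theorem memD {i : ZM k} (hi : 8 * κ * i = 0) : dd i ∈ Γ :=
  (memX hΓ).2 (by linear_combination c4 - hi)

theorem memB : tb k ∈ Γ := (memA hΓ).2 (by linear_combination -(2 * κ + 1) * c4)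

theorem memU : (⟨a (-cq k), a (-cq k), false⟩ : Wr k) ∈ Γ :=
  (memA hΓ).2 (by linear_combination 2 * κ * c4)

variable {H : Type*} [Group H] {St : H → Prop} {T : Sylow 2 H} {Ψ : Wr k → H} (h : Fr Γ Ψ St T)
include h

theorem k16 : 16 * κ = 0 := by
  have := (memA hΓ).1 (h.swap ((memA hΓ (i := 1) (j := 4 * κ + 1) (b := false)).2 (by ring)))
  exact odd_cancel (κ := κ) (by linear_combination -this)

theorem dd_eq {i j : ZM k} (hi : dd i ∈ Γ) (hj : dd j ∈ Γ) :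
    Ψ (dd i) = Ψ (dd j) ↔ 2 * (i - j) = 0 := by
  rw [h.eq hi hj, tor', dd, dd, xa_ze]
  simp only [Wr.mk.injEq, xa.injEq, and_true, add_left_inj, and_self,
    sub_eq_iff_eq_add', add_zero]

theorem ta_of {i : ZM k} (hi : 2 * i = 0) : Ψ ⟨a i, a (-i), true⟩ = Ψ (ta k) := by
  rcases tor hi with rfl | rfl
  · rw [neg_zero]; rfl
  · rw [← h.mz h.ht, ta_eq, a_ze]
    exact congrArg Ψ (aa (by ring) (by linear_combination -c4))

theorem tb_of {i : ZM k} (hi : 2 * (i - cq k) = 0) : Ψ ⟨a i, a (-i), true⟩ = Ψ (tb k) := by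
  rcases tor hi with e | e
  · rw [sub_eq_zero.1 e]; rfl
  · rw [← h.mz (memB hΓ), tb, a_ze]
    exact congrArg Ψ (aa (by linear_combination e) (by linear_combination -e - c4))

theorem ups {i : ZM k} (hi : 8 * κ * i = 0) :
    Ψ (si k) * Ψ (ta k) * Ψ (tb k) * Ψ (dd i) = Ψ (dd (i + cq k)) := by
  have e : si k * ta k * tb k = ⟨a (-cq k), a (-cq k), false⟩ := by
    simp only [si_eq, ta_eq, tb, Wr.mul_ff, Wr.mul_tt, a_mul_a, Bool.not_true]
    exact aa (by ring) (by linear_combination c4)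
  rw [← h.mul h.hs h.ht, ← h.mul (mul_mem h.hs h.ht) (memB hΓ), e, ← h.mul (memU hΓ) (memD hΓ hi),
    a_dd, sub_neg_eq_add]

theorem pts {g : H} (hg : g ∈ T) (hs : St g) : g = 1 ∨ g = Ψ (si k) ∨ g = Ψ (ta k) ∨ g = Ψ (tb k) ∨
    ∃ i, 8 * κ * i = 0 ∧ g = Ψ (dd i) := by
  obtain ⟨m, hm, rfl⟩ := (h.syl g).1 hg
  have h2 := (h.st hm).1 hs
  obtain ⟨x, y, _ | _⟩ := m
  · rw [Wr.mul_ff, Wr.one_def, Wr.mk.injEq] at h2
    rcases invol h2.1 with rfl | rfl <;> rcases invol h2.2.1 with rfl | rfl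
    · exact Or.inl h.one
    · exact Or.inr (Or.inl rfl)
    · refine Or.inr (Or.inl ?_)
      rw [← h.mz h.hs, si, mul_ze, one_mul, zz]
    · exact Or.inl ((h.ker hm).2 (Or.inr rfl))
  · rw [Wr.mul_tt, Wr.one_def, Wr.mk.injEq] at h2
    obtain rfl : y = x⁻¹ := eq_inv_of_mul_eq_one_right h2.1
    rcases x with i | i
    · have e : 2 * (2 * i) = 0 :=
        odd_cancel (κ := κ) (by linear_combination -(memA hΓ).1 hm)
      rcases tor e with e | e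
      · exact Or.inr (Or.inr (Or.inl (ta_of hΓ h e)))
      · exact Or.inr (Or.inr (Or.inr (Or.inl (tb_of hΓ h (by linear_combination e)))))
    · rw [xa_inv, add_comm] at hm ⊢
      exact Or.inr (Or.inr (Or.inr (Or.inr ⟨i, by linear_combination c4 - (memX hΓ).1 hm, rfl⟩)))

theorem dd_comm {i j : ZM k} (hi : dd i ∈ Γ) (hj : dd j ∈ Γ) :
    Commute (Ψ (dd i)) (Ψ (dd j)) ↔ 2 * (2 * (j - i)) = 0 := by
  rw [h.comm hi hj, dd_mul, dd_mul, a_ze, tor']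
  simp only [Wr.mk.injEq, a.injEq, and_true, and_self]
  exact or_congr ⟨fun e => by linear_combination e, fun e => by linear_combination e⟩
    ⟨fun e => by linear_combination e, fun e => by linear_combination e⟩

theorem fin {g : H} (hg : g ∈ T) {l : ZM k} (hl : 8 * κ * l = 0)
    (e : g * Ψ (dd l) * g⁻¹ = Ψ (dd (l + cq k))) : g * Ψ (ta k) * g⁻¹ = Ψ (ta k) := by
  obtain ⟨m, hm, rfl⟩ := (h.syl g).1 hg
  have h1 := mul_mem (mul_mem hm (memD hΓ hl)) (inv_mem hm)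
  have h2 : dd (l + cq k) ∈ Γ := memD hΓ (by linear_combination hl + 2 * κ * c4)
  have h3 := k16 hΓ h
  rw [h.cj hm (memD hΓ hl)] at e
  rw [h.cj hm h.ht]
  obtain ⟨i, j, b, hij, rfl | rfl⟩ := cases hΓ hm
  · rw [cj_a] at h1 e
    rw [dd_eq hΓ h h1 h2] at e
    rw [ct_a, ← neg_sub i j]
    refine ta_of hΓ h ?_
    cases b <;> simp only [cond] at e
    · linear_combination 2 * κ * e + (2 * κ - 1) * hij + κ * c4 + κ * i * h3
    · linear_combination 2 * κ * e + (2 * κ - 1) * hij - κ * c4 + κ * i * h3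
  · rw [cj_x] at h1 e
    rw [dd_eq hΓ h h1 h2] at e
    rw [ct_x, ← neg_sub j i]
    refine ta_of hΓ h ?_
    cases b <;> simp only [cond] at e
    · linear_combination 2 * κ * e + (1 - 2 * κ) * hij + κ * c4 - κ * i * h3 + hl
    · linear_combination 2 * κ * e + (1 - 2 * κ) * hij - κ * c4 - κ * i * h3 + hl

end BA

open BA

variable {H : Type*} [Group H] [Finite H] {St : H → Prop} {T : Sylow 2 H}

theorem Fr.five {k : ℕ} {Γ : Subgroup (Wr k)} {Ψ : Wr k → H} {κ : ZM k} (hk : k ≠ 0) (h : Fr Γ Ψ St T)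
    (hΓ : Gr Γ (4 * κ + 1) 0) : ∃ s t t' c D, Five St T s t t' c D := by
  obtain ⟨b, hb⟩ := exists_w hk
  have hb : b + b = cq k := a.inj hb
  have h16 := k16 hΓ h
  have hC : (⟨a b, a b, false⟩ : Wr k) ∈ Γ := (memA hΓ).2 (by linear_combination -4 * κ * hb - κ * c4)
  have hne : ∀ {x y : QG k}, (⟨x, y, true⟩ : Wr k) ∈ Γ → Ψ ⟨x, y, true⟩ ≠ 1 := fun hm e => by
    rcases (h.ker hm).1 e with e | e <;> exact Bool.noConfusion (congrArg Wr.s e)
  have hne' : ∀ {x y : QG k}, (⟨x, y, true⟩ : Wr k) ∈ Γ → Ψ (si k) ≠ Ψ ⟨x, y, true⟩ := fun hm e => by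
    rcases (h.eq h.hs hm).1 e with e | e
    · exact Bool.noConfusion (congrArg Wr.s e)
    · rw [mul_ze] at e; exact Bool.noConfusion (congrArg Wr.s e)
  have hu : ∀ {i : ZM k}, 8 * κ * i = 0 → 8 * κ * (i + cq k) = 0 := fun hi => by
    linear_combination hi + 2 * κ * c4
  have htt : Commute (Ψ (ta k)) (Ψ (tb k)) := by
    refine (h.comm h.ht (memB hΓ)).2 (Or.inr ?_)
    simp only [ta_eq, tb, Wr.mul_tt, a_mul_a, a_ze]
    exact aa (by linear_combination -c4) (by ring)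
  refine ⟨Ψ (si k), Ψ (ta k), Ψ (tb k), Ψ ⟨a b, a b, false⟩,
    fun g => ∃ i, 8 * κ * i = 0 ∧ g = Ψ (dd i), h.stc, fun g hg hs => ?_,
    fun g hg hs => pts hΓ h hg hs, ⟨h.mem h.hs, h.s_st, h.s_ne⟩,
    ⟨h.mem h.ht, (h.st h.ht).2 (by simp [ta, Wr.one_def]), hne h.ht⟩,
    ⟨h.mem (memB hΓ), (h.st (memB hΓ)).2 (by simp [tb, Wr.one_def]), hne (memB hΓ)⟩, ?_,
    ⟨hne' h.ht, hne' (memB hΓ), fun e => ?_⟩, fun g hg hs => ⟨(h.s_comm g hg).symm, ?_⟩,
    ⟨_, 0, mul_zero _, rfl⟩, ?_, ?_, ?_, ⟨h.mem hC, h.s_comm _ (h.mem hC), ?_, ?_⟩, ?_, ?_,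
    h.s_comm, ?_, fun y hy hs h1 => h.ext_s hy hs h1⟩
  · obtain ⟨m, hm, rfl⟩ := (h.syl g).1 hg
    exact (h.sq hm).2 (Or.inl ((h.st hm).1 hs))
  · rintro _ ⟨i, hi, rfl⟩
    exact ⟨h.mem (memD hΓ hi), (h.st (memD hΓ hi)).2 (dd_sq i), hne (memD hΓ hi)⟩
  · rw [h.eq h.ht (memB hΓ), ta_eq, tb, a_ze] at e
    rcases e with e | e
    · exact c2 (k := k) (by linear_combination -2 * a.inj (congrArg Wr.l e))
    · exact c2 (k := k) (by linear_combination -2 * a.inj (congrArg Wr.r e))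
  · rcases pts hΓ h hg hs with rfl | rfl | rfl | rfl | ⟨i, hi, rfl⟩
    · exact ⟨Commute.one_right _, Commute.one_right _⟩
    · exact ⟨h.s_comm _ (h.mem h.ht), h.s_comm _ (h.mem (memB hΓ))⟩
    · exact ⟨Commute.refl _, htt.symm⟩
    · exact ⟨htt, Commute.refl _⟩
    · refine ⟨(h.comm h.ht (memD hΓ hi)).2 (Or.inr ?_),
        (h.comm (memB hΓ) (memD hΓ hi)).2 (Or.inr ?_)⟩
      · simp only [ta_eq, dd, Wr.mul_tt, a_mul_xa, xa_mul_a, xa_ze]
        exact xx' (by ring) (by linear_combination -c4)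
      · simp only [tb, dd, Wr.mul_tt, a_mul_xa, xa_mul_a, xa_ze]
        exact xx' (by ring) (by linear_combination -c4)
  · rintro _ ⟨i, hi, rfl⟩
    by_cases h8 : 8 * κ = 0
    · have hj : 8 * κ * (i + 1) = 0 := by rw [h8, zero_mul]
      refine ⟨_, ⟨_, hj, rfl⟩, fun e => c2 (k := k) ?_⟩
      linear_combination b * (dd_comm hΓ h (memD hΓ hi) (memD hΓ hj)).1 e - 2 * hb
    · have hj : 8 * κ * (i + 2) = 0 := by linear_combination hi + h16
      refine ⟨_, ⟨_, hj, rfl⟩, fun e => h8 ?_⟩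
      linear_combination κ * (dd_comm hΓ h (memD hΓ hi) (memD hΓ hj)).1 e
  · rintro _ ⟨i, hi, rfl⟩
    rw [ups hΓ h hi]
    refine ⟨⟨_, hu hi, rfl⟩, fun e => c2 (k := k) ?_⟩
    linear_combination (dd_eq hΓ h (memD hΓ (hu hi)) (memD hΓ hi)).1 e
  · rintro _ _ ⟨i, hi, rfl⟩ ⟨j, hj, rfl⟩ e
    rw [ups hΓ h hi, dd_eq hΓ h (memD hΓ hj) (memD hΓ hi),
      dd_eq hΓ h (memD hΓ hj) (memD hΓ (hu hi))]
    exact (tor ((dd_comm hΓ h (memD hΓ hi) (memD hΓ hj)).1 e)).imp id fun e => by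
      linear_combination e
  · refine (h.comm hC h.ht).2 (Or.inl ?_)
    simp [ta]
  · refine (h.comm hC (memB hΓ)).2 (Or.inl ?_)
    simp only [tb, Wr.mul_tt, Wr.mul_ff, a_mul_a, Bool.not_false]
    exact aa (by ring) (by ring)
  · rintro _ ⟨i, hi, rfl⟩
    have h1 := mul_mem (mul_mem hC (memD hΓ hi)) (inv_mem hC)
    rw [ups hΓ h hi, h.cj hC (memD hΓ hi)]
    rw [BA.cj_a] at h1 ⊢
    rw [dd_eq hΓ h h1 (memD hΓ (hu hi))]
    simp only [cond]
    linear_combination -2 * hb - c4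
  · rintro _ _ _ ⟨i, hi, rfl⟩ ⟨j, hj, rfl⟩ ⟨f, hf, rfl⟩
    have key : ∀ {l i j : ZM k}, 8 * κ * l = 0 → 8 * κ * i = 0 → i + j = 2 * l →
        Ψ (dd l) * Ψ (dd i) * (Ψ (dd l))⁻¹ = Ψ (dd j) := fun {l i j} hl hi e => by
      rw [h.cj (memD hΓ hl) (memD hΓ hi), inv_eq_of_mul_eq_one_right (dd_sq l), dd_mul, a_dd,
        show l - (i - l) = j by linear_combination -e]
    obtain ⟨l, hl, e⟩ : ∃ l, 8 * κ * l = 0 ∧ (i + j = 2 * l ∨ i + f = 2 * l ∨ j + f = 2 * l) := by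
      by_cases h8 : 8 * κ = 0
      · obtain ⟨l, e⟩ := pig i j f
        exact ⟨l, by rw [h8, zero_mul], e⟩
      · have ev : ∀ {i : ZM k}, 8 * κ * i = 0 → ∃ y, i = 2 * y := fun {i} hi => by
          obtain ⟨y, e | e⟩ := par i
          · exact ⟨y, e⟩
          · exact absurd (by linear_combination hi - 8 * κ * e - y * h16) h8
        obtain ⟨i, rfl⟩ := ev hi
        obtain ⟨j, rfl⟩ := ev hj
        obtain ⟨f, rfl⟩ := ev hf
        obtain ⟨l, e⟩ := pig i j f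
        exact ⟨2 * l, by linear_combination l * h16, e.imp (fun e => by linear_combination 2 * e)
          (Or.imp (fun e => by linear_combination 2 * e) fun e => by linear_combination 2 * e)⟩
    exact ⟨_, ⟨l, hl, rfl⟩, e.imp (key hl hi) (Or.imp (key hl hi) (key hl hj))⟩
  · rintro g hg _ ⟨l, hl, rfl⟩ e
    exact BA.fin hΓ h hg hl (e.trans (ups hΓ h hl))

end H99.GD
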