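import Cfsg.Agent.Lib.GD.Bas

set_option autoImplicit false
set_option linter.unusedSectionVars false

namespace H99.GD

open H13.PS QuaternionGroup Subgroup
open scoped MatrixGroups

variable {H : Type*} [Group H] [Finite H] {St : H → Prop} {T : Sylow 2 H}

namespace BB

theorem cinj {g x y : H} (e : g * x * g⁻¹ = g * y * g⁻¹) : x = y :=
  mul_left_cancel (mul_right_cancel e)

theorem cmul (g k x : H) : g * k * x * (g * k)⁻¹ = g * (k * x * k⁻¹) * g⁻¹ := by group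

/-- `c` acts on `P` as the transposition of `p` and `q` -/
structure Tr (P : Finset H) (c p q : H) : Prop where
  mp : p ∈ P
  mq : q ∈ P
  ne : p ≠ q
  e1 : c * p * c⁻¹ = q
  e2 : c * q * c⁻¹ = p
  fix : ∀ x ∈ P, x ≠ p → x ≠ q → c * x * c⁻¹ = x

variable {P P' : Finset H} {c c' p q p' q' w : H}

theorem Tr.symm (h : Tr P c p q) : Tr P c q p :=
  ⟨h.mq, h.mp, h.ne.symm, h.e2, h.e1, fun x hx a b => h.fix x hx b a⟩

theorem Tr.cj (h : Tr P c p q) (h1 : ∀ x ∈ P, w * x * w⁻¹ ∈ P') (h2 : ∀ x ∈ P', w⁻¹ * x * w⁻¹⁻¹ ∈ P) :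
    Tr P' (w * c * w⁻¹) (w * p * w⁻¹) (w * q * w⁻¹) := by
  refine ⟨h1 _ h.mp, h1 _ h.mq, fun e => h.ne (cinj e), by rw [← h.e1]; group, by rw [← h.e2]; group,
    fun x hx a b => ?_⟩
  have := h.fix _ (h2 x hx) (fun e => a (by rw [← e]; group)) fun e => b (by rw [← e]; group)
  rw [cmul, cmul, this]; group

theorem Tr.maps (h : Tr P c p q) {x : H} (hx : x ∈ P) :
    c * x * c⁻¹ ∈ P ∧ c * (c * x * c⁻¹) * c⁻¹ = x := by
  by_cases a : x = p
  · rw [a, h.e1, h.e2]; exact ⟨h.mq, rfl⟩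
  by_cases b : x = q
  · rw [b, h.e2, h.e1]; exact ⟨h.mp, rfl⟩
  rw [h.fix x hx a b, h.fix x hx a b]; exact ⟨hx, rfl⟩

theorem Tr.maps' (h : Tr P c p q) {x : H} (hx : x ∈ P) : c⁻¹ * x * c⁻¹⁻¹ ∈ P := by
  have := h.maps hx
  rw [← this.2, show c⁻¹ * (c * (c * x * c⁻¹) * c⁻¹) * c⁻¹⁻¹ = c * x * c⁻¹ by group]
  exact this.1

variable {s t t' : H} {D : H → Prop}

/-- the points -/
def Pt (St : H → Prop) (T : Sylow 2 H) : Set H := {g | g ∈ T ∧ St g ∧ g ≠ 1}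

def Vv (s t t' x : H) : Prop := x = s ∨ x = t ∨ x = t'

open Classical in
noncomputable def Pf (s t t' d : H) : Finset H := {d, s * t * t' * d, s, t, t'}

theorem mem_Pf {d x : H} : x ∈ Pf s t t' d ↔ x = d ∨ x = s * t * t' * d ∨ Vv s t t' x := by
  simp [Pf, Vv]

theorem third (n : s ≠ t ∧ s ≠ t' ∧ t ≠ t') {v w : H} (hv : Vv s t t' v) (hw : Vv s t t' w)
    (e : v ≠ w) : ∃ u, Vv s t t' u ∧ u ≠ v ∧ u ≠ w ∧ ∀ y, Vv s t t' y → y = v ∨ y = w ∨ y = u := by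
  obtain ⟨n1, n2, n3⟩ := n
  unfold Vv at *
  rcases hv with rfl | rfl | rfl <;> rcases hw with rfl | rfl | rfl <;>
    first
    | exact absurd rfl e
    | exact ⟨s, by tauto, by tauto, by tauto, by tauto⟩
    | exact ⟨t, by tauto, by tauto, by tauto, by tauto⟩
    | exact ⟨t', by tauto, by tauto, by tauto, by tauto⟩

variable (h : Five St T s t t' c D)
include h

theorem vpt {x : H} (hx : Vv s t t' x) : x ∈ Pt St T := by
  rcases hx with rfl | rfl | rfl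
  exacts [h.ms, h.mt, h.mt']

theorem vcomm {x y : H} (hx : Vv s t t' x) (hy : y ∈ Pt St T) : Commute x y := by
  have := h.cv y hy.1 hy.2.1
  rcases hx with rfl | rfl | rfl
  exacts [this.1, this.2.1, this.2.2]

theorem dv {d : H} (hd : D d) : ¬ Vv s t t' d := fun hv =>
  (h.nc d hd).elim fun d' e => e.2 (vcomm h hv (h.md d' e.1))

theorem ptc {x : H} (hx : x ∈ Pt St T) : Vv s t t' x ∨ D x := by
  have := h.pts x hx.1 hx.2.1
  have := hx.2.2
  unfold Vv; tauto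

theorem pt_cj {g x : H} (hx : x ∈ Pt St T) (e : g * x * g⁻¹ ∈ T) : g * x * g⁻¹ ∈ Pt St T :=
  ⟨e, h.stc g x hx.2.1, fun e => hx.2.2 (by simpa using e)⟩

theorem tN {g : H} (hg : g ∈ T) : g ∈ normalizer (Pt St T) :=
  mem_normalizer_fintype fun _ hx => pt_cj h hx (mul_mem (mul_mem hg hx.1) (inv_mem hg))

theorem nV {g x : H} (hg : g ∈ normalizer (Pt St T)) (hx : Vv s t t' x) : Vv s t t' (g * x * g⁻¹) := by
  refine (ptc h ((hg x).1 (vpt h hx))).resolve_right fun hd => ?_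
  obtain ⟨d', h1, h2⟩ := h.nc _ hd
  have := (vcomm h hx ((inv_mem hg d').1 (h.md d' h1))).map (MulAut.conj g)
  exact h2 (by simpa [mul_assoc] using this)

theorem nD {g d : H} (hg : g ∈ normalizer (Pt St T)) (hd : D d) : D (g * d * g⁻¹) := by
  refine (ptc h ((hg d).1 (h.md d hd))).resolve_left fun hv => dv h hd ?_
  simpa [mul_assoc] using nV h (inv_mem hg) hv

theorem nU {g : H} (hg : g ∈ normalizer (Pt St T)) : g * (s * t * t') * g⁻¹ = s * t * t' := by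
  have c1 : t * s = s * t := (h.cv t h.mt.1 h.mt.2.1).1.symm
  have c2 : t' * s = s * t' := (h.cv t' h.mt'.1 h.mt'.2.1).1.symm
  have c3 : t' * t = t * t' := (h.cv t' h.mt'.1 h.mt'.2.1).2.1.symm
  have d1 : ∀ x, t * (s * x) = s * (t * x) := fun x => by rw [← mul_assoc, c1, mul_assoc]
  have d2 : ∀ x, t' * (s * x) = s * (t' * x) := fun x => by rw [← mul_assoc, c2, mul_assoc]
  have d3 : ∀ x, t' * (t * x) = t * (t' * x) := fun x => by rw [← mul_assoc, c3, mul_assoc]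
  have a1 := nV h hg (x := s) (Or.inl rfl)
  have a2 := nV h hg (x := t) (Or.inr (Or.inl rfl))
  have a3 := nV h hg (x := t') (Or.inr (Or.inr rfl))
  have b1 : g * s * g⁻¹ ≠ g * t * g⁻¹ := fun e => h.ne.1 (cinj e)
  have b2 : g * s * g⁻¹ ≠ g * t' * g⁻¹ := fun e => h.ne.2.1 (cinj e)
  have b3 : g * t * g⁻¹ ≠ g * t' * g⁻¹ := fun e => h.ne.2.2 (cinj e)
  rw [← conj_mul, ← conj_mul]
  rcases a1 with a1 | a1 | a1 <;> rcases a2 with a2 | a2 | a2 <;> rcases a3 with a3 | a3 | a3 <;>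
    rw [a1, a2] at b1 <;> rw [a1, a3] at b2 <;> rw [a2, a3] at b3 <;> rw [a1, a2, a3] <;>
    first
    | exact absurd rfl b1
    | exact absurd rfl b2
    | exact absurd rfl b3
    | simp only [mul_assoc, c1, c2, c3, d1, d2, d3]

theorem pf_pt {d x : H} (hd : D d) (hx : x ∈ Pf s t t' d) : x ∈ Pt St T := by
  rcases mem_Pf.1 hx with rfl | rfl | hx
  exacts [h.md _ hd, h.md _ (h.du d hd).1, vpt h hx]

theorem pf_comm {d x y : H} (hd : D d) (hx : x ∈ Pf s t t' d) (hy : y ∈ Pf s t t' d) : Commute x y := by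
  have c := h.cv d (h.md d hd).1 (h.md d hd).2.1
  have e : Commute (s * t * t' * d) d := ((c.1.mul_left c.2.1).mul_left c.2.2).mul_left (Commute.refl d)
  rcases mem_Pf.1 hx with rfl | rfl | hx
  · rcases mem_Pf.1 hy with rfl | rfl | hy
    exacts [Commute.refl _, e.symm, (vcomm h hy (h.md _ hd)).symm]
  · rcases mem_Pf.1 hy with rfl | rfl | hy
    exacts [e, Commute.refl _, (vcomm h hy (h.md _ (h.du d hd).1)).symm]
  · exact vcomm h hx (pf_pt h hd hy)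

theorem card_Pf {d : H} (hd : D d) : (Pf s t t' d).card = 5 := by
  classical
  have a := dv h hd
  have b := dv h (h.du d hd).1
  have e := (h.du d hd).2.symm
  have := h.ne
  simp only [Vv, not_or] at a b
  rw [Pf, Finset.card_insert_of_notMem (by simp [e, a]), Finset.card_insert_of_notMem (by simp [b]),
    Finset.card_insert_of_notMem (by simp [this]), Finset.card_pair this.2.2]

theorem five {d g : H} (hd : D d) (hg : ∀ x ∈ Pf s t t' d, g * x * g⁻¹ ∈ T) :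
    ∃ d', D d' ∧ (∀ x ∈ Pf s t t' d, g * x * g⁻¹ ∈ Pf s t t' d') ∧
      ∀ x ∈ Pf s t t' d', g⁻¹ * x * g⁻¹⁻¹ ∈ Pf s t t' d := by
  classical
  have hc : ((Pf s t t' d).image fun x => g * x * g⁻¹).card = 5 := by
    rw [Finset.card_image_of_injective _ fun x y e => cinj e, card_Pf h hd]
  obtain ⟨x, hx, e⟩ : ∃ x ∈ Pf s t t' d, D (g * x * g⁻¹) := by
    by_contra hn
    have : ((Pf s t t' d).image fun x => g * x * g⁻¹) ⊆ {s, t, t'} := fun y hy => by
      obtain ⟨x, hx, rfl⟩ := Finset.mem_image.1 hy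
      simpa [Vv] using (ptc h (pt_cj h (pf_pt h hd hx) (hg x hx))).resolve_right fun e => hn ⟨x, hx, e⟩
    have h1 := (Finset.card_le_card this).trans Finset.card_le_three
    omega
  have h1 : ∀ y ∈ Pf s t t' d, g * y * g⁻¹ ∈ Pf s t t' (g * x * g⁻¹) := fun y hy => by
    rcases ptc h (pt_cj h (pf_pt h hd hy) (hg y hy)) with a | a
    · exact mem_Pf.2 (Or.inr (Or.inr a))
    · exact mem_Pf.2 ((h.cd _ _ e a ((pf_comm h hd hx hy).map (MulAut.conj g))).imp_right Or.inl)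
  refine ⟨_, e, h1, fun y hy => ?_⟩
  rw [← Finset.eq_of_subset_of_card_le (Finset.image_subset_iff.2 h1) (by rw [hc, card_Pf h e])] at hy
  obtain ⟨x, hx, rfl⟩ := Finset.mem_image.1 hy
  simpa [mul_assoc] using hx

theorem base {d : H} (hd : D d) : Tr (Pf s t t' d) c d (s * t * t' * d) := by
  have cu : Commute c (s * t * t') := (h.mc.2.1.mul_right h.mc.2.2.1).mul_right h.mc.2.2.2
  refine ⟨mem_Pf.2 (Or.inl rfl), mem_Pf.2 (Or.inr (Or.inl rfl)), (h.du d hd).2.symm, h.cc d hd, ?_,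
    fun x hx a b => ?_⟩
  · have h1 := h.du _ (h.du d hd).1
    rw [h.cc _ (h.du d hd).1]
    refine (h.cd _ _ hd h1.1 ?_).resolve_right h1.2
    have c := h.cv d (h.md d hd).1 (h.md d hd).2.1
    have e : Commute (s * t * t') d := (c.1.mul_left c.2.1).mul_left c.2.2
    exact (e.mul_left (e.mul_left (Commute.refl d))).symm
  · rcases mem_Pf.1 hx with rfl | rfl | rfl | rfl | rfl
    exacts [absurd rfl a, absurd rfl b, h.mc.2.1.mul_inv_cancel, h.mc.2.2.1.mul_inv_cancel,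
      h.mc.2.2.2.mul_inv_cancel]

theorem fin {d a : H} (hd : D d) (h1 : ∀ x ∈ Pf s t t' d, a * x * a⁻¹ ∈ Pf s t t' d)
    (h2 : ∀ x ∈ Pf s t t' d, a * (a * x * a⁻¹) * a⁻¹ = x)
    (h3 : ∀ x ∈ Pf s t t' d, ∀ y ∈ Pf s t t' d, a * x * a⁻¹ = x → a * y * a⁻¹ = y → x = y) : False := by
  obtain ⟨m, j, e⟩ := odd_pow_two a
  have k1 : ∀ x ∈ Pf s t t' d, a ^ (2 * m + 1) * x * (a ^ (2 * m + 1))⁻¹ = a * x * a⁻¹ := fun x hx => by
    have : Commute (a ^ 2) x := mul_inv_eq_iff_eq_mul.1 (by rw [pow_two, cmul, h2 x hx])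
    rw [pow_succ', cmul, pow_mul, (this.pow_left m).mul_inv_cancel]
  generalize a ^ (2 * m + 1) = b at e k1
  have hE : IsPGroup 2 (closure (Pf s t t' d : Set H)) :=
    T.2.to_le ((closure_le _).2 fun x hx => (pf_pt h hd hx).1)
  have hb : IsPGroup 2 (zpowers b) := fun ⟨_, i, rfl⟩ => ⟨j, Subtype.ext (by
    show (b ^ i) ^ 2 ^ j = 1
    rw [← zpow_natCast, ← zpow_mul, mul_comm, zpow_mul, zpow_natCast, e, one_zpow])⟩
  have hn : zpowers b ≤ normalizer ((closure (Pf s t t' d : Set H) : Subgroup H) : Set H) :=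
    zpowers_le.2 (mem_normalizer_fintype fun x hx =>
      (show closure (Pf s t t' d : Set H) ≤ (closure (Pf s t t' d : Set H)).comap
        (MulAut.conj b).toMonoidHom from (closure_le _).2 fun y hy =>
          show b * y * b⁻¹ ∈ _ from subset_closure (k1 y hy ▸ h1 y hy)) hx)
  obtain ⟨n, hT⟩ := into_sylow T (hE.to_sup_of_normal_left' hb hn)
  obtain ⟨d', hd', f1, f2⟩ := five h hd fun x hx => hT x (mem_sup_left (subset_closure hx))
  have hb' := hT b (mem_sup_right (mem_zpowers b))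
  have k2 : ∀ x, n * b * n⁻¹ * x * (n * b * n⁻¹)⁻¹ = n * (b * (n⁻¹ * x * n⁻¹⁻¹) * b⁻¹) * n⁻¹ :=
    fun x => by group
  have k3 : ∀ x ∈ Pf s t t' d', n * b * n⁻¹ * x * (n * b * n⁻¹)⁻¹ = x → x = s := fun x hx e => by
    have ms : s ∈ Pf s t t' d' := mem_Pf.2 (Or.inr (Or.inr (Or.inl rfl)))
    have k : ∀ x ∈ Pf s t t' d', n * b * n⁻¹ * x * (n * b * n⁻¹)⁻¹ = x →
        a * (n⁻¹ * x * n⁻¹⁻¹) * a⁻¹ = n⁻¹ * x * n⁻¹⁻¹ := fun x hx e => by
      rw [← k1 _ (f2 x hx)]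
      exact cinj (g := n) (by rw [← k2, e]; group)
    exact cinj (h3 _ (f2 x hx) _ (f2 s ms) (k x hx e) (k s ms (h.cs _ hb').mul_inv_cancel))
  have md : d' ∈ Pf s t t' d' := mem_Pf.2 (Or.inl rfl)
  have k4 : n * b * n⁻¹ * d' * (n * b * n⁻¹)⁻¹ ∈ Pf s t t' d' := by
    rw [k2, k1 _ (f2 _ md)]; exact f1 _ (h1 _ (f2 _ md))
  rcases mem_Pf.1 k4 with e' | e' | e'
  · exact dv h hd' (Or.inl (k3 _ md e'))
  · exact h.ne.1 (k3 t (mem_Pf.2 (Or.inr (Or.inr (Or.inr (Or.inl rfl))))) (h.fin _ hb' _ hd' e')).symm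
  · exact dv h (nD h (tN h hb') hd') e'

theorem dbl {d c1 c2 : H} (hd : D d) (t1 : Tr (Pf s t t' d) c1 p q) (t2 : Tr (Pf s t t' d) c2 p' q')
    (n1 : p ≠ p') (n2 : p ≠ q') (n3 : q ≠ p') (n4 : q ≠ q') : False := by
  classical
  have a1 : c1 * c2 * p * (c1 * c2)⁻¹ = q := by rw [cmul, t2.fix p t1.mp n1 n2, t1.e1]
  have a2 : c1 * c2 * q * (c1 * c2)⁻¹ = p := by rw [cmul, t2.fix q t1.mq n3 n4, t1.e2]
  have a3 : c1 * c2 * p' * (c1 * c2)⁻¹ = q' := by rw [cmul, t2.e1, t1.fix q' t2.mq n2.symm n4.symm]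
  have a4 : c1 * c2 * q' * (c1 * c2)⁻¹ = p' := by rw [cmul, t2.e2, t1.fix p' t2.mp n1.symm n3.symm]
  have hc : (Pf s t t' d \ {p, q, p', q'}).card ≤ 1 := by
    rw [Finset.card_sdiff_of_subset (by simp [Finset.insert_subset_iff, t1.mp, t1.mq, t2.mp, t2.mq]),
      card_Pf h hd, Finset.card_insert_of_notMem (by simp [t1.ne, n1, n2]),
      Finset.card_insert_of_notMem (by simp [n3, n4]), Finset.card_pair t2.ne]
  have key : ∀ x ∈ Pf s t t' d, c1 * c2 * x * (c1 * c2)⁻¹ = x → x ∈ Pf s t t' d \ {p, q, p', q'} :=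
    fun x hx e => by
    simp only [Finset.mem_sdiff, hx, true_and, Finset.mem_insert, Finset.mem_singleton]
    rintro (rfl | rfl | rfl | rfl)
    exacts [t1.ne (e.symm.trans a1), t1.ne (a2.symm.trans e), t2.ne (e.symm.trans a3),
      t2.ne (a4.symm.trans e)]
  refine fin h (a := c1 * c2) hd (fun x hx => cmul c1 c2 x ▸ (t1.maps (t2.maps hx).1).1) (fun x hx => ?_)
    fun x hx y hy e1 e2 => Finset.card_le_one.1 hc _ (key x hx e1) _ (key y hy e2)
  by_cases b1 : x = p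
  · rw [b1, a1, a2]
  by_cases b2 : x = q
  · rw [b2, a2, a1]
  by_cases b3 : x = p'
  · rw [b3, a3, a4]
  by_cases b4 : x = q'
  · rw [b4, a4, a3]
  have : c1 * c2 * x * (c1 * c2)⁻¹ = x := by rw [cmul, t2.fix x hx b3 b4, t1.fix x hx b1 b2]
  rw [this, this]

theorem exx : ∃ x ∈ normalizer (Pt St T), ∀ v, Vv s t t' v → x * v * x⁻¹ ≠ v := by
  have key : ∀ v, Vv s t t' v → ∃ g ∈ normalizer (Pt St T), g * v * g⁻¹ = s := fun v hv => by
    obtain ⟨g, e, hg⟩ := h.ext v (vpt h hv).1 (vpt h hv).2.1 (vpt h hv).2.2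
    exact ⟨g, mem_normalizer_fintype fun x hx => pt_cj h hx (hg x hx.1 (vcomm h hv hx).symm), e⟩
  obtain ⟨g, hg, e⟩ := key t (Or.inr (Or.inl rfl))
  obtain ⟨k, hk, e'⟩ := key t' (Or.inr (Or.inr rfl))
  obtain ⟨n1, n2, n3⟩ := h.ne
  by_contra hn
  push Not at hn
  obtain ⟨v, hv, a⟩ := hn g hg
  obtain ⟨w, hw, b⟩ := hn k hk
  have a1 : g * t' * g⁻¹ = t' := by
    rcases hv with rfl | rfl | rfl
    exacts [absurd (cinj (a.trans e.symm)) n1, absurd (e.symm.trans a) n1, a]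
  have b1 : k * t * k⁻¹ = t := by
    rcases hw with rfl | rfl | rfl
    exacts [absurd (cinj (b.trans e'.symm)) n2, b, absurd (e'.symm.trans b) n2]
  have a2 : g * s * g⁻¹ = t := by
    rcases nV h hg (x := s) (Or.inl rfl) with a | a | a
    exacts [absurd (cinj (a.trans e.symm)) n1, a, absurd (cinj (a.trans a1.symm)) n2]
  have b2 : k * s * k⁻¹ = t' := by
    rcases nV h hk (x := s) (Or.inl rfl) with a | a | a
    exacts [absurd (cinj (a.trans e'.symm)) n2, absurd (cinj (a.trans b1.symm)) n1, a]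
  obtain ⟨u, hu, c⟩ := hn _ (mul_mem hg hk)
  rw [cmul] at c
  rcases hu with rfl | rfl | rfl
  · rw [b2, a1] at c; exact n2 c.symm
  · rw [b1, e] at c; exact n1 c
  · rw [e', a2] at c; exact n3 c

theorem exx' {d : H} (hd : D d) : ∃ x ∈ normalizer (Pt St T), x * d * x⁻¹ = d ∧
    ∀ v, Vv s t t' v → x * v * x⁻¹ ≠ v := by
  obtain ⟨x, hx, nf⟩ := exx h
  have nf2 : ∀ v, Vv s t t' v → x * (x * v * x⁻¹) * x⁻¹ ≠ v := fun v hv e => by
    obtain ⟨u, hu, a, b, c⟩ := third h.ne hv (nV h hx hv) (nf v hv).symm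
    rcases c _ (nV h hx hu) with c | c | c
    exacts [b (cinj (c.trans e.symm)), a (cinj c), nf u hu c]
  obtain ⟨l, hl, e⟩ := h.pig _ _ _ hd (nD h hx hd) (nD h hx (nD h hx hd))
  have lN := tN h (h.md l hl).1
  have lv : ∀ {v}, Vv s t t' v → l * v * l⁻¹ = v := fun hv =>
    (vcomm h hv (h.md l hl)).symm.mul_inv_cancel
  have k : ∀ {y v : H}, l⁻¹ * y * v * (l⁻¹ * y)⁻¹ = v ↔ y * v * y⁻¹ = l * v * l⁻¹ := fun {y v} =>
    ⟨fun e => by (conv_rhs => rw [← e]); group, fun e => by rw [cmul, e]; group⟩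
  rcases e with e | e | e
  · exact ⟨_, mul_mem (inv_mem lN) hx, k.2 e.symm, fun v hv e => nf v hv ((k.1 e).trans (lv hv))⟩
  · exact ⟨_, mul_mem (inv_mem lN) (mul_mem hx hx), k.2 ((cmul ..).trans e.symm),
      fun v hv e => nf2 v hv ((cmul ..).symm.trans ((k.1 e).trans (lv hv)))⟩
  · refine ⟨(x * x)⁻¹ * (l * x), mul_mem (inv_mem (mul_mem hx hx)) (mul_mem lN hx),
      by rw [cmul, cmul, e]; group, fun v hv e => nf v hv (cinj (g := x) ?_)⟩
    rw [cmul, cmul, lv (nV h hx hv)] at e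
    conv_lhs => rw [← e]
    group

end BB

open BB in
theorem Five.false {s t t' c : H} {D : H → Prop} (h : Five St T s t t' c D) : False := by
  obtain ⟨d, hd⟩ := h.ex
  obtain ⟨x, hx, xd, nf⟩ := exx' h hd
  have md : d ∈ Pf s t t' d := mem_Pf.2 (Or.inl rfl)
  obtain ⟨g, e, hg⟩ := h.ext d (h.md d hd).1 (h.md d hd).2.1 (h.md d hd).2.2
  obtain ⟨d', hd', f1, f2⟩ := five h hd fun y hy => hg y (pf_pt h hd hy).1 (pf_comm h hd hy md)
  have t0 := base h hd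
  have t1 := (base h hd').cj f2 (by simpa using f1)
  have nd : ∀ y, D y → d ≠ g⁻¹ * y * g⁻¹⁻¹ := fun y hy e' =>
    dv h hy (Or.inl (by rw [← e, e']; group))
  have nP : ∀ x ∈ normalizer (Pt St T), x * d * x⁻¹ = d → ∀ y ∈ Pf s t t' d,
      x * y * x⁻¹ ∈ Pf s t t' d := fun x hx xd y hy => by
    rcases mem_Pf.1 hy with rfl | rfl | hy
    · rwa [xd]
    · rwa [← conj_mul, nU h hx, xd]
    · exact mem_Pf.2 (Or.inr (Or.inr (nV h hx hy)))
  have key : ∀ c' v, Tr (Pf s t t' d) c' (s * t * t' * d) v → d ≠ v → False := fun c' v t2 n => by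
    have hv : Vv s t t' v := ((mem_Pf.1 t2.mq).resolve_left n.symm).resolve_left t2.ne.symm
    have t3 := t2.cj (w := c) (fun y hy => (t0.maps hy).1) fun y hy => t0.maps' hy
    have t4 := t2.cj (nP x hx xd) (nP _ (inv_mem hx) (by (conv_lhs => rw [← xd]); group))
    rw [t0.e2, t0.fix v t2.mq n.symm t2.ne.symm] at t3
    rw [← conj_mul, nU h hx, xd] at t4
    exact dbl h hd t3 t4 t0.ne (fun e => dv h hd (e ▸ nV h hx hv)) t2.ne.symm (nf v hv).symm
  by_cases a : s * t * t' * d = g⁻¹ * d' * g⁻¹⁻¹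
  · exact key _ _ (a ▸ t1) (nd _ (h.du _ hd').1)
  by_cases b : s * t * t' * d = g⁻¹ * (s * t * t' * d') * g⁻¹⁻¹
  · exact key _ _ (b ▸ t1.symm) (nd _ hd')
  exact dbl h hd t0 t1 (nd _ hd') (nd _ (h.du _ hd').1) a b

end H99.GD
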