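import Mathlib
import Cfsg.Agent.Base
import Cfsg.Agent.Lib.PS4.Q

/-! # Finite subgroups of `GL₂(D)`, `D` a division ring of characteristic zero: definitions -/

set_option autoImplicit false

namespace H99.GD

open H13.PS QuaternionGroup

/-- two by two matrices -/
abbrev M2 (D : Type*) : Type _ := Matrix (Fin 2) (Fin 2) D

/-- the conclusion of the theorem -/
def Concl (S : Type*) [Group S] : Prop :=
  ∃ (F : Type) (_ : Field F) (_ : Fintype F), (Fintype.card F = 5 ∨ Fintype.card F = 9) ∧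
    Nonempty (S ≃* Matrix.ProjectiveSpecialLinearGroup (Fin 2) F)

/-- no invariant line -/
def Irr {G D : Type*} [Group G] [DivisionRing D] (ρ : G →* M2 D) : Prop :=
  ∀ e : M2 D, e * e = e → e ≠ 0 → e ≠ 1 → ∃ g, e * ρ g * (1 - e) ≠ 0

/-- `f` is a minimal cover of the non-abelian simple group `S` -/
structure Min {G S : Type*} [Group G] [Group S] (f : G →* S) : Prop where
  simple : IsSimpleGroup S
  nc : ¬ IsMulCommutative S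
  surj : Function.Surjective f
  min : ∀ K : Subgroup G, K.map f = ⊤ → K = ⊤

/-- `f` is a cover of a non-abelian simple group with kernel `{1, z}` -/
structure Cov {G H : Type*} [Group G] [Group H] (f : G →* H) (z : G) : Prop where
  simple : IsSimpleGroup H
  nc : ¬ IsMulCommutative H
  surj : Function.Surjective f
  ker : ∀ g, f g = 1 ↔ g = 1 ∨ g = z

/-- an involution different from `z` -/
def Nci {G : Type*} [Group G] (z s : G) : Prop := s * s = 1 ∧ s ≠ 1 ∧ s ≠ z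

/-- `z` is a central involution lying in every four-group -/
structure Ax {G : Type*} [Group G] (z : G) : Prop where
  zz : z * z = 1
  ne : z ≠ 1
  zc : ∀ g, g * z = z * g
  f1 : ∀ s t, Nci z s → Nci z t → s * t = t * s → t = s ∨ t = z * s

/-- the normalised rational trace -/
structure Chi {G : Type*} [Group G] (z : G) (χ : G → ℚ) : Prop where
  one : χ 1 = 2
  cj : ∀ g h, χ (g * h * g⁻¹) = χ h
  neg : ∀ g, χ (z * g) = -χ g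
  gal : ∀ (g : G) (n : ℕ), n.Coprime (orderOf g) → χ (g ^ n) = χ g
  sub : ∀ X : Subgroup G, X ≠ ⊥ → ∑ᶠ x : X, χ x = 0 ∨ ∑ᶠ x : X, χ x = Nat.card X
  norm : ∀ X : Subgroup G, (Nat.card X : ℚ) * ∑ᶠ g : G, χ g ^ 2 ≤ Nat.card G * ∑ᶠ x : X, χ x ^ 2

/-- the wreath product of a generalised quaternion group with a swap: `⟨l, r, s⟩ = diag(l, r) * swap ^ s` -/
@[ext] structure Wr (k : ℕ) where
  /-- first coordinate -/
  l : QG k
  /-- second coordinate -/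
  r : QG k
  /-- the swap -/
  s : Bool
  deriving DecidableEq

namespace Wr

variable {k : ℕ}

instance : Mul (Wr k) :=
  ⟨fun a b => ⟨a.l * cond a.s b.r b.l, a.r * cond a.s b.l b.r, xor a.s b.s⟩⟩
instance : One (Wr k) := ⟨⟨1, 1, false⟩⟩
instance : Inv (Wr k) := ⟨fun a => ⟨(cond a.s a.r a.l)⁻¹, (cond a.s a.l a.r)⁻¹, a.s⟩⟩

theorem one_def : (1 : Wr k) = ⟨1, 1, false⟩ := rfl
@[simp] theorem mul_ff (x y x' y' : QG k) (b : Bool) :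
    (⟨x, y, false⟩ * ⟨x', y', b⟩ : Wr k) = ⟨x * x', y * y', b⟩ := by cases b <;> rfl
@[simp] theorem mul_tt (x y x' y' : QG k) (b : Bool) :
    (⟨x, y, true⟩ * ⟨x', y', b⟩ : Wr k) = ⟨x * y', y * x', !b⟩ := by cases b <;> rfl
@[simp] theorem inv_ff (x y : QG k) : (⟨x, y, false⟩ : Wr k)⁻¹ = ⟨x⁻¹, y⁻¹, false⟩ := rfl
@[simp] theorem inv_tt (x y : QG k) : (⟨x, y, true⟩ : Wr k)⁻¹ = ⟨y⁻¹, x⁻¹, true⟩ := rfl

instance : Group (Wr k) := Group.ofLeftAxioms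
  (by rintro ⟨x, y, _ | _⟩ ⟨x', y', _ | _⟩ ⟨x'', y'', _ | _⟩ <;> simp [mul_assoc])
  (by rintro ⟨x, y, b⟩; simp [one_def])
  (by rintro ⟨x, y, _ | _⟩ <;> simp [one_def])

instance : Fintype (Wr k) := Fintype.ofEquiv (QG k × QG k × Bool)
  ⟨fun p => ⟨p.1, p.2.1, p.2.2⟩, fun m => (m.l, m.r, m.s), fun _ => rfl, fun _ => rfl⟩

end Wr

/-- the scalar `-1` -/
def ze (k : ℕ) : Wr k := ⟨z0 k, z0 k, false⟩
/-- `diag(1, -1)` -/
def si (k : ℕ) : Wr k := ⟨1, z0 k, false⟩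
/-- the swap -/
def ta (k : ℕ) : Wr k := ⟨1, 1, true⟩
/-- the scalar `i` -/
def up (k : ℕ) : Wr k := ⟨u0 k, u0 k, false⟩

/-- membership in the cyclic subgroup of index two -/
def isA {k : ℕ} : QG k → Bool
  | a _ => true
  | xa _ => false

/-- the exponent -/
def ix {k : ℕ} : QG k → ZM k
  | a i => i
  | xa i => i

/-- the map `a i ↦ a (κ i)`, `xa i ↦ xa (κ i + l)` -/
def th {k : ℕ} (κ l : ZM k) : QG k → QG k
  | a i => a (κ * i)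
  | xa i => xa (κ * i + l)

/-- The Sylow 2-subgroup `T` of `H = G / ±1` is the image of `Γ ≤ Q ≀ 2`; `St h` says that the preimages
of `h` in `G` have square one. -/
structure Fr {H : Type*} [Group H] {k : ℕ} (Γ : Subgroup (Wr k)) (Ψ : Wr k → H) (St : H → Prop)
    (T : Sylow 2 H) : Prop where
  simple : IsSimpleGroup H
  nc : ¬ IsMulCommutative H
  mul : ∀ {m n : Wr k}, m ∈ Γ → n ∈ Γ → Ψ (m * n) = Ψ m * Ψ n
  ker : ∀ {m : Wr k}, m ∈ Γ → (Ψ m = 1 ↔ m = 1 ∨ m = ze k)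
  syl : ∀ g : H, g ∈ T ↔ ∃ m ∈ Γ, g = Ψ m
  stc : ∀ g h : H, St h → St (g * h * g⁻¹)
  st : ∀ {m : Wr k}, m ∈ Γ → (St (Ψ m) ↔ m * m = 1)
  hs : si k ∈ Γ
  ht : ta k ∈ Γ
  sj : ∀ x : QG k, ∃ y, (⟨x, y, false⟩ : Wr k) ∈ Γ
  int8 : ∀ x : QG k, x * x * (x * x) = z0 k → (⟨x, x, false⟩ : Wr k) ∈ Γ →
    (⟨x * x, 1, false⟩ : Wr k) ∉ Γ

/-- `Γ` is the graph of `th κ l` modulo signs -/
def Gr {k : ℕ} (Γ : Subgroup (Wr k)) (κ l : ZM k) : Prop :=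
  ∀ m : Wr k, m ∈ Γ ↔ m.r = th κ l m.l ∨ m.r = th κ l m.l * z0 k

/-- the case `2^(1+4).2` -/
def P2 (m : Wr 0) : Prop := isA m.l = isA m.r
/-- the case `2^(1+4).4` -/
def P4 (m : Wr 1) : Prop :=
  (ix m.l).val % 2 = (ix m.r).val % 2 ∧ (isA m.l = isA m.r ↔ (ix m.l).val % 2 = 0)

instance : DecidablePred P2 := fun m => inferInstanceAs (Decidable (isA m.l = isA m.r))
instance : DecidablePred P4 := fun m => inferInstanceAs (Decidable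
  ((ix m.l).val % 2 = (ix m.r).val % 2 ∧ (isA m.l = isA m.r ↔ (ix m.l).val % 2 = 0)))

/-- the normal forms of a frame -/
def Cases {H : Type*} [Group H] (St : H → Prop) (T : Sylow 2 H) : Prop :=
  (∃ (Γ : Subgroup (Wr 0)) (Ψ : Wr 0 → H), Fr Γ Ψ St T ∧ ∀ m, m ∈ Γ) ∨
  (∃ (Γ : Subgroup (Wr 0)) (Ψ : Wr 0 → H), Fr Γ Ψ St T ∧ ∀ m, m ∈ Γ ↔ P2 m) ∨
  (∃ (Γ : Subgroup (Wr 1)) (Ψ : Wr 1 → H), Fr Γ Ψ St T ∧ ∀ m, m ∈ Γ ↔ P4 m) ∨
  (∃ (Γ : Subgroup (Wr 0)) (Ψ : Wr 0 → H), Fr Γ Ψ St T ∧ Gr Γ 1 0) ∨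
  (∃ (k : ℕ) (Γ : Subgroup (Wr k)) (Ψ : Wr k → H) (l : ZM k), Fr Γ Ψ St T ∧ Gr Γ (-1) (2 * l + 1)) ∨
  (∃ (k : ℕ) (Γ : Subgroup (Wr k)) (Ψ : Wr k → H), k ≠ 0 ∧ Fr Γ Ψ St T ∧ Gr Γ 1 (cq k)) ∨
  (∃ (k : ℕ) (Γ : Subgroup (Wr k)) (Ψ : Wr k → H) (κ : ZM k), k ≠ 0 ∧ Fr Γ Ψ St T ∧
    Gr Γ (4 * κ + 1) 0)

/-- The points (involutions with `St`) of `T` are `s, t, t'` and the set `D`. -/
structure Five {H : Type*} [Group H] (St : H → Prop) (T : Sylow 2 H) (s t t' c : H) (D : H → Prop) :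
    Prop where
  stc : ∀ g h : H, St h → St (g * h * g⁻¹)
  sq : ∀ g ∈ T, St g → g * g = 1
  pts : ∀ g ∈ T, St g → g = 1 ∨ g = s ∨ g = t ∨ g = t' ∨ D g
  ms : s ∈ T ∧ St s ∧ s ≠ 1
  mt : t ∈ T ∧ St t ∧ t ≠ 1
  mt' : t' ∈ T ∧ St t' ∧ t' ≠ 1
  md : ∀ d, D d → d ∈ T ∧ St d ∧ d ≠ 1
  ne : s ≠ t ∧ s ≠ t' ∧ t ≠ t'
  cv : ∀ g ∈ T, St g → Commute s g ∧ Commute t g ∧ Commute t' g
  ex : ∃ d, D d
  nc : ∀ d, D d → ∃ d', D d' ∧ ¬ Commute d d'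
  du : ∀ d, D d → D (s * t * t' * d) ∧ s * t * t' * d ≠ d
  cd : ∀ d d', D d → D d' → Commute d d' → d' = d ∨ d' = s * t * t' * d
  mc : c ∈ T ∧ Commute c s ∧ Commute c t ∧ Commute c t'
  cc : ∀ d, D d → c * d * c⁻¹ = s * t * t' * d
  pig : ∀ d e f, D d → D e → D f →
    ∃ l, D l ∧ (l * d * l⁻¹ = e ∨ l * d * l⁻¹ = f ∨ l * e * l⁻¹ = f)
  cs : ∀ g ∈ T, Commute g s
  fin : ∀ g ∈ T, ∀ d, D d → g * d * g⁻¹ = s * t * t' * d → g * t * g⁻¹ = t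
  ext : ∀ y ∈ T, St y → y ≠ 1 → ∃ g : H, g * y * g⁻¹ = s ∧ ∀ x ∈ T, Commute x y → g * x * g⁻¹ ∈ T

end H99.GD
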