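import Cfsg.Agent.Lib.Tech58.Extremal
import Cfsg.Agent.Lib.GD.Defs

set_option autoImplicit false

namespace H99.GD

open H13.PS QuaternionGroup Subgroup

section General

variable {G S : Type*} [Group G] [Group S] {f : G →* S} {z : G}

theorem simple_perfect [IsSimpleGroup S] (h : ¬ IsMulCommutative S) : commutator S = ⊤ :=
  (commutator S).normal_of_characteristic.eq_bot_or_eq_top.resolve_left fun e =>
    h ⟨⟨fun a b => commutatorElement_eq_one_iff_mul_comm.1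
      (mem_bot.1 (e.le (commutator_mem_commutator (mem_top _) (mem_top _))))⟩⟩

theorem Min.perfect (h : Min f) : commutator G = ⊤ := by
  have := h.simple
  refine h.min _ ?_
  rw [commutator_def, map_commutator, ← MonoidHom.range_eq_map, MonoidHom.range_eq_top.2 h.surj]
  exact simple_perfect h.nc

theorem Min.normal (h : Min f) (M : Subgroup G) [hM : M.Normal] : M = ⊤ ∨ M ≤ f.ker := by
  have := h.simple
  rcases (hM.map f h.surj).eq_bot_or_eq_top with e | e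
  · exact Or.inr ((Subgroup.map_eq_bot_iff _).1 e)
  · exact Or.inl (h.min _ e)

theorem idx2 (h : commutator G = ⊤) (N : Subgroup G) : N.index ≠ 2 := fun e => by
  have := normal_of_index_eq_two e
  have : Fact (Nat.Prime 2) := ⟨Nat.prime_two⟩
  have hc : IsCyclic (G ⧸ N) := isCyclic_of_prime_card (p := 2) e
  have : commutator G ≤ N := by
    rw [← QuotientGroup.ker_mk' N]
    let _ := hc.commGroup
    exact Abelianization.commutator_subset_ker (QuotientGroup.mk' N)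
  rw [h, top_le_iff] at this
  rw [this, index_top] at e
  omega

theorem simple_center [IsSimpleGroup S] (h : ¬ IsMulCommutative S) {c : S} (hc : ∀ g, g * c = c * g) :
    c = 1 := by
  rcases (inferInstance : (center S).Normal).eq_bot_or_eq_top with e | e
  · exact mem_bot.1 (e.le (mem_center_iff.2 hc))
  · exact (h ⟨⟨fun a b => mem_center_iff.1 (e.ge (mem_top b)) a⟩⟩).elim

theorem Nci.cj (hz : Ax z) {s : G} (h : Nci z s) (g : G) : Nci z (g * s * g⁻¹) := by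
  refine ⟨?_, fun e => h.2.1 ?_, fun e => h.2.2 ?_⟩
  · calc g * s * g⁻¹ * (g * s * g⁻¹) = g * (s * s) * g⁻¹ := by group
      _ = 1 := by rw [h.1]; group
  · calc s = g⁻¹ * (g * s * g⁻¹) * g := by group
      _ = 1 := by rw [e]; group
  · calc s = g⁻¹ * (g * s * g⁻¹) * g := by group
      _ = z := by rw [e, hz.zc]; group

theorem Nci.zmul (hz : Ax z) {s : G} (h : Nci z s) : Nci z (z * s) := by
  refine ⟨?_, fun e => h.2.2 ?_, fun e => h.2.1 (mul_left_cancel (e.trans (mul_one z).symm))⟩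
  · calc z * s * (z * s) = z * (s * z) * s := by group
      _ = 1 := by rw [hz.zc, ← mul_assoc, hz.zz, one_mul, h.1]
  · calc s = z * z * s := by rw [hz.zz, one_mul]
      _ = z := by rw [mul_assoc, e, mul_one]

theorem two_zpowers {x : G} {j : ℕ} (h : x ^ 2 ^ j = 1) : IsPGroup 2 (zpowers x) := fun y => by
  obtain ⟨y, n, rfl⟩ := y
  exact ⟨j, Subtype.ext (by
    change (x ^ n) ^ 2 ^ j = 1
    rw [← zpow_natCast, ← zpow_mul, mul_comm, zpow_mul, zpow_natCast, h, one_zpow])⟩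

theorem Ax.mem [Finite G] (hz : Ax z) (T : Sylow 2 G) : z ∈ T := by
  have : (zpowers z).Normal := ⟨fun x hx g => by
    obtain ⟨n, rfl⟩ := hx
    have : Commute g z := hz.zc g
    change g * z ^ n * g⁻¹ ∈ _
    rw [(this.zpow_right n).eq, mul_inv_cancel_right]
    exact zpow_mem (mem_zpowers z) n⟩
  exact (two_zpowers (j := 1) (by rw [pow_one, sq, hz.zz])).le_sylow_of_normal T (mem_zpowers z)

variable [Finite G]

theorem sylow_in (T : Sylow 2 G) {N X : Subgroup G} (hT : (T : Subgroup G) ≤ N)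
    (hX : IsPGroup 2 X) (hXN : X ≤ N) : ∃ n ∈ N, ∀ x ∈ X, n * x * n⁻¹ ∈ T := by
  have : Fact (Nat.Prime 2) := ⟨Nat.prime_two⟩
  obtain ⟨P, hP⟩ := (hX.comap_subtype (K := N)).exists_le_sylow
  obtain ⟨n, hn⟩ := MulAction.exists_smul_eq N P (T.subtype hT)
  refine ⟨n, n.2, fun x hx => ?_⟩
  have h1 : (⟨x, hXN hx⟩ : N) ∈ P := hP hx
  have h2 : n * ⟨x, hXN hx⟩ * n⁻¹ ∈ ((n • P : Sylow 2 N) : Subgroup N) := by
    rw [Sylow.coe_subgroup_smul]
    exact smul_mem_pointwise_smul _ (MulAut.conj n) _ h1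
  rw [hn] at h2
  exact h2

/-- extremal conjugation to a central element of a Sylow subgroup -/
theorem ext_center (T : Sylow 2 G) {c y : G} (hc : ∀ x ∈ T, Commute x c) (h : IsConj y c) :
    ∃ g : G, g * y * g⁻¹ = c ∧ ∀ x ∈ T, Commute x y → g * x * g⁻¹ ∈ T := by
  obtain ⟨g, rfl⟩ := isConj_iff.1 h
  obtain ⟨n, hn, h1⟩ := sylow_in T (N := centralizer {g * y * g⁻¹})
    (X := ((T : Subgroup G) ⊓ centralizer {y}).map (MulAut.conj g).toMonoidHom)
    (fun x hx => mem_centralizer_singleton_iff.2 (hc x hx)) ((T.isPGroup'.to_inf_left).map _) (by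
      rintro _ ⟨x, hx, rfl⟩
      have := mem_centralizer_singleton_iff.1 hx.2
      refine mem_centralizer_singleton_iff.2 ?_
      change g * x * g⁻¹ * _ = _ * (g * x * g⁻¹)
      calc _ = g * (x * y) * g⁻¹ := by group
        _ = _ := by rw [this]; group)
  refine ⟨n * g, ?_, fun x hx c => ?_⟩
  · calc _ = n * (g * y * g⁻¹) * n⁻¹ := by group
      _ = _ := by rw [mem_centralizer_singleton_iff.1 hn, mul_inv_cancel_right]
  · have := h1 (g * x * g⁻¹) ⟨x, ⟨hx, mem_centralizer_singleton_iff.2 c⟩, rfl⟩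
    convert this using 1
    group

theorem ext_sub (T : Sylow 2 G) {K X : Subgroup G} (hT : (T : Subgroup G) ≤ normalizer (K : Set G))
    (hX : IsPGroup 2 X) (hXK : X ≤ normalizer (K : Set G)) :
    ∃ n ∈ normalizer (K : Set G), ∀ x ∈ X, n * x * n⁻¹ ∈ T := sylow_in T hT hX hXK

theorem into_sylow (T : Sylow 2 G) {X : Subgroup G} (hX : IsPGroup 2 X) :
    ∃ n : G, ∀ x ∈ X, n * x * n⁻¹ ∈ T :=
  let ⟨n, _, h⟩ := sylow_in T le_top hX le_top
  ⟨n, h⟩

theorem odd_pow_two (g : G) : ∃ m j : ℕ, (g ^ (2 * m + 1)) ^ 2 ^ j = 1 := by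
  obtain ⟨j, n, hn, e⟩ := Nat.exists_eq_two_pow_mul_odd (orderOf_pos g).ne'
  obtain ⟨m, rfl⟩ := hn
  exact ⟨m, j, by rw [← pow_mul, mul_comm, ← e, pow_orderOf_eq_one]⟩

theorem odd_pow_mem (T : Sylow 2 G) {n : G} (h : ∀ x ∈ T, n * x * n⁻¹ ∈ T) :
    ∃ m : ℕ, n ^ (2 * m + 1) ∈ T := by
  obtain ⟨m, j, e⟩ := odd_pow_two n
  have hn : n ∈ normalizer ((T : Subgroup G) : Set G) := mem_normalizer_fintype h
  have h2 : zpowers (n ^ (2 * m + 1)) ≤ normalizer ((T : Subgroup G) : Set G) :=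
    zpowers_le.2 (pow_mem hn _)
  have := T.is_maximal' (T.isPGroup'.to_sup_of_normal_left' (two_zpowers e) h2) le_sup_left
  exact ⟨m, this.le (mem_sup_right (mem_zpowers _))⟩

variable {χ : G → ℚ}

theorem Chi.equiv {G' : Type*} [Group G'] (h : Chi z χ) (e : G ≃* G') :
    Chi (e z) (fun g => χ (e.symm g)) := by
  have key : ∀ (X : Subgroup G') (φ : G → ℚ), ∑ᶠ x : X, φ (e.symm x) =
      ∑ᶠ x : X.comap e.toMonoidHom, φ x := fun X φ =>
    finsum_eq_of_bijective (fun x : X => (⟨e.symm x, by simp⟩ : X.comap e.toMonoidHom))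
      ⟨fun a b c => Subtype.ext (e.symm.injective (congrArg Subtype.val c)),
        fun a => ⟨⟨e a, a.2⟩, Subtype.ext (e.symm_apply_apply _)⟩⟩ fun _ => rfl
  have hc : ∀ X : Subgroup G', Nat.card X = Nat.card (X.comap e.toMonoidHom) := fun X =>
    Nat.card_congr ⟨fun x => ⟨e.symm x, by simp⟩, fun a => ⟨e a, a.2⟩,
      fun a => Subtype.ext (e.apply_symm_apply _), fun a => Subtype.ext (e.symm_apply_apply _)⟩
  refine ⟨by simpa using h.one, fun a b => by simpa using h.cj _ _, fun a => by simpa using h.neg _,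
    fun a n c => ?_, fun X hX => ?_, fun X => ?_⟩
  · rw [map_pow]
    exact h.gal _ _ (by rwa [e.symm.orderOf_eq])
  · rw [key X χ, hc]
    refine h.sub _ fun c => hX ?_
    rw [← card_eq_one, hc, c, card_bot]
  · rw [key X fun g => χ g ^ 2, hc, ← Nat.card_congr e.toEquiv,
      finsum_eq_of_bijective e.symm e.symm.bijective (g := fun g => χ g ^ 2) fun _ => rfl]
    exact h.norm _

theorem Chi.two (h : Chi z χ) (hz : z * z = 1) {g : G} {j : ℕ} (hg : g ^ 2 ^ (j + 1) = z) : χ g = 0 := by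
  have h1 : orderOf g ∣ 2 ^ (j + 2) := orderOf_dvd_of_pow_eq_one (by
    rw [pow_succ 2 (j + 1), pow_mul, hg, sq, hz])
  have h2 := h.gal g (2 ^ (j + 1) + 1) (Nat.Coprime.coprime_dvd_right h1
    (Nat.Coprime.pow_right _ (Odd.coprime_two_right ⟨2 ^ j, by ring⟩)))
  rw [pow_succ g, hg, h.neg] at h2
  linarith

theorem sum_zpowers (g : G) (φ : G → ℚ) :
    ∑ᶠ x : zpowers g, φ x = ∑ i ∈ Finset.range (orderOf g), φ (g ^ i) := by
  rw [← Fin.sum_univ_eq_sum_range (fun i => φ (g ^ i)), ← finsum_eq_sum_of_fintype]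
  exact (finsum_eq_of_bijective (finEquivZPowers (isOfFinOrder_of_finite g))
    (finEquivZPowers _).bijective fun _ => rfl).symm

theorem Chi.cyc (h : Chi z χ) {g : G} (hg : g ≠ 1) :
    ∑ i ∈ Finset.range (orderOf g), χ (g ^ i) = 0 ∨
      ∑ i ∈ Finset.range (orderOf g), χ (g ^ i) = orderOf g := by
  have := h.sub (zpowers g) (zpowers_ne_bot.2 hg)
  rwa [sum_zpowers, Nat.card_zpowers] at this

theorem Chi.three (h : Chi z χ) {g : G} (hg : orderOf g = 3) : χ g = -1 ∨ χ g = 1 / 2 := by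
  have h1 := h.cyc (g := g) (by rintro rfl; simp at hg)
  have h2 := h.gal g 2 (by rw [hg]; norm_num)
  simp only [hg, Finset.sum_range_succ, Finset.range_zero, Finset.sum_empty, pow_zero, pow_one, h.one,
    h2] at h1
  rcases h1 with e | e
  · left; linarith
  · right; push_cast at e; linarith

theorem Chi.nine (h : Chi z χ) {g : G} (hg : orderOf g = 9) (h3 : χ (g ^ 3) = 1 / 2) : χ g ≠ 0 := by
  intro h0
  have h1 := h.cyc (g := g) (by rintro rfl; simp at hg)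
  have h2 : ∀ n : ℕ, n.Coprime 9 → χ (g ^ n) = 0 := fun n c => (h.gal g n (hg ▸ c)).trans h0
  have h6 : χ (g ^ 6) = 1 / 2 := by
    rw [← h3, show g ^ 6 = (g ^ 3) ^ 2 by rw [← pow_mul]]
    refine h.gal _ _ ?_
    rw [orderOf_pow' _ three_ne_zero, hg]
    norm_num
  simp only [hg, Finset.sum_range_succ, Finset.range_zero, Finset.sum_empty, pow_zero, h.one, h3, h6,
    h2 1 (by norm_num), h2 2 (by norm_num), h2 4 (by norm_num), h2 5 (by norm_num), h2 7 (by norm_num),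
    h2 8 (by norm_num)] at h1
  norm_num at h1

end General

section Frame

variable {k : ℕ}

theorem ze_comm (m : Wr k) : m * ze k = ze k * m := by
  obtain ⟨x, y, _ | _⟩ := m <;> simp [ze, z_comm]
theorem ze_sq : ze k * ze k = 1 := by simp [ze, zz, Wr.one_def]
theorem ze_ne : ze k ≠ 1 := fun e => z_ne (congrArg Wr.l e)
theorem mul_ze (x y : QG k) (b : Bool) : (⟨x, y, b⟩ : Wr k) * ze k = ⟨x * z0 k, y * z0 k, b⟩ := by
  cases b <;> simp [ze]

variable {H : Type*} [Group H] {Γ : Subgroup (Wr k)} {Ψ : Wr k → H} {St : H → Prop} {T : Sylow 2 H}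

namespace Fr

variable (h : Fr Γ Ψ St T)
include h

theorem hz : ze k ∈ Γ := by
  have := mul_mem (mul_mem (mul_mem h.ht h.hs) h.ht) h.hs
  simpa [ta, si, ze] using this
theorem one : Ψ 1 = 1 := (h.ker (one_mem _)).2 (Or.inl rfl)
theorem mz {m : Wr k} (hm : m ∈ Γ) : Ψ (m * ze k) = Ψ m := by
  rw [h.mul hm h.hz, (h.ker h.hz).2 (Or.inr rfl), mul_one]
theorem inv {m : Wr k} (hm : m ∈ Γ) : Ψ m⁻¹ = (Ψ m)⁻¹ :=
  eq_inv_of_mul_eq_one_left (by rw [← h.mul (inv_mem hm) hm, inv_mul_cancel, h.one])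
theorem eq {m n : Wr k} (hm : m ∈ Γ) (hn : n ∈ Γ) : Ψ m = Ψ n ↔ m = n ∨ m = n * ze k := by
  rw [eq_comm, ← inv_mul_eq_one, ← h.inv hn, ← h.mul (inv_mem hn) hm, h.ker (mul_mem (inv_mem hn) hm),
    inv_mul_eq_one, inv_mul_eq_iff_eq_mul, eq_comm]
theorem mem {m : Wr k} (hm : m ∈ Γ) : Ψ m ∈ T := (h.syl _).2 ⟨m, hm, rfl⟩
theorem cj {m n : Wr k} (hm : m ∈ Γ) (hn : n ∈ Γ) : Ψ m * Ψ n * (Ψ m)⁻¹ = Ψ (m * n * m⁻¹) := by
  rw [h.mul (mul_mem hm hn) (inv_mem hm), h.mul hm hn, h.inv hm]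
theorem comm {m n : Wr k} (hm : m ∈ Γ) (hn : n ∈ Γ) :
    Commute (Ψ m) (Ψ n) ↔ m * n = n * m ∨ m * n = n * m * ze k := by
  rw [commute_iff_eq, ← h.mul hm hn, ← h.mul hn hm, h.eq (mul_mem hm hn) (mul_mem hn hm)]
theorem sq {m : Wr k} (hm : m ∈ Γ) : Ψ m * Ψ m = 1 ↔ m * m = 1 ∨ m * m = ze k := by
  rw [← h.mul hm hm, h.ker (mul_mem hm hm)]
theorem stc' (g x : H) : St (g * x * g⁻¹) ↔ St x :=
  ⟨fun c => by simpa [mul_assoc] using h.stc g⁻¹ _ c, h.stc g x⟩
theorem s_ne : Ψ (si k) ≠ 1 := fun e => by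
  rcases (h.ker h.hs).1 e with c | c
  · exact z_ne (congrArg Wr.r c)
  · exact z_ne (congrArg Wr.l c).symm
theorem s_st : St (Ψ (si k)) := (h.st h.hs).2 (by simp [si, zz, Wr.one_def])
theorem s_comm : ∀ g ∈ T, Commute g (Ψ (si k)) := fun g hg => by
  obtain ⟨⟨x, y, b⟩, hm, rfl⟩ := (h.syl g).1 hg
  rw [h.comm hm h.hs]
  cases b
  · left; simp [si, z_comm]
  · right; simp [si, ze, ← z_comm, mzz]
theorem flip {x y : QG k} {b : Bool} (c : Bool) (hm : (⟨x, y, b⟩ : Wr k) ∈ Γ) :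
    (⟨x, y, c⟩ : Wr k) ∈ Γ := by
  have := mul_mem hm h.ht
  cases b <;> cases c
  exacts [hm, by simpa [ta] using this, by simpa [ta] using this, hm]
theorem swap {x y : QG k} {b : Bool} (hm : (⟨x, y, b⟩ : Wr k) ∈ Γ) : (⟨y, x, b⟩ : Wr k) ∈ Γ :=
  h.flip b (b := !b) (by simpa [ta] using mul_mem h.ht hm)

variable [Finite H]

/-- Thompson transfer with extremal conjugation -/
theorem thx {A : Type*} [CommGroup A] (δ : Wr k → A) (ε : A)
    (hδ : ∀ m ∈ Γ, ∀ n ∈ Γ, δ (m * n) = δ m * δ n) (h1 : δ (ze k) = 1)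
    (hε : ∀ m ∈ Γ, m * m = 1 ∨ m * m = ze k → δ m = 1 ∨ δ m = ε) {y : H} (hy : y * y = 1) (hT : y ∈ T) :
    ∃ (g : H) (m : Wr k), m ∈ Γ ∧ δ m = 1 ∧ g * y * g⁻¹ = Ψ m ∧
      ∀ x ∈ T, Commute x y → g * x * g⁻¹ ∈ T := by
  have := h.simple
  choose r hr er using fun x : (T : Subgroup H) => (h.syl x).1 x.2
  have key : ∀ m ∈ Γ, ∀ n ∈ Γ, Ψ m = Ψ n → δ m = δ n := fun m hm n hn e => by
    rcases (h.eq hm hn).1 e with rfl | rfl
    · rfl
    · rw [hδ n hn _ h.hz, h1, mul_one]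
  let φ : (T : Subgroup H) →* A := MonoidHom.mk' (fun x => δ (r x)) fun a b => by
    rw [← hδ _ (hr a) _ (hr b)]
    exact key _ (hr _) _ (mul_mem (hr a) (hr b)) (by rw [h.mul (hr a) (hr b), ← er, ← er, ← er]; rfl)
  obtain ⟨g, hg, h2, h3⟩ := H58.exists_extremal_conj (idx2 (simple_perfect h.nc)) T φ ε
    (fun s hs => hε _ (hr s) ((h.sq (hr s)).1 (by
      rw [← er, ← _root_.sq]; exact congrArg Subtype.val hs))) (y := y) (by rw [_root_.sq, hy])
    ((T : Subgroup H) ⊓ centralizer {y}) T.isPGroup'.to_inf_left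
    ⟨hT, mem_centralizer_singleton_iff.2 rfl⟩ inf_le_right
  refine ⟨g⁻¹, r ⟨_, hg⟩, hr _, h2, by rw [inv_inv, ← er], fun x hx c => ?_⟩
  rw [inv_inv]
  exact h3 x ⟨hx, mem_centralizer_singleton_iff.2 c⟩

theorem ext_s {y : H} (hT : y ∈ T) (hs : St y) (h1 : y ≠ 1) :
    ∃ g : H, g * y * g⁻¹ = Ψ (si k) ∧ ∀ x ∈ T, Commute x y → g * x * g⁻¹ ∈ T := by
  have hy : y * y = 1 := by
    obtain ⟨m, hm, rfl⟩ := (h.syl y).1 hT
    exact (h.sq hm).2 (Or.inl ((h.st hm).1 hs))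
  obtain ⟨g, ⟨a, b, c⟩, hm, h2, h3, h4⟩ := h.thx (fun m => cond m.s (-1 : ℤˣ) 1) (-1)
    (by rintro ⟨a, b, _ | _⟩ - ⟨a', b', _ | _⟩ - <;> simp) rfl
    (by rintro ⟨a, b, _ | _⟩ - - <;> simp) hy hT
  cases c
  swap
  · exact absurd (show (-1 : ℤˣ) = 1 from h2) (by decide)
  refine ⟨g, ?_, h4⟩
  have h5 := (h.st hm).1 (h3 ▸ h.stc g y hs)
  have h6 : Ψ ⟨a, b, false⟩ ≠ 1 := fun e => h1 (by
    rw [← h3] at e
    calc y = g⁻¹ * (g * y * g⁻¹) * g := by group
      _ = 1 := by rw [e]; group)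
  rw [Ne, h.ker hm] at h6
  rw [h3, h.eq hm h.hs]
  rcases invol (congrArg Wr.l h5) with rfl | rfl <;> rcases invol (congrArg Wr.r h5) with rfl | rfl
  · exact (h6 (Or.inl rfl)).elim
  · exact Or.inl rfl
  · exact Or.inr (by simp [si, ze, zz])
  · exact (h6 (Or.inr rfl)).elim

end Fr

end Frame

end H99.GD
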