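import Cfsg.Agent.Lib.GD.Bas

/-! Changes of coordinates of a frame. -/

set_option autoImplicit false

namespace H99.GD

open H13.PS QuaternionGroup Subgroup
open scoped MatrixGroups

variable {H : Type*} [Group H] {St : H → Prop} {T : Sylow 2 H} {k : ℕ} {Γ : Subgroup (Wr k)} {Ψ : Wr k → H}

namespace CA

/-- transport of a frame along an automorphism of the wreath product -/
theorem comap (h : Fr Γ Ψ St T) (γ : Wr k ≃* Wr k) (hz : γ (ze k) = ze k) (hs : γ (si k) ∈ Γ)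
    (ht : γ (ta k) ∈ Γ) (sj : ∀ x : QG k, ∃ y, γ ⟨x, y, false⟩ ∈ Γ)
    (int8 : ∀ x : QG k, x * x * (x * x) = z0 k → γ ⟨x, x, false⟩ ∈ Γ → γ ⟨x * x, 1, false⟩ ∉ Γ) :
    Fr (Γ.comap γ.toMonoidHom) (fun m => Ψ (γ m)) St T where
  simple := h.simple
  nc := h.nc
  mul := fun hm hn => by rw [map_mul]; exact h.mul hm hn
  ker := fun {m} hm => by
    rw [h.ker (m := γ m) hm, map_eq_one_iff γ γ.injective]
    nth_rw 1 [← hz]
    rw [γ.apply_eq_iff_eq]
  syl := fun g => (h.syl g).trans ⟨fun ⟨m, hm, e⟩ => ⟨γ.symm m, by simpa using hm, by simpa using e⟩,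
    fun ⟨m, hm, e⟩ => ⟨γ m, hm, e⟩⟩
  stc := h.stc
  st := fun {m} hm => by rw [h.st (m := γ m) hm, ← map_mul, map_eq_one_iff γ γ.injective]
  hs := hs
  ht := ht
  sj := sj
  int8 := int8

/-- the automorphism of the wreath product induced by an automorphism of the factor -/
def wrAut (α : QG k ≃* QG k) : Wr k ≃* Wr k where
  toFun m := ⟨α m.l, α m.r, m.s⟩
  invFun m := ⟨α.symm m.l, α.symm m.r, m.s⟩
  left_inv := by rintro ⟨x, y, b⟩; simp
  right_inv := by rintro ⟨x, y, b⟩; simp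
  map_mul' := by rintro ⟨x, y, _ | _⟩ ⟨x', y', b⟩ <;> simp

theorem wrAut_apply (α : QG k ≃* QG k) (x y : QG k) (b : Bool) :
    wrAut α ⟨x, y, b⟩ = ⟨α x, α y, b⟩ := rfl

theorem aut_z (α : QG k ≃* QG k) : α (z0 k) = z0 k :=
  (invol (by rw [← map_mul, zz, map_one])).resolve_left fun e =>
    z_ne ((map_eq_one_iff α α.injective).1 e)

/-- the shift -/
def sh (b : ZM k) : QG k → QG k
  | a i => a i
  | xa i => xa (i + b)

/-- an outer automorphism of `Q₈` -/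
def sw : QG 0 → QG 0
  | a i => xa 0 ^ i.val
  | xa i => a 1 * xa 0 ^ i.val

theorem sw_sw : ∀ x, sw (sw x) = x := by decide
theorem sw_mul : ∀ x y, sw (x * y) = sw x * sw y := by decide

end CA

open CA

/-- change of coordinates by an automorphism -/
theorem Fr.aut (h : Fr Γ Ψ St T) (α : QG k ≃* QG k) : ∃ (Γ' : Subgroup (Wr k)) (Ψ' : Wr k → H),
    Fr Γ' Ψ' St T ∧ ∀ x y b, (⟨α x, α y, b⟩ : Wr k) ∈ Γ' ↔ (⟨x, y, b⟩ : Wr k) ∈ Γ := by
  refine ⟨_, _, comap h (wrAut α.symm) ?_ ?_ ?_ (fun x => ?_) fun x hx h1 h2 => ?_, fun x y b => ?_⟩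
  · rw [ze, wrAut_apply, aut_z]
  · rw [si, wrAut_apply, aut_z, map_one]; exact h.hs
  · rw [ta, wrAut_apply, map_one]; exact h.ht
  · obtain ⟨y, hy⟩ := h.sj (α.symm x)
    exact ⟨α y, by rwa [wrAut_apply, α.symm_apply_apply]⟩
  · rw [wrAut_apply, map_one, map_mul] at h2
    exact h.int8 (α.symm x) (by rw [← map_mul, ← map_mul, hx, aut_z]) h1 h2
  · rw [mem_comap, MulEquiv.coe_toMonoidHom, wrAut_apply, α.symm_apply_apply, α.symm_apply_apply]

/-- change of the swap -/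
theorem Fr.chg (h : Fr Γ Ψ St T) {c : QG k} (hc : (⟨c, c⁻¹, false⟩ : Wr k) ∈ Γ) :
    ∃ (Γ' : Subgroup (Wr k)) (Ψ' : Wr k → H), Fr Γ' Ψ' St T ∧
      ∀ x y b, (⟨x, c * y * c⁻¹, b⟩ : Wr k) ∈ Γ' ↔ (⟨x, y, b⟩ : Wr k) ∈ Γ := by
  have e : ∀ x y, MulAut.conj (⟨1, c⁻¹, false⟩ : Wr k) ⟨x, y, false⟩ = ⟨x, c⁻¹ * y * c, false⟩ :=
    fun x y => by simp
  have k := comap h (MulAut.conj (⟨1, c⁻¹, false⟩ : Wr k))
    (by rw [MulAut.conj_apply, ze_comm, mul_inv_cancel_right])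
    (by rw [si, e, z_comm, inv_mul_cancel_right]; exact h.hs)
    (by simpa [ta] using h.flip true hc)
    (fun x => by
      obtain ⟨y, hy⟩ := h.sj x
      exact ⟨c * y * c⁻¹, by rwa [e, show c⁻¹ * (c * y * c⁻¹) * c = y by group]⟩)
    fun x hx h1 h2 => by
      rw [e, mul_one, inv_mul_cancel] at h2
      rw [e] at h1
      refine h.int8 x hx ?_ h2
      rcases x with i | i
      · rcases cj_a c⁻¹ i with d | d <;> rw [inv_inv] at d <;> rw [d] at h1
        · exact h1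
        · simpa only [Wr.mul_ff, mul_one, inv_mul_cancel_left] using mul_mem h1 (h.swap h2)
      · rw [H13.PS.xa_sq, zz] at hx
        exact absurd hx.symm z_ne
  refine ⟨_, _, k, fun x y b => ?_⟩
  have e2 : (⟨x, c * y * c⁻¹, false⟩ : Wr _) ∈
      Γ.comap (MulAut.conj (⟨1, c⁻¹, false⟩ : Wr _)).toMonoidHom ↔ (⟨x, y, false⟩ : Wr _) ∈ Γ := by
    rw [mem_comap, MulEquiv.coe_toMonoidHom, e, show c⁻¹ * (c * y * c⁻¹) * c = y by group]
  exact ⟨fun hm => h.flip b (e2.1 (k.flip false hm)), fun hm => k.flip b (e2.2 (h.flip false hm))⟩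

/-- the automorphism `xa i ↦ xa (i + b)` -/
theorem exists_shift (b : ZM k) :
    ∃ α : QG k ≃* QG k, (∀ i, α (a i) = a i) ∧ ∀ i, α (xa i) = xa (i + b) :=
  ⟨⟨⟨sh b, sh (-b), by rintro (i | i) <;> simp [sh], by rintro (i | i) <;> simp [sh]⟩, by
    rintro (i | i) (j | j)
    · rfl
    · exact congrArg xa (by ring)
    · exact congrArg xa (by ring)
    · exact congrArg a (by ring)⟩, fun _ => rfl, fun _ => rfl⟩

/-- in `Q₈` every element of order four can be moved to `a 1` -/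
theorem exists_q8 {x : QG 0} (hx : x * x = z0 0) : ∃ α : QG 0 ≃* QG 0, α x = a 1 := by
  rcases K_cases hx with (rfl | rfl) | ⟨i, rfl⟩
  · exact ⟨MulEquiv.refl _, rfl⟩
  · exact ⟨MulAut.conj (xa 0), by decide⟩
  · obtain ⟨α, -, h⟩ := exists_shift (-i)
    refine ⟨α.trans ⟨⟨sw, sw, sw_sw, sw_sw⟩, sw_mul⟩, ?_⟩
    rw [MulEquiv.trans_apply, h, add_neg_cancel]
    show sw (xa 0) = a 1
    decide

end H99.GD
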