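import Cfsg.Agent.Lib.GD.CA

/-! # Frames in which the first factor meets `Γ` in more than `±1` -/

set_option autoImplicit false

namespace H99.GD

open H13.PS QuaternionGroup Subgroup
open scoped MatrixGroups

variable {H : Type*} [Group H] {St : H → Prop} {T : Sylow 2 H} {k : ℕ} {Γ : Subgroup (Wr k)} {Ψ : Wr k → H}

namespace CB

/-- the intersection with the first factor -/
def KK (Γ : Subgroup (Wr k)) : Subgroup (QG k) where
  carrier := {x | (⟨x, 1, false⟩ : Wr k) ∈ Γ}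
  one_mem' := one_mem Γ
  mul_mem' := fun hx hy => by simpa using Γ.mul_mem hx hy
  inv_mem' := fun hx => by simpa using Γ.inv_mem hx

theorem mem_KK {x : QG k} : x ∈ KK Γ ↔ (⟨x, 1, false⟩ : Wr k) ∈ Γ := Iff.rfl

theorem a_mul_mem {K : Subgroup (QG k)} {i : ZM k} (hi : a i ∈ K) (j : ZM k) : a (j * i) ∈ K := by
  have := pow_mem hi j.val
  rwa [a_pow, ZMod.natCast_zmod_val] at this

theorem a_four {K : Subgroup (QG k)} (hu : u0 k ∈ K) {i : ZM k} (hi : 2 * (2 * i) = 0) :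
    a i ∈ K := by
  rcases tor hi with e | e
  · rcases tor e with rfl | rfl
    exacts [one_mem K, a_mul_mem hu 2]
  · rcases tor (x := i - cq k) (by linear_combination e) with e | e
    · rw [sub_eq_zero.1 e]; exact hu
    · rw [show i = 3 * cq k by linear_combination e]; exact a_mul_mem hu 3

variable (h : Fr Γ Ψ St T)
include h

theorem mulK {x y x' y' : QG k} {b : Bool} (hm : (⟨x, y, false⟩ : Wr k) ∈ Γ) (hx : x' ∈ KK Γ)
    (hy : y' ∈ KK Γ) : (⟨x * x', y * y', b⟩ : Wr k) ∈ Γ := by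
  refine h.flip (b := false) b ?_
  simpa using mul_mem (mul_mem hm hx) (h.swap hy)

theorem divK {x y y' : QG k} (hm : (⟨x, y, false⟩ : Wr k) ∈ Γ) (hm' : (⟨x, y', false⟩ : Wr k) ∈ Γ) :
    y⁻¹ * y' ∈ KK Γ := by
  refine h.swap (b := false) ?_
  simpa using mul_mem (inv_mem hm) hm'

theorem memK {x y : QG k} (hm : (⟨x, y, false⟩ : Wr k) ∈ Γ) (hx : x ∈ KK Γ) : y ∈ KK Γ := by
  simpa using divK h hx hm

theorem cjK {x : QG k} (hx : x ∈ KK Γ) (g : QG k) : g * x * g⁻¹ ∈ KK Γ := by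
  obtain ⟨y, hy⟩ := h.sj g
  simpa [mem_KK] using mul_mem (mul_mem hy hx) (inv_mem hy)

theorem caseA (ha : a 1 ∈ KK Γ) : (∀ m, m ∈ Γ) ∨ ∀ m, m ∈ Γ ↔ isA m.l = isA m.r := by
  have hA : ∀ i, a i ∈ KK Γ := fun i => by simpa using a_mul_mem ha i
  by_cases hx : ∃ j, xa j ∈ KK Γ
  · obtain ⟨j, hj⟩ := hx
    have : ∀ x, x ∈ KK Γ := gen ha (by simpa using mul_mem hj (hA (-j)))
    refine Or.inl fun m => ?_
    simpa using mulK h (b := m.s) (one_mem Γ) (this m.l) (this m.r)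
  refine Or.inr ?_
  rintro ⟨i | i, j | j, b⟩
  · exact iff_of_true (by simpa using mulK h (b := b) (one_mem Γ) (hA i) (hA j)) rfl
  · exact iff_of_false (fun hm => hx ⟨j, memK h (h.flip false hm) (hA i)⟩) (by simp [isA])
  · exact iff_of_false (fun hm => hx ⟨i, memK h (h.swap (h.flip false hm)) (hA j)⟩) (by simp [isA])
  · refine iff_of_true ?_ rfl
    obtain ⟨l | l, hl⟩ := h.sj (xa i)
    · exact absurd ⟨i, memK h (h.swap hl) (hA l)⟩ hx
    · simpa using mulK h (b := b) hl (one_mem _) (hA (j - l))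

theorem no8 (hu : u0 k ∈ KK Γ) {i : ZM k} (hi : 2 * (2 * i) = 2 * cq k) :
    (⟨a i, a i, false⟩ : Wr k) ∉ Γ := fun hm =>
  h.int8 (a i) (congrArg a (by linear_combination hi)) hm
    (a_four hu (i := i + i) (by linear_combination 2 * hi + c4))

theorem four_of (hu : u0 k ∈ KK Γ) {i : ZM k} (hi : a i ∈ KK Γ) : 2 * (2 * i) = 0 := by
  have key : ∀ n : ℕ, ∀ i : ZM k, a i ∈ KK Γ → 2 ^ n * (2 * (2 * i)) = 0 → 2 * (2 * i) = 0 := by
    intro n
    induction n with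
    | zero => intro i _ e; simpa using e
    | succ n ih =>
      intro i hi e
      refine (tor (ih (2 * i) (a_mul_mem hi 2) (by linear_combination e))).resolve_right fun e => ?_
      exact no8 h hu e (by simpa using mulK h (b := false) (one_mem Γ) hi hi)
  refine key k i hi ?_
  have : (2 : ZM k) ^ k = cq k := rfl
  linear_combination i * c4 (k := k) + 4 * i * this

theorem keyX (hu : u0 k ∈ KK Γ) {b j : ZM k} (hb : 2 * b = cq k) :
    (⟨a b, a j, false⟩ : Wr k) ∉ Γ := fun hm => by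
  have h1 : a (j + j) ∈ KK Γ := memK h (by simpa using mul_mem hm hm)
    (show a (b + b) ∈ KK Γ from a_four hu (by linear_combination 4 * hb + c4))
  refine no8 h hu (i := b) (by linear_combination 2 * hb) ?_
  rcases tor (x := 2 * (2 * j)) (by linear_combination four_of h hu h1) with e | e
  · have := memK h (h.swap hm) (a_four hu e)
    simpa using mulK h (b := false) (one_mem Γ) this this
  · simpa using mulK h (b := false) hm (one_mem _)
      (a_four hu (i := b - j) (by linear_combination 2 * hb - e))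

theorem u_mem (hk : k ≠ 0) {x : QG k} (hx : x ∈ KK Γ) (h2 : x * x = z0 k) : u0 k ∈ KK Γ := by
  rcases K_cases h2 with (rfl | rfl) | ⟨j, rfl⟩
  · exact hx
  · exact inv_mem_iff.1 hx
  · obtain ⟨b, hb⟩ := exists_w hk
    have := mul_mem (cjK h hx (a b)) (inv_mem hx)
    rwa [a_inv, xa_inv, a_mul_xa, xa_mul_a, xx, show 2 * cq k + (2 * cq k + j) - (j - b + -b) = cq k by
      linear_combination c4 + a.inj hb] at this

end CB

namespace CB

theorem dec1 : ∀ x y : QG 1, P4 ⟨x, y, false⟩ → ∃ e f : ZM 1,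
    (x = 1 * a (e * cq 1) ∧ y = 1 * a (f * cq 1)) ∨
    (x = a 1 * a (e * cq 1) ∧ y = xa 1 * a (f * cq 1)) ∨
    (x = xa 1 * a (e * cq 1) ∧ y = a 1 * a (f * cq 1)) ∨
    (x = a 1 * xa 1 * a (e * cq 1) ∧ y = xa 1 * a 1 * a (f * cq 1)) := by decide +kernel

theorem dec2 : ∀ x : QG 1, ∃ y : QG 1, P4 ⟨x, y, false⟩ ∧
    ∀ i : ZM 1, 2 * (2 * i) = 0 → P4 ⟨x, y * a i, false⟩ := by decide +kernel

theorem case4 {Γ : Subgroup (Wr 1)} {Ψ : Wr 1 → H} (h : Fr Γ Ψ St T) (hu : u0 1 ∈ KK Γ)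
    (h1 : (⟨a 1, xa 1, false⟩ : Wr 1) ∈ Γ) : ∀ m, m ∈ Γ ↔ P4 m := by
  have hin : ∀ x y b, P4 ⟨x, y, false⟩ → (⟨x, y, b⟩ : Wr 1) ∈ Γ := fun x y b hp => by
    obtain ⟨e, f, ⟨rfl, rfl⟩ | ⟨rfl, rfl⟩ | ⟨rfl, rfl⟩ | ⟨rfl, rfl⟩⟩ := dec1 x y hp
    · exact mulK h (one_mem Γ) (a_mul_mem hu e) (a_mul_mem hu f)
    · exact mulK h h1 (a_mul_mem hu e) (a_mul_mem hu f)
    · exact mulK h (h.swap h1) (a_mul_mem hu e) (a_mul_mem hu f)
    · exact mulK h (mul_mem h1 (h.swap h1)) (a_mul_mem hu e) (a_mul_mem hu f)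
  rintro ⟨x, y, b⟩
  refine ⟨fun hm => ?_, hin x y b⟩
  obtain ⟨y', hp, hp'⟩ := dec2 x
  have h2 := divK h (hin x y' false hp) (h.flip false hm)
  obtain ⟨w, hw⟩ : ∃ w, w = y'⁻¹ * y := ⟨_, rfl⟩
  rw [← hw] at h2
  obtain rfl : y = y' * w := by rw [hw, mul_inv_cancel_left]
  rcases w with i | i
  · exact hp' i (four_of h hu h2)
  · exact absurd (mulK h (b := false) h1 (one_mem _) h2) (by
      rw [mul_one, xx]; exact keyX h hu (by decide))

end CB

open CB

theorem Fr.big (h : Fr Γ Ψ St T) {x : QG k} (hx : (⟨x, 1, false⟩ : Wr k) ∈ Γ) (h1 : x ≠ 1) (h2 : x ≠ z0 k) :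
    Cases St T := by
  obtain ⟨j, hj⟩ := ((pow_K x).resolve_left h1).resolve_left h2
  have hi : x ^ j ∈ KK Γ := pow_mem (show x ∈ KK Γ from hx) j
  generalize x ^ j = y at hj hi
  rcases k with _ | _ | k
  · obtain ⟨α, hα⟩ := exists_q8 hj
    obtain ⟨Γ', Ψ', h', e⟩ := h.aut α
    have : a 1 ∈ KK Γ' := by
      have := (e y 1 false).2 hi
      rwa [hα, map_one] at this
    rcases caseA h' this with e | e
    · exact Or.inl ⟨Γ', Ψ', h', e⟩
    · exact Or.inr (Or.inl ⟨Γ', Ψ', h', e⟩)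
  · have hu := u_mem h (by decide) hi hj
    obtain ⟨l | l, hl⟩ := h.sj (a 1)
    · exact absurd hl (keyX h hu (by decide))
    obtain ⟨α, ha, hxa⟩ := exists_shift (k := 0 + 1) (1 - l)
    obtain ⟨Γ', Ψ', h', e⟩ := h.aut α
    refine Or.inr (Or.inr (Or.inl ⟨Γ', Ψ', h', case4 h' ?_ ?_⟩))
    · have := (e _ 1 false).2 hu
      rwa [map_one, u0, ha] at this
    · have := (e _ _ false).2 hl
      rwa [ha, hxa, add_sub_cancel] at this
  · have hu := u_mem h (by omega) hi hj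
    obtain ⟨w, hw⟩ := h.sj (a (2 ^ k))
    have hb : 2 * ((2 : ZM (k + 1 + 1)) ^ k + 2 ^ k) = cq (k + 1 + 1) := by rw [cq]; ring
    have := mul_mem hw hw
    rcases w with l | l
    · exact absurd this (keyX h hu hb)
    · rw [Wr.mul_ff, xx] at this
      exact absurd this (keyX h hu hb)

end H99.GD
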