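import Cfsg.Agent.Lib.GD.CA

/-! Frames with `K = ±1`: the normal forms. -/

set_option autoImplicit false

namespace H99.GD

open H13.PS QuaternionGroup Subgroup
open scoped MatrixGroups

variable {H : Type*} [Group H] {St : H → Prop} {T : Sylow 2 H} {k : ℕ} {Γ : Subgroup (Wr k)} {Ψ : Wr k → H}

namespace CS

/-- the pair lies in `Γ` -/
abbrev R (Γ : Subgroup (Wr k)) (x y : QG k) : Prop := (⟨x, y, false⟩ : Wr k) ∈ Γ

/-- `K = ±1` -/
abbrev Sm (Γ : Subgroup (Wr k)) : Prop := ∀ x : QG k, R Γ x 1 → x = 1 ∨ x = z0 k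

theorem unit (y : ZM k) : IsUnit (2 * y + 1) := by
  refine IsNilpotent.isUnit_add_one ⟨k + 2, ?_⟩
  have := c4 (k := k)
  rw [cq] at this
  rw [mul_pow]
  linear_combination y ^ (k + 2) * this

theorem canc (y : ZM k) {x : ZM k} (e : (2 * y + 1) * x = 0) : x = 0 := (unit y).mul_right_eq_zero.1 e

theorem mul {x y x' y' : QG k} (e : R Γ x y) (e' : R Γ x' y') : R Γ (x * x') (y * y') := mul_mem e e'

theorem aut (hK : Sm Γ) {Γ' : Subgroup (Wr k)} {α : QG k ≃* QG k}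
    (e : ∀ x y b, (⟨α x, α y, b⟩ : Wr k) ∈ Γ' ↔ (⟨x, y, b⟩ : Wr k) ∈ Γ) : Sm Γ' := fun x hx => by
  obtain ⟨x, rfl⟩ := α.surjective x
  rcases hK x ((e x 1 false).1 (by rwa [map_one])) with rfl | rfl
  · exact Or.inl (map_one α)
  · exact invol (by rw [← map_mul, zz, map_one])

variable (h : Fr Γ Ψ St T)
include h

theorem mz {x y : QG k} (e : R Γ x y) : R Γ x (y * z0 k) := by
  simpa using mul e h.hs

theorem ra {x : QG k} {i : ZM k} (e : R Γ x (a i)) (j : ZM k) (d : 2 * (j - i) = 0) : R Γ x (a j) := by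
  rcases tor d with d | d
  · rwa [sub_eq_zero.1 d]
  · rw [sub_eq_iff_eq_add'.1 d]; exact mz h e

theorem rx {x : QG k} {i : ZM k} (e : R Γ x (xa i)) (j : ZM k) (d : 2 * (j - i) = 0) : R Γ x (xa j) := by
  rcases tor d with d | d
  · rwa [sub_eq_zero.1 d]
  · rw [sub_eq_iff_eq_add'.1 d]; exact mz h e

variable (hK : Sm Γ)
include hK

theorem uniq {x y y' : QG k} (e : R Γ x y) (e' : R Γ x y') : y' = y ∨ y' = y * z0 k := by
  have : R Γ 1 (y⁻¹ * y') := by simpa using mul (inv_mem e :) e'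
  exact (hK _ (h.swap this)).imp (fun d => (inv_mul_eq_one.1 d).symm) inv_mul_eq_iff_eq_mul.1

omit h hK in
theorem pa {κ : ZM k} (h1 : R Γ (a 1) (a κ)) (i : ZM k) : R Γ (a i) (a (κ * i)) := by
  have : ∀ n : ℕ, R Γ (a n) (a (κ * n)) := fun n => by
    induction n with
    | zero => rw [Nat.cast_zero, mul_zero]; exact one_mem Γ
    | succ n ih => simpa [mul_add] using mul ih h1
  simpa using this i.val

omit h hK in
theorem px {κ l : ZM k} (h1 : R Γ (a 1) (a κ)) (h2 : R Γ (xa 0) (xa l)) (i : ZM k) :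
    R Γ (xa i) (xa (κ * i + l)) := by
  simpa [add_comm] using mul h2 (pa h1 i)

theorem gr {κ l : ZM k} (h1 : R Γ (a 1) (a κ)) (h2 : R Γ (xa 0) (xa l)) : Gr Γ κ l := by
  rintro ⟨x, y, b⟩
  have e : R Γ x (th κ l x) := by
    rcases x with i | i
    exacts [pa h1 i, px h1 h2 i]
  refine ⟨fun d => uniq h hK e (h.flip false d), fun d => h.flip b (b := false) ?_⟩
  rcases d with d | d <;> rw [show y = _ from d]
  exacts [e, mz h e]

theorem second {κ : ZM k} (h1 : R Γ (a 1) (a κ)) :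
    ∃ l, R Γ (xa 0) (xa l) ∧ 2 * (κ * κ - 1) = 0 ∧ 2 * ((κ + 1) * l) = 0 := by
  obtain ⟨j | l, e⟩ := h.sj (xa 0)
  · rcases uniq h hK (pa h1 j) (h.swap e) with d | d <;> cases d
  · refine ⟨l, e, ?_, ?_⟩
    · rcases uniq h hK (h.swap h1) (pa h1 κ) with d | d
      · linear_combination 2 * a.inj d
      · linear_combination 2 * a.inj d + c4
    · rcases uniq h hK (h.swap e) (px h1 e l) with d | d
      · linear_combination 2 * xa.inj d
      · linear_combination 2 * xa.inj d + c4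

theorem one_mod (hk : k ≠ 0) {κ : ZM k} (h1 : R Γ (a 1) (a (4 * κ + 1))) : Cases St T := by
  obtain ⟨l, h2, e1, e2⟩ := second h hK h1
  iterate 5 right
  rcases tor (canc κ (x := 2 * (2 * l)) (by linear_combination e2)) with d | d
  · exact Or.inr ⟨k, Γ, Ψ, κ, hk, h, gr h hK h1 (rx h h2 0 (by linear_combination -d))⟩
  rcases tor (canc κ (x := 2 * (2 * (4 * κ))) (by linear_combination e1)) with d' | d'
  · exact Or.inl ⟨k, Γ, Ψ, hk, h, gr h hK (ra h h1 1 (by linear_combination -d')) (rx h h2 _ (by linear_combination -d))⟩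
  obtain ⟨α, a1, a2⟩ := exists_shift (1 : ZM k)
  obtain ⟨Γ', Ψ', h', e⟩ := h.aut α
  have r1 := (e _ _ _).2 h1
  have r2 := (e _ _ _).2 (px h1 h2 (-1))
  rw [a1, a1] at r1
  rw [a2, a2, neg_add_cancel] at r2
  exact Or.inr ⟨k, Γ', Ψ', κ, hk, h', gr h' (aut hK e) r1 (rx h' r2 0 (by linear_combination d' - d))⟩

theorem untw {κ : ZM k} (h1 : R Γ (a 1) (a κ)) : Cases St T := by
  obtain ⟨l, h2, e1, e2⟩ := second h hK h1
  obtain ⟨κ, rfl | rfl⟩ := par κ
  · exact absurd (by linear_combination κ * κ * 2 * c4 - cq k * e1) (c2 (k := k))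
  obtain ⟨l, rfl | rfl⟩ := par l
  swap
  · have d := canc l (x := 2 * (2 * κ + 1 + 1)) (by linear_combination e2)
    exact Or.inr (Or.inr (Or.inr (Or.inr (Or.inl
      ⟨k, Γ, Ψ, l, h, gr h hK (ra h h1 _ (by linear_combination -d)) h2⟩))))
  rcases eq_or_ne k 0 with rfl | hk
  · have d : (4 : ZM 0) = 0 := rfl
    exact Or.inr (Or.inr (Or.inr (Or.inl ⟨Γ, Ψ, h,
      gr h hK (ra h h1 _ (by linear_combination -κ * d)) (rx h h2 _ (by linear_combination -l * d))⟩)))
  obtain ⟨κ, rfl | rfl⟩ := par κ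
  · exact one_mod h hK hk (κ := κ) (ra h h1 _ (by ring))
  obtain ⟨v, hv⟩ := (unit κ).exists_right_inv
  obtain ⟨Γ', Ψ', h', e⟩ := h.chg (c := xa (-(v * l)))
    (by rw [xa_inv]; exact rx h (px h1 h2 _) _ (by linear_combination c4 + 4 * l * hv))
  have r1 := (e _ _ _).2 h1
  rw [xa_a, a_inv] at r1
  exact one_mod h' (fun x hx => hK x ((e x 1 false).1 (by simpa using hx))) hk (κ := -κ - 1) (ra h' r1 _ (by ring))

end CS

open CS

theorem Fr.small (h : Fr Γ Ψ St T) (hK : ∀ x : QG k, (⟨x, 1, false⟩ : Wr k) ∈ Γ → x = 1 ∨ x = z0 k) :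
    Cases St T := by
  obtain ⟨κ | j, e⟩ := h.sj (a 1)
  · exact untw h hK e
  rcases eq_or_ne k 0 with rfl | hk
  · have d : (4 : ZM 0) = 0 := rfl
    obtain ⟨α, a1⟩ := exists_q8 (xa_sq (j - 1))
    obtain ⟨Γ', Ψ', h', e'⟩ := h.aut α
    have r := (e' _ _ _).2 (rx h (CS.mul e (h.swap e)) (j - 1) (by linear_combination -d))
    rw [a_mul_xa, a1] at r
    exact untw h' (CS.aut hK e') r
  · obtain ⟨w, hw⟩ := exists_w hk
    have r := CS.mz h (CS.mul e e)
    rw [H13.PS.xa_sq, zz] at r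
    refine absurd ?_ (c2 (k := k))
    rcases hK _ r with d | d
    · linear_combination cq k * a.inj d
    · linear_combination cq k * a.inj d + w * c4 - 2 * cq k * a.inj hw

end H99.GD
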