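import Cfsg.Agent.Lib.GD.Bas

set_option autoImplicit false

namespace H99.GD

open H13.PS QuaternionGroup Subgroup
open scoped MatrixGroups

namespace E2

/-- the sign with kernel `E` -/
def δ (m : Wr 0) : ℤˣ := if m.r = m.l ∨ m.r = m.l * z0 0 then 1 else -1
/-- the outer element -/
def t : Wr 0 := ⟨xa 1, xa 0, false⟩
/-- equality modulo the centre -/
abbrev Eq' (m n : Wr 0) : Prop := m = n ∨ m = n * ze 0

theorem f1 : ∀ m, P2 m → ∀ n, P2 n → δ (m * n) = δ m * δ n := by decide +kernel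
theorem f4 : ∀ m, P2 m → m * m = 1 → δ m = 1 := by decide +kernel
theorem f5 : ∀ m, δ m = 1 → ∀ n, δ n = 1 → Eq' (m * n) (n * m) := by decide +kernel
theorem f6 : ∀ w, P2 w → δ w ≠ 1 → (w * w = 1 ∨ w * w = ze 0) → ∀ s, P2 s → s * s = 1 → Eq' (w * s) (s * w) →
    (s = 1 ∨ s = ze 0) ∨ Eq' s (si 0) := by decide +kernel
theorem f7 : ∀ y, δ y = 1 → y * y = ze 0 → ∀ w, P2 w → δ w ≠ 1 → Eq' (y * w) (w * y) →
    Eq' y (up 0) ∨ Eq' y (up 0 * si 0) := by decide +kernel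
theorem f8 : ∀ m, P2 m → Eq' (m * t * m⁻¹) t ∨ Eq' (m * t * m⁻¹) (t * si 0) ∨ Eq' (m * t * m⁻¹) (t * up 0) ∨
    Eq' (m * t * m⁻¹) (t * up 0 * si 0) := by decide +kernel
theorem f9 : ∀ m, P2 m → Eq' (m * up 0) (up 0 * m) := by decide +kernel
theorem f0 : P2 t ∧ P2 (up 0) ∧ P2 ⟨1, u0 0, false⟩ ∧ δ (ze 0) = 1 ∧ δ t ≠ 1 ∧ t * t = ze 0 ∧ up 0 * up 0 = ze 0 ∧
    δ (si 0) = 1 ∧ δ (ta 0) = 1 ∧ ta 0 * ta 0 = 1 ∧ ¬ (ta 0 = 1 ∨ ta 0 = ze 0) ∧ ¬ Eq' (si 0) (ta 0) ∧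
    ⟨1, u0 0, false⟩ * t * (⟨1, u0 0, false⟩ : Wr 0)⁻¹ = t * si 0 ∧ si 0 * si 0 = 1 := by decide +kernel

theorem nrm {H : Type*} [Group H] [Finite H] {A : Subgroup H} {g : H} (h : ∀ x ∈ A, g * x * g⁻¹ ∈ A) :
    g ∈ normalizer (A : Set H) := mem_normalizer_fintype h

theorem cjc {H : Type*} [Group H] {x y : H} (h : Commute x y) (g : H) : Commute (g * x * g⁻¹) (g * y * g⁻¹) := by
  simpa using h.map (MulAut.conj g)

end E2

open E2

variable {H : Type*} [Group H] [Finite H] {St : H → Prop} {T : Sylow 2 H}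

theorem Fr.e2 {Γ : Subgroup (Wr 0)} {Ψ : Wr 0 → H} (h : Fr Γ Ψ St T) (hΓ : ∀ m, m ∈ Γ ↔ P2 m) : False := by
  obtain ⟨t1, u1, v1, d0, d1, tt, uu, d2, d3, aa, a1, a2, vt, ss⟩ := f0
  have ht := (hΓ _).2 t1
  have hu := (hΓ _).2 u1
  have hv := (hΓ _).2 v1
  have uc : ∀ x ∈ T, Commute x (Ψ (up 0)) := fun x hx => by
    obtain ⟨m, hm, rfl⟩ := (h.syl x).1 hx
    exact (h.comm hm hu).2 (f9 m ((hΓ m).1 hm))
  have s2 : Ψ (si 0) * Ψ (si 0) = 1 := (h.sq h.hs).2 (Or.inl ss)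
  -- the points commuting with an outer involution
  have out : ∀ w ∈ Γ, δ w ≠ 1 → Ψ w * Ψ w = 1 → ∀ x ∈ T, St x → x ≠ 1 → Commute (Ψ w) x → x = Ψ (si 0) :=
    fun w hw dw ww x hx sx x1 c => by
      obtain ⟨s, hs, rfl⟩ := (h.syl x).1 hx
      exact (h.eq hs h.hs).2 ((f6 w ((hΓ w).1 hw) dw ((h.sq hw).1 ww) s ((hΓ s).1 hs) ((h.st hs).1 sx)
        ((h.comm hw hs).1 c)).resolve_left fun e => x1 ((h.ker hs).2 e))
  obtain ⟨g, y, hy, dy, e, hg⟩ := h.thx δ (-1) (fun m hm n hn => f1 m ((hΓ m).1 hm) n ((hΓ n).1 hn)) d0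
    (fun m _ _ => Int.units_eq_one_or _) ((h.sq ht).2 (Or.inr tt)) (h.mem ht)
  obtain ⟨w, hw, ew⟩ := (h.syl _).1 (hg _ (h.mem hu) (uc _ (h.mem ht)).symm)
  have sT := hg _ (h.mem h.hs) (h.s_comm _ (h.mem ht)).symm
  obtain ⟨s, hs, es⟩ := (h.syl _).1 sT
  have ds : δ s = 1 := f4 s ((hΓ s).1 hs) ((h.st hs).1 (es ▸ h.stc g _ h.s_st))
  by_cases dw : δ w = 1
  · let K : Subgroup H := closure {Ψ t, Ψ (up 0), Ψ (si 0)}
    have k1 : Ψ t ∈ K := subset_closure (by simp)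
    have k2 : Ψ (up 0) ∈ K := subset_closure (by simp)
    have k3 : Ψ (si 0) ∈ K := subset_closure (by simp)
    have cK : ∀ m ∈ Γ, δ m = 1 → g⁻¹ * Ψ m * g ∈ centralizer (K : Set H) := fun m hm dm => by
      have c : ∀ n ∈ Γ, δ n = 1 → ∀ x, g * x * g⁻¹ = Ψ n → Commute x (g⁻¹ * Ψ m * g) := fun n hn dn x ex => by
        have := cjc ((h.comm hn hm).2 (f5 n dn m dm)) g⁻¹
        rw [← ex] at this
        simpa [mul_assoc] using this
      rw [centralizer_closure]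
      rintro x (rfl | rfl | rfl)
      exacts [c y hy dy _ e, c w hw dw _ ew, c s hs ds _ es]
    have nK : (T : Subgroup H) ≤ normalizer (K : Set H) := fun x hx => nrm fun k hk => by
      refine (closure_le (K.comap (MulAut.conj x).toMonoidHom)).2 ?_ hk
      rintro _ (rfl | rfl | rfl) <;> change x * _ * x⁻¹ ∈ K
      · obtain ⟨m, hm, rfl⟩ := (h.syl x).1 hx
        have hc := mul_mem (mul_mem hm ht) (inv_mem hm)
        rw [h.cj hm ht]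
        rcases f8 m ((hΓ m).1 hm) with e | e | e | e
        · rwa [(h.eq hc ht).2 e]
        · rw [(h.eq hc (mul_mem ht h.hs)).2 e, h.mul ht h.hs]; exact mul_mem k1 k3
        · rw [(h.eq hc (mul_mem ht hu)).2 e, h.mul ht hu]; exact mul_mem k1 k2
        · rw [(h.eq hc (mul_mem (mul_mem ht hu) h.hs)).2 e, h.mul (mul_mem ht hu) h.hs, h.mul ht hu]
          exact mul_mem (mul_mem k1 k2) k3
      · rwa [(uc x hx).eq, mul_inv_cancel_right]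
      · rwa [(h.s_comm x hx).eq, mul_inv_cancel_right]
    obtain ⟨n, hn, hX⟩ := ext_sub T (K := K)
      (X := (T : Subgroup H).map (MulAut.conj g⁻¹).toMonoidHom ⊓ centralizer K) nK
      ((T.isPGroup'.map _).to_le inf_le_left) (inf_le_right.trans (centralizer_le_normalizer _))
    have key : ∀ m ∈ Γ, δ m = 1 → m * m = 1 → Ψ m ≠ 1 → n * (g⁻¹ * Ψ m * g) * n⁻¹ = Ψ (si 0) :=
      fun m hm dm mm m1 => by
        refine out t ht d1 ((h.sq ht).2 (Or.inr tt)) _ (hX _ ⟨⟨_, h.mem hm, by simp⟩, cK m hm dm⟩)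
          (h.stc _ _ (by simpa using h.stc g⁻¹ _ ((h.st hm).2 mm))) (fun e => m1 ?_) ?_
        · calc Ψ m = g * (n⁻¹ * (n * (g⁻¹ * Ψ m * g) * n⁻¹) * n) * g⁻¹ := by group
            _ = 1 := by rw [e]; group
        have := cjc (show Commute _ _ from cK m hm dm _ ((mem_normalizer_iff''.1 hn _).1 k1)) n
        simpa [mul_assoc] using this
    have e1 := (key _ h.hs d2 ss h.s_ne).trans (key _ h.ht d3 aa fun e => a1 ((h.ker h.ht).1 e)).symm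
    exact a2 ((h.eq h.hs h.ht).1 (by simpa using e1))
  have ww : Ψ w * Ψ w = 1 := by rw [← ew, conj_mul, (h.sq hu).2 (Or.inr uu)]; simp
  have gs : g * Ψ (si 0) * g⁻¹ = Ψ (si 0) := out w hw dw ww _ sT (h.stc g _ h.s_st) (by simpa using h.s_ne)
    (ew ▸ cjc (h.s_comm _ (h.mem hu)) g)
  have yy : y * y = ze 0 := ((h.sq hy).1 (by rw [← e, conj_mul, (h.sq ht).2 (Or.inr tt)]; simp)).resolve_left
    fun k => ze_ne (tt.symm.trans ((h.st ht).1 ((h.stc' g _).1 (e ▸ (h.st hy).2 k))))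
  have c1 : IsConj (Ψ y) (Ψ y * Ψ (si 0)) := by
    refine isConj_iff.2 ⟨g * Ψ ⟨1, u0 0, false⟩ * g⁻¹, ?_⟩
    rw [← gs, ← e, conj_mul, conj_mul, ← h.mul ht h.hs, ← vt, ← h.cj hv ht]; group
  have c2 : IsConj (Ψ (up 0) * Ψ (si 0)) (Ψ (up 0)) := by
    rcases f7 y dy yy w ((hΓ w).1 hw) dw ((h.comm hy hw).1 (e ▸ ew ▸ cjc (uc _ (h.mem ht)) g)) with k | k
    · rw [← (h.eq hy hu).2 k]; exact c1.symm
    · rwa [(h.eq hy (mul_mem hu h.hs)).2 k, h.mul hu h.hs, mul_assoc, s2, mul_one] at c1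
  obtain ⟨n, e1, hn⟩ := ext_center T uc c2
  replace hn : ∀ x ∈ T, n * x * n⁻¹ ∈ T := fun x hx => hn x hx ((uc x hx).mul_right (h.s_comm x hx))
  have ns : n * Ψ (si 0) * n⁻¹ = Ψ (si 0) := out t ht d1 ((h.sq ht).2 (Or.inr tt)) _ (hn _ (h.mem h.hs))
    (h.stc n _ h.s_st) (by simpa using h.s_ne) (by
      have tT : n⁻¹ * Ψ t * n ∈ T := (mem_normalizer_iff''.1 (nrm (A := (T : Subgroup H)) hn) _).1 (h.mem ht)
      have := cjc (h.s_comm _ tT) n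
      simpa [mul_assoc] using this)
  have e2 : n * Ψ (up 0) * n⁻¹ = Ψ (up 0) * Ψ (si 0) := by
    calc _ = n * (Ψ (up 0) * Ψ (si 0)) * n⁻¹ * (n * Ψ (si 0) * n⁻¹) := by
          rw [conj_mul, mul_assoc (Ψ (up 0)), s2, mul_one]
      _ = _ := by rw [e1, ns]
  have e3 : Commute (n * n) (Ψ (up 0)) := mul_inv_eq_iff_eq_mul.1 (by
    calc _ = n * (n * Ψ (up 0) * n⁻¹) * n⁻¹ := by group
      _ = _ := by rw [e2, e1])
  obtain ⟨j, hj⟩ := odd_pow_mem T hn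
  have e4 := (uc _ hj).eq
  rw [pow_succ', pow_mul, pow_two, mul_assoc, (e3.pow_left j).eq, ← mul_assoc, ← mul_assoc, mul_left_inj,
    ← mul_inv_eq_iff_eq_mul, e2, mul_eq_left] at e4
  exact h.s_ne e4

end H99.GD
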