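import Cfsg.Agent.Lib.GD.Defs

set_option autoImplicit false

namespace H99.GD

open H13.PS QuaternionGroup Subgroup
open scoped MatrixGroups

namespace E4x

/-- the homomorphism onto the cyclic group of order four -/
def d (m : Wr 1) : ZMod 4 :=
  if (ix m.l).val % 2 = 0 then ((ix m.r - ix m.l).val : ZMod 4)
  else if (ix m.r - ix m.l).val % 4 = 0 then 1 else 3

def t : Wr 1 := ⟨xa 2, xa 0, false⟩
def w4 : Wr 1 := ⟨a 3, xa 1, true⟩

/-- outer involutions -/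
def Ou (w : Wr 1) : Prop := P4 w ∧ (w * w = 1 ∨ w * w = ze 1) ∧ d w ≠ 0

instance : DecidablePred Ou := fun w => by unfold Ou; infer_instance

/-- the elements of the group -/
def L : List (Wr 1) := [false, true].flatMap fun b => ([0, 2, 4, 6] : List (ZM 1)).flatMap fun i =>
  ([0, 2, 4, 6] : List (ZM 1)).flatMap fun j =>
    [⟨a i, a j, b⟩, ⟨xa i, xa j, b⟩, ⟨a (i + 1), xa (j + 1), b⟩, ⟨xa (i + 1), a (j + 1), b⟩]

theorem mem_L : ∀ m, P4 m → m ∈ L := by decide +kernel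
theorem d_mul0 : ∀ m ∈ L, m.s = false → ∀ n ∈ L, n.s = false → d ⟨m.l * n.l, m.r * n.r, false⟩ = d m + d n ∧
    d ⟨m.l * n.r, m.r * n.l, false⟩ = d m + d n := by decide +kernel
theorem L_ff : ∀ m ∈ L, (⟨m.l, m.r, false⟩ : Wr 1) ∈ L := by decide +kernel
theorem d_mul : ∀ m ∈ L, ∀ n ∈ L, d (m * n) = d m + d n := by
  rintro ⟨x, y, b⟩ hm ⟨x', y', b'⟩ hn
  have := d_mul0 _ (L_ff _ hm) rfl _ (L_ff _ hn) rfl
  cases b
  · exact this.1
  · exact this.2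
theorem d_inv : ∀ m ∈ L, m * m = 1 ∨ m * m = ze 1 → d m = 0 ∨ d m = 2 := by decide +kernel
theorem d_st : ∀ m ∈ L, m * m = 1 → d m = 0 := by decide +kernel
theorem d_ze : ∀ m ∈ L, d (m * ze 1) = d m := by decide +kernel
theorem e_ab : ∀ m ∈ L, d m = 0 → ∀ n ∈ [si 1, ta 1], n * m = m * n ∨ n * m = m * n * ze 1 := by
  decide +kernel
theorem ou_st : ∀ w ∈ L, Ou w → ∀ m ∈ L, m * m = 1 → m * w = w * m ∨ m * w = w * m * ze 1 →
    (m = 1 ∨ m = ze 1) ∨ m = si 1 ∨ m = si 1 * ze 1 := by decide +kernel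
theorem ou_cj : ∀ w ∈ L, Ou w → ∀ m ∈ L, Ou (m * w * m⁻¹) := by decide +kernel
theorem ou_eq : ∀ w ∈ L, Ou w → ∃ n ∈ [t, t * up 1, t * si 1, t * up 1 * si 1],
    w = n ∨ w = n * ze 1 := by decide +kernel
theorem fin : ∀ w ∈ L, Ou w → ∀ m ∈ L, m * w * m⁻¹ = w * si 1 ∨ m * w * m⁻¹ = w * si 1 * ze 1 →
    d (m * m) = 0 → m * m * (m * m) = 1 := by decide +kernel

theorem eqns_E4 : True := by
  have := @d.eq_1
  have := @t.eq_1
  have := @w4.eq_1
  have := @Ou.eq_1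
  have := @L.eq_1
  trivial

end E4x

end H99.GD
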