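import Cfsg.Agent.Lib.GD.Bas
import Cfsg.Agent.Lib.GD.E4a

set_option autoImplicit false

namespace H99.GD

open H13.PS QuaternionGroup Subgroup
open scoped MatrixGroups

open E4x

variable {H : Type*} [Group H] [Finite H] {St : H → Prop} {T : Sylow 2 H}

theorem Fr.e4 {Γ : Subgroup (Wr 1)} {Ψ : Wr 1 → H} (h : Fr Γ Ψ St T) (hΓ : ∀ m, m ∈ Γ ↔ P4 m) : False := by
  have hL : ∀ {m}, m ∈ Γ → m ∈ L := fun hm => mem_L _ ((hΓ _).1 hm)
  have ot : Ou t := by decide +kernel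
  have ht : t ∈ Γ := (hΓ _).2 ot.1
  have hu : up 1 ∈ Γ := (hΓ _).2 (by decide +kernel)
  have h4 : w4 ∈ Γ := (hΓ _).2 (by decide +kernel)
  have cjc : ∀ (g : H) {x y : H}, Commute x y → Commute (g * x * g⁻¹) (g * y * g⁻¹) := fun g _ _ c =>
    c.map (MulAut.conj g)
  have cj1 : ∀ {g x : H}, g * x * g⁻¹ = 1 → x = 1 := fun e => by simpa using e
  have uniq : ∀ w, Ou w → ∀ x ∈ T, St x → x ≠ 1 → Commute x (Ψ w) → x = Ψ (si 1) := by
    intro w ow x hx sx x1 c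
    obtain ⟨m, hm, rfl⟩ := (h.syl x).1 hx
    have hw := (hΓ _).2 ow.1
    rcases ou_st w (hL hw) ow m (hL hm) ((h.st hm).1 sx) ((h.comm hm hw).1 c) with e | e
    · exact absurd ((h.ker hm).2 e) x1
    · exact (h.eq hm h.hs).2 e
  obtain ⟨g, y, hy, dy, ey, hg⟩ := h.thx (fun m => Multiplicative.ofAdd (d m)) (Multiplicative.ofAdd 2)
    (fun m hm n hn => congrArg Multiplicative.ofAdd (d_mul m (hL hm) n (hL hn))) (by decide +kernel)
    (fun m hm e => (d_inv m (hL hm) e).imp (congrArg _) (congrArg _))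
    ((h.sq ht).2 ot.2.1) (h.mem ht)
  replace dy : d y = 0 := dy
  have ny : y * y ≠ 1 := fun e => by
    have := (h.st ht).1 ((h.stc' g _).1 (ey ▸ (h.st hy).2 e))
    exact absurd this (by decide +kernel)
  have cu : Commute (Ψ (up 1)) (Ψ t) := (h.comm hu ht).2 (by decide +kernel)
  have cs : Commute (Ψ (si 1)) (Ψ t) := (h.s_comm _ (h.mem ht)).symm
  obtain ⟨w, hw, ew⟩ := (h.syl _).1 (hg _ (h.mem hu) cu)
  have sT := hg _ (h.mem h.hs) cs
  by_cases dw : d w = 0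
  · obtain ⟨s, hs, es⟩ := (h.syl _).1 sT
    have ds : d s = 0 := d_st s (hL hs) ((h.st hs).1 (es ▸ h.stc g _ h.s_st))
    let O : Set H := {x | ∃ w, Ou w ∧ x = Ψ w}
    have TO : (T : Subgroup H) ≤ normalizer O := fun x hx => mem_normalizer_fintype (by
      rintro _ ⟨v, ov, rfl⟩
      obtain ⟨m, hm, rfl⟩ := (h.syl x).1 hx
      have hv := (hΓ _).2 ov.1
      exact ⟨_, ou_cj v (hL hv) ov m (hL hm), h.cj hm hv⟩)
    let X : Subgroup H := (T : Subgroup H).map (MulAut.conj g⁻¹).toMonoidHom ⊓ centralizer O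
    have XO : X ≤ normalizer O := fun x hx => mem_normalizer_fintype fun o ho => by
      rw [← hx.2 o ho, mul_inv_cancel_right]; exact ho
    obtain ⟨n, hn, hX⟩ := sylow_in T TO (T.isPGroup'.map _).to_inf_left XO
    have key : ∀ c ∈ [si 1, ta 1], c ∈ Γ → St (Ψ c) → Ψ c ≠ 1 →
        n * (g⁻¹ * Ψ c * g⁻¹⁻¹) * n⁻¹ = Ψ (si 1) := by
      intro c hc hc' sc c1
      have k : ∀ {x : H} {m : Wr 1}, m ∈ Γ → d m = 0 → g * x * g⁻¹ = Ψ m →
          Commute (g⁻¹ * Ψ c * g⁻¹⁻¹) x := fun {x m} hm dm e => by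
        have := cjc g⁻¹ ((h.comm hc' hm).2 (e_ab m (hL hm) dm c hc))
        rwa [← e, show g⁻¹ * (g * x * g⁻¹) * g⁻¹⁻¹ = x by group] at this
      have k1 := k hy dy ey
      have k2 := k hw dw ew
      have k3 := k hs ds es
      have mX : g⁻¹ * Ψ c * g⁻¹⁻¹ ∈ X := ⟨⟨_, h.mem hc', rfl⟩, by
        rintro _ ⟨v, ov, rfl⟩
        have hv := (hΓ _).2 ov.1
        obtain ⟨r, hr, e⟩ := ou_eq v (hL hv) ov
        simp only [List.mem_cons, List.not_mem_nil, or_false] at hr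
        rcases hr with rfl | rfl | rfl | rfl
        · rw [(h.eq hv ht).2 e]
          exact k1.symm.eq
        · rw [(h.eq hv (mul_mem ht hu)).2 e, h.mul ht hu]
          exact (k1.mul_right k2).symm.eq
        · rw [(h.eq hv (mul_mem ht h.hs)).2 e, h.mul ht h.hs]
          exact (k1.mul_right k3).symm.eq
        · rw [(h.eq hv (mul_mem (mul_mem ht hu) h.hs)).2 e, h.mul (mul_mem ht hu) h.hs, h.mul ht hu]
          exact ((k1.mul_right k2).mul_right k3).symm.eq⟩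
      refine uniq t ot _ (hX _ mX) (h.stc _ _ (h.stc _ _ sc)) (fun e => c1 (cj1 (cj1 e))) ?_
      have o : n⁻¹ * Ψ t * n⁻¹⁻¹ ∈ O := (mem_set_normalizer_iff.1 (inv_mem hn) _).1 ⟨t, ot, rfl⟩
      have := cjc n (show Commute _ _ from (mX.2 _ o).symm)
      rwa [show n * (n⁻¹ * Ψ t * n⁻¹⁻¹) * n⁻¹ = Ψ t by group] at this
    have e := (key _ (by simp) h.hs h.s_st h.s_ne).trans (key _ (by simp) h.ht
      ((h.st h.ht).2 (by decide +kernel)) fun e => absurd ((h.ker h.ht).1 e) (by decide +kernel)).symm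
    simp only [mul_left_inj, mul_right_inj] at e
    exact absurd ((h.eq h.hs h.ht).1 e) (by decide +kernel)
  have ow : Ou w := ⟨(hΓ _).1 hw, (h.sq hw).1 (by
    rw [← ew, conj_mul, (h.sq hu).2 (by decide +kernel), mul_one, mul_inv_cancel]), dw⟩
  have es : g * Ψ (si 1) * g⁻¹ = Ψ (si 1) := uniq w ow _ sT (h.stc _ _ h.s_st) (fun e => h.s_ne (cj1 e))
    (ew ▸ cjc g (h.s_comm _ (h.mem hu)).symm)
  obtain ⟨m, hm, em⟩ := (h.syl _).1 (hg _ (h.mem h4) ((h.comm h4 ht).2 (by decide +kernel)))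
  have e1 : Ψ (m * m) = Ψ y := by
    rw [h.mul hm hm, ← em, conj_mul, ← h.mul h4 h4, (h.eq (mul_mem h4 h4) ht).2 (by decide +kernel), ey]
  have e2 : Ψ (m * w * m⁻¹) = Ψ (w * si 1) := by
    rw [← h.cj hm hw, h.mul hw h.hs, ← em, ← ew, ← es, conj_mul (a := Ψ (up 1)), ← h.mul hu h.hs,
      ← (h.eq (mul_mem (mul_mem h4 hu) (inv_mem h4)) (mul_mem hu h.hs)).2 (by decide +kernel),
      ← h.cj h4 hu]
    group
  have e3 := fin w (hL hw) ow m (hL hm)
    ((h.eq (mul_mem (mul_mem hm hw) (inv_mem hm)) (mul_mem hw h.hs)).1 e2)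
  rcases (h.eq (mul_mem hm hm) hy).1 e1 with e | e <;> rw [e] at e3
  · exact ny (e3 dy)
  · have := e3 ((d_ze y (hL hy)).trans dy)
    rw [mul_assoc, ← mul_assoc (ze 1), ← ze_comm, mul_assoc y, ze_sq, mul_one] at this
    exact ny this

end H99.GD
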