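import Cfsg.Agent.Lib.GD.MB
import Cfsg.Agent.Lib.GD.Bas

set_option autoImplicit false
set_option linter.unusedSectionVars false
set_option linter.style.haveILetI false

namespace H99.GD

open H13.PS QuaternionGroup Subgroup
open scoped MatrixGroups

variable {G : Type*} [Group G] [Finite G] {D : Type*} [DivisionRing D] [CharZero D] {ρ : G →* M2 D} {z : G}

namespace INT

/-- the identity of Cayley and Hamilton that is needed -/
def CH {B : Type*} [Ring B] (C T U : B) : Prop :=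
  ((2 + (C * C - 1) * (1 + T)) * (2 + (C * C - 1) * (1 + U)) * (-(C * C))) *
      ((2 + (C * C - 1) * (1 + T)) * (2 + (C * C - 1) * (1 + U)) * (-(C * C))) -
    (4 - 2 * (C - C * C * C)) *
      ((2 + (C * C - 1) * (1 + T)) * (2 + (C * C - 1) * (1 + U)) * (-(C * C))) + 16 = 0 ∧
  (C - C * C * C) * (C - C * C * C) = 2

theorem CH.map {B B' : Type*} [Ring B] [Ring B'] (φ : B →+* B') {C T U : B} (h : CH C T U) :
    CH (φ C) (φ T) (φ U) := by
  obtain ⟨h1, h2⟩ := h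
  have a := congrArg φ h1
  have b := congrArg φ h2
  simp only [map_add, map_sub, map_mul, map_neg, map_one, map_ofNat, map_zero] at a b
  exact ⟨a, b⟩

theorem ch_comm {A : Type*} [CommRing A] (a : A) (ha : a * a * (a * a) = -1) :
    CH (!![a, 0; 0, a] : M2 A) !![0, 1; 1, 0] !![0, a; -(a * a * a), 0] := by
  have e1 : (2 + ((!![a, 0; 0, a] : M2 A) * !![a, 0; 0, a] - 1) * (1 + !![0, 1; 1, 0])) =
      !![1 + a * a, a * a - 1; a * a - 1, 1 + a * a] := by
    rw [Matrix.ofNat_fin_two, Matrix.one_fin_two]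
    ext i j; fin_cases i <;> fin_cases j <;> simp <;> ring
  have e2 : (2 + ((!![a, 0; 0, a] : M2 A) * !![a, 0; 0, a] - 1) * (1 + !![0, a; -(a * a * a), 0])) =
      !![1 + a * a, a * a * a - a; a + a * a * a, 1 + a * a] := by
    rw [Matrix.ofNat_fin_two, Matrix.one_fin_two]
    ext i j; fin_cases i <;> fin_cases j <;> simp
    · ring
    · ring
    · linear_combination (-a) * ha
    · ring
  have e3 : (!![1 + a * a, a * a - 1; a * a - 1, 1 + a * a] : M2 A) *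
      !![1 + a * a, a * a * a - a; a + a * a * a, 1 + a * a] * (-(!![a, 0; 0, a] * !![a, 0; 0, a])) =
      !![2 + 2 * a ^ 3, 2 * a ^ 3 + 2 * a ^ 2; 2 * a + 2 * a ^ 2, 2 - 2 * a] := by
    ext i j; fin_cases i <;> fin_cases j <;> simp
    · linear_combination (-2 - a ^ 2 - a ^ 3) * ha
    · linear_combination (-a ^ 2 - a ^ 3) * ha
    · linear_combination (-a ^ 2 - a ^ 3 - 2 * a) * ha
    · linear_combination (-2 - a ^ 2 - a ^ 3 + 2 * a) * ha
  have e4 : ((!![a, 0; 0, a] : M2 A) - !![a, 0; 0, a] * !![a, 0; 0, a] * !![a, 0; 0, a]) =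
      !![a - a ^ 3, 0; 0, a - a ^ 3] := by
    ext i j; fin_cases i <;> fin_cases j <;> simp <;> ring
  constructor
  · rw [e1, e2, e3, e4, Matrix.ofNat_fin_two, Matrix.ofNat_fin_two, Matrix.ofNat_fin_two]
    ext i j; fin_cases i <;> fin_cases j <;> simp
    · linear_combination (12 + 4 * a) * ha
    · ring
    · ring
    · linear_combination (12 + 4 * a) * ha
  · rw [e4, Matrix.ofNat_fin_two]
    ext i j; fin_cases i <;> fin_cases j <;> simp
    · linear_combination (a ^ 2 - 2) * ha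
    · linear_combination (a ^ 2 - 2) * ha

theorem ch {B : Type*} [Ring B] (a : B) (ha : a * a * (a * a) = -1) :
    CH (!![a, 0; 0, a] : M2 B) !![0, 1; 1, 0] !![0, a; -(a * a * a), 0] := by
  haveI : IsMulCommutative (Subring.closure ({a} : Set B)) := Subring.isMulCommutative_closure (by
    rintro x rfl y rfl; rfl)
  letI : CommRing (Subring.closure ({a} : Set B)) := open scoped IsMulCommutative in inferInstance
  let a' : Subring.closure ({a} : Set B) := ⟨a, Subring.subset_closure rfl⟩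
  have h := (ch_comm a' (Subtype.ext ha)).map (Subring.closure ({a} : Set B)).subtype.mapMatrix
  convert h using 1 <;> ext i j <;> fin_cases i <;> fin_cases j <;> rfl

theorem not_half {X : M2 D} (hX : X ∈ Algebra.adjoin ℤ (Set.range ρ)) (h : 256 * X = 128) : False := by
  have hfg : (Subalgebra.toSubmodule (Algebra.adjoin ℤ (Set.range ρ))).FG := by
    rw [Algebra.adjoin_eq_span]
    have : Set.range ρ = (MonoidHom.mrange ρ : Set (M2 D)) := rfl
    rw [this, Submonoid.closure_eq]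
    exact Submodule.fg_span (Set.finite_range ρ)
  have h1 := IsIntegral.of_mem_of_fg _ hfg X hX
  have h2 : X = algebraMap ℚ (M2 D) (1 / 2) := by
    have a : algebraMap ℚ (M2 D) (1 / 256) * 256 = 1 := by
      rw [← map_ofNat (algebraMap ℚ (M2 D)) 256, ← map_mul]; norm_num
    calc X = algebraMap ℚ (M2 D) (1 / 256) * (256 * X) := by rw [← mul_assoc, a, one_mul]
      _ = _ := by rw [h, ← map_ofNat (algebraMap ℚ (M2 D)) 128, ← map_mul]; norm_num
  rw [h2, isIntegral_algebraMap_iff (algebraMap ℚ (M2 D)).injective] at h1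
  obtain ⟨y, hy⟩ := IsIntegrallyClosed.isIntegral_iff.1 h1
  have h3 : (2 * y : ℚ) = 1 := by
    have : (y : ℚ) = 1 / 2 := hy
    rw [this]; norm_num
  have h4 : 2 * y = 1 := by exact_mod_cast h3
  omega

theorem dmul (u b v c : D) : (!![u, 0; 0, b] : M2 D) * !![v, 0; 0, c] = !![u * v, 0; 0, b * c] := by
  apply m2_ext <;> simp [m2_mul]

theorem dinv {x : G} {u b : D} (h : ρ x = !![u, 0; 0, b]) :
    u ≠ 0 ∧ b ≠ 0 ∧ ρ x⁻¹ = !![u⁻¹, 0; 0, b⁻¹] := by
  have h1 : ρ x⁻¹ * !![u, 0; 0, b] = 1 := by rw [← h, ← map_mul, inv_mul_cancel, map_one]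
  have hu : u ≠ 0 := by
    rintro rfl
    have := congrFun (congrFun h1 0) 0
    simp [m2_mul] at this
  have hb : b ≠ 0 := by
    rintro rfl
    have := congrFun (congrFun h1 1) 1
    simp [m2_mul] at this
  refine ⟨hu, hb, ?_⟩
  have h2 : (!![u⁻¹, 0; 0, b⁻¹] : M2 D) * ρ x = 1 := by
    rw [h, dmul, inv_mul_cancel₀ hu, inv_mul_cancel₀ hb, Matrix.one_fin_two]
  calc ρ x⁻¹ = !![u⁻¹, 0; 0, b⁻¹] * ρ x * ρ x⁻¹ := by rw [h2, one_mul]
    _ = _ := by rw [mul_assoc, ← map_mul, mul_inv_cancel, map_one, mul_one]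

/-- the upper left entries of the diagonal elements -/
def XX (ρ : G →* M2 D) : Subgroup Dˣ where
  carrier := {u | ∃ x b, ρ x = !![(u : D), 0; 0, b]}
  one_mem' := ⟨1, 1, by rw [map_one, Matrix.one_fin_two]; rfl⟩
  mul_mem' := by
    rintro u v ⟨x, b, h⟩ ⟨y, c, h'⟩
    exact ⟨x * y, b * c, by rw [map_mul, h, h', dmul]; rfl⟩
  inv_mem' := by
    rintro u ⟨x, b, h⟩
    exact ⟨x⁻¹, b⁻¹, by rw [(dinv h).2.2, Units.val_inv_eq_inv_val]⟩

/-- the upper left entries of the reflections -/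
def KK (ρ : G →* M2 D) : Subgroup Dˣ where
  carrier := {u | ∃ x, ρ x = !![(u : D), 0; 0, 1]}
  one_mem' := ⟨1, by rw [map_one, Matrix.one_fin_two]; rfl⟩
  mul_mem' := by
    rintro u v ⟨x, h⟩ ⟨y, h'⟩
    exact ⟨x * y, by rw [map_mul, h, h', dmul, mul_one]; rfl⟩
  inv_mem' := by
    rintro u ⟨x, h⟩
    exact ⟨x⁻¹, by rw [(dinv h).2.2, Units.val_inv_eq_inv_val, inv_one]⟩

theorem KK_cj {u v : Dˣ} (hu : u ∈ XX ρ) (hv : v ∈ KK ρ) : u * v * u⁻¹ ∈ KK ρ := by
  obtain ⟨x, b, h⟩ := hu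
  obtain ⟨y, h'⟩ := hv
  obtain ⟨-, hb, hi⟩ := dinv h
  exact ⟨x * y * x⁻¹, by
    rw [map_mul, map_mul, h, h', hi, dmul, dmul, mul_one, mul_inv_cancel₀ hb, Units.val_mul,
      Units.val_mul, Units.val_inv_eq_inv_val]⟩

theorem XX_fin : Finite (XX ρ) := by
  have h : (XX ρ : Set Dˣ) ⊆ Units.val ⁻¹' Set.range (fun x : G => ρ x 0 0) := by
    rintro u ⟨x, b, h⟩
    exact ⟨x, by simp [h]⟩
  exact ((Set.finite_range _).preimage Units.val_injective.injOn).subset h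

theorem tri {k : ℕ} (x y : QG k) : x * x * (x * x) = 1 ∨ x * y = y * x ∨ y * x * y⁻¹ = x⁻¹ := by
  rcases x with i | i
  · rcases y with j | j
    · right; left; simp [add_comm]
    · right; right; exact xa_a j i
  · left; rw [H13.PS.xa_sq, zz]

theorem refl {c y : G} {a b i : D} (hc : ρ c = !![a, 0; 0, b]) (ha : a * a * (a * a) = -1)
    (hy : ρ y = !![i, 0; 0, 1]) (hi : i * i = -1) : ∃ x, ρ x = !![a * a, 0; 0, 1] := by
  haveI := XX_fin (ρ := ρ)
  have n1 : (-1 : Dˣ) ≠ 1 := fun h => by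
    have : (-1 : D) = 1 := by simpa using congrArg Units.val h
    exact one_ne_zero (eq_zero_of_neg this)
  let α : Dˣ := Units.mk0 a (dinv hc).1
  let ι : Dˣ := Units.mk0 i (dinv hy).1
  have hα : α * α * (α * α) = -1 := Units.ext ha
  have hι : ι * ι = -1 := Units.ext hi
  have mα : α ∈ XX ρ := ⟨c, b, hc⟩
  have mι : ι ∈ XX ρ := ⟨y, 1, hy⟩
  have kι : ι ∈ KK ρ := ⟨y, hy⟩
  have p1 : (⟨α, mα⟩ : XX ρ) ^ 2 ^ 3 = 1 := Subtype.ext (by
    show α ^ 2 ^ 3 = 1
    rw [show α ^ 2 ^ 3 = α * α * (α * α) * (α * α * (α * α)) by simp [pow_succ, mul_assoc], hα]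
    simp)
  have p2 : (⟨ι, mι⟩ : XX ρ) ^ 2 ^ 2 = 1 := Subtype.ext (by
    show ι ^ 2 ^ 2 = 1
    rw [show ι ^ 2 ^ 2 = ι * ι * (ι * ι) by simp [pow_succ, mul_assoc], hι]
    simp)
  obtain ⟨P, hP⟩ := (two_zpowers p1).exists_le_sylow
  obtain ⟨n, hn⟩ := into_sylow P (two_zpowers p2)
  let ω : Dˣ := n * ι * (n : Dˣ)⁻¹
  have kω : ω ∈ KK ρ := KK_cj n.2 kι
  have hω : ω * ω = -1 := by
    have : ω * ω = n * (ι * ι) * (n : Dˣ)⁻¹ := by simp only [ω]; group
    rw [this, hι]; simp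
  let Y : Subgroup Dˣ := (P : Subgroup (XX ρ)).map (XX ρ).subtype
  have yα : α ∈ Y := ⟨⟨α, mα⟩, hP (mem_zpowers _), rfl⟩
  have yω : ω ∈ Y := ⟨_, hn _ (mem_zpowers _), rfl⟩
  haveI : Finite Y := Finite.of_surjective _ ((XX ρ).subtype.subgroupMap_surjective P)
  have key : α * ω = ω * α ∨ ω * α * ω⁻¹ = α⁻¹ := by
    rcases dx_two Y (P.isPGroup'.map _) with hc | ⟨k, ⟨e⟩⟩
    · left
      haveI := hc.isMulCommutative
      exact congrArg Subtype.val (mul_comm' (⟨α, yα⟩ : Y) ⟨ω, yω⟩)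
    · rcases tri (e ⟨α, yα⟩) (e ⟨ω, yω⟩) with h | h | h
      · simp only [← map_mul, map_eq_one_iff e e.injective] at h
        exact absurd (hα.symm.trans (congrArg Subtype.val h)) n1
      · simp only [← map_mul, e.injective.eq_iff] at h
        exact Or.inl (congrArg Subtype.val h)
      · simp only [← map_mul, ← map_inv, e.injective.eq_iff] at h
        exact Or.inr (congrArg Subtype.val h)
  have fin : α * α ∈ KK ρ := by
    rcases key with h | h
    · have h2 : Commute α ω := h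
      have h3 : (α * α * ω) * (α * α * ω) = 1 := by
        have : (α * α * ω) * (α * α * ω) = α * α * (α * α) * (ω * ω) := by
          rw [mul_assoc (α * α) ω, ← mul_assoc ω, ← (h2.mul_left h2).eq]
          simp only [mul_assoc]
        rw [this, hα, hω]; simp
      rcases dx_invol (congrArg Units.val h3 : ((α * α * ω : Dˣ) : D) * (α * α * ω : Dˣ) = 1) with h4 | h4
      · have h5 : α * α * ω = 1 := Units.ext h4
        rw [eq_inv_of_mul_eq_one_left h5]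
        exact inv_mem kω
      · have h5 : α * α * ω = ω * ω := by rw [hω]; exact Units.ext h4
        rw [mul_right_cancel h5]
        exact kω
    · have h2 : α * α = α * ω * α⁻¹ * ω⁻¹ := by
        have : ω * α⁻¹ * ω⁻¹ = α := by
          calc ω * α⁻¹ * ω⁻¹ = (ω * α * ω⁻¹)⁻¹ := by group
            _ = α := by rw [h, inv_inv]
        calc α * α = α * (ω * α⁻¹ * ω⁻¹) := by rw [this]
          _ = _ := by group
      rw [h2]
      exact mul_mem (KK_cj mα kω) (inv_mem kω)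
  exact fin

theorem refl_t {s c y t : G} {i : D} (hs : ρ s = !![1, 0; 0, -1]) (hc : ρ c * ρ c * (ρ c * ρ c) = -1)
    (hy : ρ y = !![i, 0; 0, 1]) (hi : i * i = -1) (hst : IsConj s t) (hct : c * t = t * c) :
    ∃ x, 2 * ρ x = 2 + (ρ c * ρ c - 1) * (1 + ρ t) := by
  obtain ⟨g, rfl⟩ := isConj_iff.1 hst
  have h1 : g⁻¹ * c * g * s = s * (g⁻¹ * c * g) := by
    calc g⁻¹ * c * g * s = g⁻¹ * (c * (g * s * g⁻¹)) * g := by group
      _ = _ := by rw [hct]; group
  have h2 := congrArg ρ h1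
  rw [map_mul ρ _ s, map_mul ρ s, hs] at h2
  have h3 := diag_of_comm h2
  set a := ρ (g⁻¹ * c * g) 0 0
  set b := ρ (g⁻¹ * c * g) 1 1
  have gi : ρ g * ρ g⁻¹ = 1 := by rw [← map_mul, mul_inv_cancel, map_one]
  have ig : ρ g⁻¹ * ρ g = 1 := by rw [← map_mul, inv_mul_cancel, map_one]
  have h4 : (!![a * a * (a * a), 0; 0, b * b * (b * b)] : M2 D) = -1 := by
    rw [← dmul, ← dmul, ← h3, ← map_mul, ← map_mul,
      show g⁻¹ * c * g * (g⁻¹ * c * g) * (g⁻¹ * c * g * (g⁻¹ * c * g)) = g⁻¹ * (c * c * (c * c)) * g by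
        group, map_mul, map_mul, map_mul, map_mul, hc, mul_neg, mul_one, neg_mul, ig]
  have h5 : a * a * (a * a) = -1 := by simpa using congrFun (congrFun h4 0) 0
  obtain ⟨x, hx⟩ := refl h3 h5 hy hi
  have h6 : 2 * ρ x = 2 + (ρ (g⁻¹ * c * g) * ρ (g⁻¹ * c * g) - 1) * (1 + ρ s) := by
    rw [hx, h3, hs, dmul, Matrix.ofNat_fin_two, Matrix.one_fin_two]
    apply m2_ext <;> simp [m2_mul]
    rw [← one_add_one_eq_two]; noncomm_ring
  refine ⟨g * x * g⁻¹, ?_⟩
  simp only [map_mul] at h6 ⊢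
  calc 2 * (ρ g * ρ x * ρ g⁻¹) = ρ g * (2 * ρ x) * ρ g⁻¹ := by noncomm_ring
    _ = 2 * (ρ g * ρ g⁻¹) + ((ρ g * ρ g⁻¹) * ρ c * (ρ g * ρ g⁻¹) * ρ c * (ρ g * ρ g⁻¹) - ρ g * ρ g⁻¹) +
        ((ρ g * ρ g⁻¹) * ρ c * (ρ g * ρ g⁻¹) * ρ c - 1) * (ρ g * ρ s * ρ g⁻¹) := by
      rw [h6]; noncomm_ring
    _ = _ := by
      rw [gi]; simp only [mul_one, one_mul]; generalize (2 : M2 D) = w; noncomm_ring

end INT

open INT in
theorem int8 (hρ : Function.Injective ρ) {s τ c y : G} {a : D} (hs : ρ s = !![1, 0; 0, -1])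
    (hτ : ρ τ = !![0, 1; 1, 0]) (hc : ρ c = !![a, 0; 0, a]) (hy : ρ y = !![a * a, 0; 0, 1])
    (ha : a * a * (a * a) = -1) (hconj : ∀ t : G, t * t = 1 → ρ t ≠ 1 → ρ t ≠ -1 → IsConj s t) :
    False := by
  have a0 : a ≠ 0 := (dinv hc).1
  have hc4 : ρ c * ρ c * (ρ c * ρ c) = -1 := by
    rw [hc, dmul, dmul, ha]; apply m2_ext <;> simp
  have h1 : ρ (τ * y * τ) = !![1, 0; 0, a * a] := by
    rw [map_mul, map_mul, hτ, hy]; apply m2_ext <;> simp [m2_mul]
  have ai : a * (a * a)⁻¹ = -(a * a * a) := by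
    rw [mul_inv_eq_iff_eq_mul₀ (mul_ne_zero a0 a0), neg_mul, mul_assoc (a * a), ← mul_assoc a a a,
      ← mul_assoc (a * a), ha]
    simp
  have a4 : a * (a * a * a) = -1 := by rw [← ha]; simp only [mul_assoc]
  have a4' : a * a * a * a = -1 := by rw [← ha]; simp only [mul_assoc]
  have h2 : ρ (c * (τ * y * τ)⁻¹ * τ) = !![0, a; -(a * a * a), 0] := by
    rw [map_mul, map_mul, (dinv h1).2.2, hc, dmul, hτ, ai]; apply m2_ext <;> simp [m2_mul]
  set t := c * (τ * y * τ)⁻¹ * τ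
  have c1 : IsConj s τ := hconj τ (hρ (by
      rw [map_mul, hτ, map_one]; apply m2_ext <;> simp [m2_mul]))
    (fun h => by simpa [hτ] using congrFun (congrFun h 0) 0)
    (fun h => by simpa [hτ] using congrFun (congrFun h 0) 0)
  have c2 : IsConj s t := hconj t (hρ (by
      rw [map_mul, h2, map_one]; apply m2_ext <;> simp [m2_mul, a4, a4']))
    (fun h => by simpa [h2] using congrFun (congrFun h 0) 0)
    (fun h => by simpa [h2] using congrFun (congrFun h 0) 0)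
  obtain ⟨x₁, e1⟩ := refl_t hs hc4 hy ha c1 (hρ (by
    rw [map_mul, map_mul, hc, hτ]; apply m2_ext <;> simp [m2_mul]))
  obtain ⟨x₂, e2⟩ := refl_t hs hc4 hy ha c2 (hρ (by
    rw [map_mul ρ c t, map_mul ρ t c, hc, h2]; apply m2_ext <;> simp [m2_mul, a4, a4']))
  obtain ⟨q1, q2⟩ := ch a ha
  rw [← hc, ← hτ, ← h2, ← e1, ← e2] at q1
  rw [← hc] at q2
  have e3 : ρ (c * c)⁻¹ = -(ρ c * ρ c) := by
    calc ρ (c * c)⁻¹ = -(ρ c * ρ c * (ρ c * ρ c)) * ρ (c * c)⁻¹ := by rw [hc4]; simp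
      _ = -(ρ c * ρ c) * (ρ (c * c) * ρ (c * c)⁻¹) := by rw [map_mul ρ c c]; noncomm_ring
      _ = _ := by rw [← map_mul ρ (c * c), mul_inv_cancel, map_one, mul_one]
  set k := x₁ * x₂ * (c * c)⁻¹ with hk
  have e4 : 2 * ρ x₁ * (2 * ρ x₂) * -(ρ c * ρ c) = 4 * ρ k := by
    rw [hk, map_mul, map_mul, e3]; noncomm_ring
  rw [e4] at q1
  have e5 : ρ k * ρ k⁻¹ = 1 := by rw [← map_mul, mul_inv_cancel, map_one]
  set W := ρ c - ρ c * ρ c * ρ c
  have e6 : 16 * (ρ k + ρ k⁻¹ - 1) = -(8 * W) := by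
    have h := congrArg (· * ρ k⁻¹) q1
    simp only [zero_mul] at h
    have h' : (4 * ρ k * (4 * ρ k) - (4 - 2 * W) * (4 * ρ k) + 16) * ρ k⁻¹ =
        16 * ρ k * (ρ k * ρ k⁻¹) - (16 - 8 * W) * (ρ k * ρ k⁻¹) + 16 * ρ k⁻¹ := by noncomm_ring
    rw [h', e5] at h
    rw [← sub_eq_zero, ← h]; simp only [mul_add, mul_sub, mul_one]; abel
  have m : ∀ g, ρ g ∈ Algebra.adjoin ℤ (Set.range ρ) := fun g => Algebra.subset_adjoin ⟨g, rfl⟩
  have mX : ρ k + ρ k⁻¹ - 1 ∈ Algebra.adjoin ℤ (Set.range ρ) :=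
    sub_mem (add_mem (m _) (m _)) (one_mem _)
  refine not_half (mul_mem mX mX) ?_
  calc 256 * ((ρ k + ρ k⁻¹ - 1) * (ρ k + ρ k⁻¹ - 1)) =
      (16 * (ρ k + ρ k⁻¹ - 1)) * (16 * (ρ k + ρ k⁻¹ - 1)) := by
        generalize ρ k + ρ k⁻¹ - 1 = X; noncomm_ring
    _ = 64 * (W * W) := by rw [e6]; noncomm_ring
    _ = 128 := by rw [q2]; norm_num

end H99.GD
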