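import Cfsg.Agent.Lib.GD.R4
import Cfsg.Agent.Lib.GD.INT

set_option autoImplicit false
set_option linter.unusedSectionVars false

namespace H99.GD

open H13.PS QuaternionGroup Subgroup
open scoped MatrixGroups

variable {G : Type*} [Group G] [Finite G] {D : Type*} [DivisionRing D] [CharZero D] {ρ : G →* M2 D} {z : G} {H : Type*} [Group H] {f : G →* H}

namespace FR

/-- the monomial representation of the wreath product -/
def mu {k : ℕ} (ι : QG k →* D) : Wr k →* M2 D where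
  toFun m := cond m.s !![0, ι m.l; ι m.r, 0] !![ι m.l, 0; 0, ι m.r]
  map_one' := by simp [Wr.one_def, Matrix.one_fin_two]
  map_mul' := by rintro ⟨x, y, _ | _⟩ ⟨x', y', _ | _⟩ <;> simp

theorem mu_ff {k : ℕ} (ι : QG k →* D) (x y : QG k) : mu ι ⟨x, y, false⟩ = !![ι x, 0; 0, ι y] := rfl
theorem mu_tt {k : ℕ} (ι : QG k →* D) (x y : QG k) : mu ι ⟨x, y, true⟩ = !![0, ι x; ι y, 0] := rfl

theorem mu_inj {k : ℕ} {ι : QG k →* D} (hι : Function.Injective ι) : Function.Injective (mu ι) := by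
  rw [injective_iff_map_eq_one]
  rintro ⟨x, y, _ | _⟩ e
  · have h1 := congrFun (congrFun e 0) 0
    have h2 := congrFun (congrFun e 1) 1
    simp only [mu_ff, Matrix.of_apply, Matrix.cons_val', Matrix.cons_val_zero, Matrix.cons_val_one,
      Matrix.cons_val_fin_one, Matrix.one_apply_eq] at h1 h2
    rw [(map_eq_one_iff ι hι).1 h1, (map_eq_one_iff ι hι).1 h2]; rfl
  · simpa [mu_tt] using congrFun (congrFun e 0) 0

theorem fr0 (hρ : Function.Injective ρ) (hz : ρ z = -1) (hp : commutator G = ⊤) (hf : Cov f z)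
    (T : Sylow 2 G) {s τ : G} (hT : s ∈ T) (hs : Nci z s)
    (hn : ∀ g ∈ T, g * s = s * g ∨ g * s = z * s * g) (hτT : τ ∈ T) (hτ : τ * s = z * s * τ)
    (es : ρ s = !![1, 0; 0, -1]) (eτ : ρ τ = !![0, 1; 1, 0]) :
    ∃ (k : ℕ) (Γ : Subgroup (Wr k)) (Ψ : Wr k → H) (St : H → Prop) (T : Sylow 2 H), Fr Γ Ψ St T := by
  have ax := ax_of hρ hz
  have ττ : τ * τ = 1 := hρ (by rw [map_mul, eτ, map_one]; simp [Matrix.one_fin_two])
  obtain ⟨X, hX⟩ : ∃ X : Subgroup G, ∀ x, x ∈ X ↔ x ∈ T ∧ x * s = s * x :=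
    ⟨T ⊓ centralizer {s}, fun x => by rw [mem_inf, mem_centralizer_singleton_iff]; rfl⟩
  have dg : ∀ x ∈ X, ρ x = !![ρ x 0 0, 0; 0, ρ x 1 1] := fun x hx =>
    diag_of_comm (by rw [← es, ← map_mul, ((hX x).1 hx).2, map_mul])
  have an : ∀ x ∈ T, x ∉ X → x * τ ∈ X := fun x hx nx => (hX _).2 ⟨mul_mem hx hτT, by
    rw [mul_assoc, hτ, ← mul_assoc, ← mul_assoc, ax.zc, mul_assoc z,
      (hn x hx).resolve_left fun e => nx ((hX x).2 ⟨hx, e⟩), ← mul_assoc, ← mul_assoc, ax.zz, one_mul,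
      mul_assoc]⟩
  have sw : ∀ x ∈ X, τ * x * τ ∈ X ∧ ρ (τ * x * τ) 0 0 = ρ x 1 1 := fun x hx => by
    refine ⟨(hX _).2 ⟨mul_mem (mul_mem hτT ((hX x).1 hx).1) hτT, hρ ?_⟩, ?_⟩ <;>
      simp only [map_mul] <;> rw [dg x hx, eτ]
    · rw [es]; simp
    · simp
  let p0 : X →* D :=
    { toFun := fun x => ρ x 0 0
      map_one' := by simp
      map_mul' := fun x y => by
        rw [coe_mul, map_mul, Matrix.mul_apply, Fin.sum_univ_two]
        have := congrFun (congrFun (dg x x.2) 0) 1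
        simp only [Matrix.of_apply, Matrix.cons_val', Matrix.cons_val_zero, Matrix.cons_val_one,
          Matrix.cons_val_fin_one] at this
        rw [this, zero_mul, add_zero] }
  have h2 : IsPGroup 2 p0.toHomUnits.range :=
    (T.2.to_le (show X ≤ T from fun x hx => ((hX x).1 hx).1)).of_surjective _
      p0.toHomUnits.rangeRestrict_surjective
  have : Finite p0.toHomUnits.range := Finite.of_surjective _ p0.toHomUnits.rangeRestrict_surjective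
  rcases dx_two _ h2 with hc | ⟨k, ⟨e⟩⟩
  · have c : ∀ x ∈ X, ∀ y ∈ X, ρ x 0 0 * ρ y 0 0 = ρ y 0 0 * ρ x 0 0 := fun x hx y hy =>
      congrArg (fun u : p0.toHomUnits.range => ((u : Dˣ) : D))
        (hc.isMulCommutative.is_comm.comm ⟨_, ⟨x, hx⟩, rfl⟩ ⟨_, ⟨y, hy⟩, rfl⟩)
    refine (c0 hp ax T hT hs hn fun x hx y hy ex ey => hρ ?_).elim
    have mx := (hX x).2 ⟨hx, ex⟩
    have my := (hX y).2 ⟨hy, ey⟩
    have c1 := c _ (sw x mx).1 _ (sw y my).1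
    rw [(sw x mx).2, (sw y my).2] at c1
    rw [map_mul, map_mul, dg x mx, dg y my]
    simp [c x mx y my, c1]
  obtain ⟨ι, hι, i1, i2⟩ : ∃ ι : QG k →* D, Function.Injective ι ∧ (∀ x ∈ X, ∃ q, ι q = ρ x 0 0) ∧
      ∀ q, ∃ x ∈ X, ι q = ρ x 0 0 :=
    ⟨(Units.coeHom D).comp (p0.toHomUnits.range.subtype.comp e.symm.toMonoidHom),
      Units.val_injective.comp ((subtype_injective _).comp e.symm.injective),
      fun x hx => ⟨e ⟨_, ⟨x, hx⟩, rfl⟩, by simp [p0]⟩,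
      fun q => by
        obtain ⟨x, hx⟩ := (e.symm q).2
        exact ⟨x, x.2, (congrArg Units.val hx).symm⟩⟩
  have iz : ι (z0 k) = -1 := (dx_invol (by rw [← map_mul, zz, map_one])).resolve_left
    fun e => z_ne ((map_eq_one_iff ι hι).1 e)
  have μi := mu_inj hι
  have μτ : ρ τ = mu ι (ta k) := by rw [eτ, ta, mu_tt, map_one]
  have μz : ρ z = mu ι (ze k) := by
    rw [hz, ze, mu_ff, iz]; ext i j; fin_cases i <;> fin_cases j <;> simp
  have onX : ∀ x ∈ X, ∀ q, ι q = ρ x 0 0 → ∃ r, ρ x = mu ι ⟨q, r, false⟩ := fun x hx q hq => by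
    obtain ⟨r, hr⟩ := i1 _ (sw x hx).1
    exact ⟨r, by rw [mu_ff, hq, hr, (sw x hx).2]; exact dg x hx⟩
  have on : ∀ x ∈ T, ∃ m, ρ x = mu ι m := fun x hx => by
    by_cases h : x ∈ X
    · obtain ⟨q, hq⟩ := i1 x h
      exact (onX x h q hq).elim fun _ e => ⟨_, e⟩
    · obtain ⟨q, hq⟩ := i1 _ (an x hx h)
      obtain ⟨r, e⟩ := onX _ (an x hx h) q hq
      exact ⟨_ * ta k, by rw [map_mul, ← e, ← μτ, ← map_mul, mul_assoc, ττ, mul_one]⟩
  let Γ : Subgroup (Wr k) :=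
    { carrier := {m | ∃ x ∈ T, ρ x = mu ι m}
      one_mem' := ⟨1, one_mem _, by rw [map_one, map_one]⟩
      mul_mem' := fun ⟨x, hx, e⟩ ⟨y, hy, e'⟩ => ⟨x * y, mul_mem hx hy, by rw [map_mul, map_mul, e, e']⟩
      inv_mem' := fun {m} ⟨x, hx, e⟩ => ⟨x⁻¹, inv_mem hx, left_inv_eq_right_inv (a := ρ x)
        (by rw [← map_mul, inv_mul_cancel, map_one])
        (by rw [e, ← map_mul, mul_inv_cancel, map_one])⟩ }
  have φ : ∀ {x m}, ρ x = mu ι m → Function.invFun ρ (mu ι m) = x := fun e =>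
    e ▸ Function.leftInverse_invFun hρ _
  have eq1 : ∀ {x y m n}, ρ x = mu ι m → ρ y = mu ι n → (x = y ↔ m = n) := fun e e' =>
    ⟨fun h => μi (by rw [← e, ← e', h]), fun h => hρ (by rw [e, e', h])⟩
  have o1 : ρ 1 = mu ι 1 := by rw [map_one, map_one]
  refine ⟨k, Γ, fun m => f (Function.invFun ρ (mu ι m)), fun h => ∃ g, f g = h ∧ g * g = 1,
    T.mapSurjective hf.surj, hf.simple, hf.nc, ?_, ?_, fun g => ⟨?_, ?_⟩, ?_, ?_,
    ⟨s, hT, by rw [es, si, mu_ff, map_one, iz]⟩, ⟨τ, hτT, μτ⟩, fun q => ?_, ?_⟩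
  · rintro m n ⟨x, -, e⟩ ⟨y, -, e'⟩
    rw [φ e, φ e', φ (x := x * y) (by rw [map_mul, map_mul, e, e']), map_mul]
  · rintro m ⟨x, -, e⟩
    rw [φ e, hf.ker, eq1 e o1, eq1 e μz]
  · rintro ⟨x, hx, rfl⟩
    obtain ⟨m, e⟩ := on x hx
    exact ⟨m, ⟨x, hx, e⟩, by rw [φ e]⟩
  · rintro ⟨m, ⟨x, hx, e⟩, rfl⟩
    exact ⟨x, hx, by rw [φ e]⟩
  · rintro g _ ⟨x, rfl, e⟩
    obtain ⟨g, rfl⟩ := hf.surj g
    exact ⟨g * x * g⁻¹, by simp, by rw [conj_mul, e]; simp⟩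
  · rintro m ⟨x, -, e⟩
    rw [φ e, ← eq1 (x := x * x) (by rw [map_mul, map_mul, e]) o1]
    refine ⟨fun ⟨g, e1, e2⟩ => ?_, fun e2 => ⟨x, rfl, e2⟩⟩
    rcases (hf.ker (g⁻¹ * x)).1 (by rw [map_mul, map_inv, e1, inv_mul_cancel]) with e3 | e3
    · rwa [← inv_mul_eq_one.1 e3]
    · rw [inv_mul_eq_iff_eq_mul.1 e3, mul_assoc, ← mul_assoc z, ← ax.zc, mul_assoc, ax.zz, mul_one, e2]
  · obtain ⟨x, hx, e⟩ := i2 q
    obtain ⟨r, e⟩ := onX x hx q e
    exact ⟨r, x, ((hX x).1 hx).1, e⟩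
  · rintro x h4 ⟨c, -, ec⟩ ⟨y, -, ey⟩
    refine int8 hρ es eτ (ec.trans (mu_ff ..)) (ey.trans (by rw [mu_ff, map_mul, map_one]))
      (by rw [← map_mul, ← map_mul, h4, iz]) fun t t2 t1 tz => ?_
    rcases conj_s hp ax T hT hs hn ((nci_iff hρ hz).2 ⟨t2, t1, tz⟩) with c | c
    · exact c
    · exact (isConj_iff.2 ⟨τ, by rw [hτ, mul_inv_cancel_right]⟩).trans c

end FR

theorem exists_fr (hρ : Function.Injective ρ) (hz : ρ z = -1) (hp : commutator G = ⊤) (hf : Cov f z)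
    (h : ∃ x, Nci z x) : ∃ (k : ℕ) (Γ : Subgroup (Wr k)) (Ψ : Wr k → H) (St : H → Prop) (T : Sylow 2 H),
      Fr Γ Ψ St T := by
  have ax := ax_of hρ hz
  obtain ⟨T⟩ : Nonempty (Sylow 2 G) := inferInstance
  obtain ⟨s, hT, hs, hn⟩ := nf4 hp ax T h
  obtain ⟨τ, hτT, hτ, e⟩ := exists_tau ax hf T hT hs hn
  obtain ⟨s2, s1, sz⟩ := (nci_iff hρ hz).1 hs
  obtain ⟨P, Q, h1, h2, es⟩ := invol_conj (t := ρ s) (by rw [← map_mul, s2, map_one]) s1 sz
  have z1 : cjr ρ P Q h1 h2 z = -1 := by rw [cjr_apply, hz, mul_neg, neg_mul, mul_one, h2]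
  have i1 := cjr_inj hρ P Q h1 h2
  rw [← cjr_apply ρ P Q h1 h2] at es
  generalize cjr ρ P Q h1 h2 = ρ' at es z1 i1
  have eτ := anti_of_anti (x := ρ' τ) (by
    rw [← es, ← map_mul, e, map_mul, map_mul, z1, neg_mul, neg_mul, one_mul])
  generalize ρ' τ 0 1 = b, ρ' τ 1 0 = c at eτ
  have e2 : (!![0, b; c, 0] * !![0, b; c, 0] : M2 D) = 1 := by rw [← eτ, ← map_mul, hτ.1, map_one]
  have bc : b * c = 1 := by simpa using congrFun (congrFun e2 0) 0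
  have cb : c * b = 1 := by simpa using congrFun (congrFun e2 1) 1
  have k1 : (!![1, 0; 0, c] * !![1, 0; 0, b] : M2 D) = 1 := by simp [cb, Matrix.one_fin_two]
  have k2 : (!![1, 0; 0, b] * !![1, 0; 0, c] : M2 D) = 1 := by simp [bc, Matrix.one_fin_two]
  exact FR.fr0 (cjr_inj i1 _ _ k1 k2) (by rw [cjr_apply, z1, mul_neg, neg_mul, mul_one, k2]) hp hf T hT hs
    hn hτT e (by rw [cjr_apply, es]; simp [bc]) (by rw [cjr_apply, eτ]; simp [bc])

end H99.GD
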