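import Cfsg.Agent.Lib.FrobC.Perfect
import Cfsg.Agent.Lib.FrobC.NZ
import Cfsg.Agent.Lib.GD.Defs

set_option autoImplicit false

namespace H99.GD

open H13.PS QuaternionGroup Subgroup

variable {G : Type*} [Group G] {D : Type*} [DivisionRing D]

theorem dx_invol {u : D} (h : u * u = 1) : u = 1 ∨ u = -1 := by
  have : (u - 1) * (u + 1) = 0 := by rw [sub_mul, mul_add, h]; noncomm_ring
  exact (mul_eq_zero.1 this).imp sub_eq_zero.1 eq_neg_of_add_eq_zero_left

theorem m2_ext {x y : M2 D} (h1 : x 0 0 = y 0 0) (h2 : x 0 1 = y 0 1) (h3 : x 1 0 = y 1 0)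
    (h4 : x 1 1 = y 1 1) : x = y := by
  ext i j
  fin_cases i <;> fin_cases j <;> assumption

theorem m2_mul (x y : M2 D) (i j : Fin 2) : (x * y) i j = x i 0 * y 0 j + x i 1 * y 1 j := by
  rw [Matrix.mul_apply, Fin.sum_univ_two]

theorem ex_col {e : M2 D} (h0 : e ≠ 0) : ∃ v : M2 D, e * v ≠ 0 ∧ v = v * !![1, 0; 0, 0] := by
  by_contra c
  push Not at c
  have h1 : e * !![1, 0; 0, 0] = 0 := by_contra fun d => c _ d (by simp)
  have h2 : e * !![0, 0; 1, 0] = 0 := by_contra fun d => c _ d (by simp)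
  refine h0 (m2_ext ?_ ?_ ?_ ?_)
  · simpa [m2_mul] using congrFun (congrFun h1 0) 0
  · simpa [m2_mul] using congrFun (congrFun h2 0) 0
  · simpa [m2_mul] using congrFun (congrFun h1 1) 0
  · simpa [m2_mul] using congrFun (congrFun h2 1) 0

/-- a matrix with non-zero first column is invertible or its second column is a multiple of the first -/
theorem inv_or_dep (P : M2 D) (h : P 0 0 ≠ 0 ∨ P 1 0 ≠ 0) :
    (∃ Q : M2 D, P * Q = 1 ∧ Q * P = 1) ∨ ∃ c : D, P 0 1 = P 0 0 * c ∧ P 1 1 = P 1 0 * c := by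
  have key : ∀ P : M2 D, P 0 0 ≠ 0 →
      (∃ Q : M2 D, P * Q = 1 ∧ Q * P = 1) ∨ ∃ c : D, P 0 1 = P 0 0 * c ∧ P 1 1 = P 1 0 * c := by
    intro P h
    obtain ⟨a', ha1, ha2⟩ : ∃ a', P 0 0 * a' = 1 ∧ a' * P 0 0 = 1 :=
      ⟨_, mul_inv_cancel₀ h, inv_mul_cancel₀ h⟩
    by_cases hd : P 1 1 - P 1 0 * (a' * P 0 1) = 0
    · exact Or.inr ⟨a' * P 0 1, by rw [← mul_assoc, ha1, one_mul], sub_eq_zero.1 hd⟩
    obtain ⟨d', hd1, hd2⟩ : ∃ d', (P 1 1 - P 1 0 * (a' * P 0 1)) * d' = 1 ∧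
      d' * (P 1 1 - P 1 0 * (a' * P 0 1)) = 1 := ⟨_, mul_inv_cancel₀ hd, inv_mul_cancel₀ hd⟩
    have e : P = !![1, 0; P 1 0 * a', 1] * !![P 0 0, 0; 0, P 1 1 - P 1 0 * (a' * P 0 1)] *
        !![1, a' * P 0 1; 0, 1] := by
      refine m2_ext ?_ ?_ ?_ ?_ <;> simp [mul_assoc, ha2]
      rw [← mul_assoc, ha1, one_mul]
    have u1 : IsUnit (!![1, 0; P 1 0 * a', 1] : M2 D) :=
      ⟨⟨_, !![1, 0; -(P 1 0 * a'), 1], by simp [← Matrix.one_fin_two], by simp [← Matrix.one_fin_two]⟩, rfl⟩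
    have u2 : IsUnit (!![P 0 0, 0; 0, P 1 1 - P 1 0 * (a' * P 0 1)] : M2 D) :=
      ⟨⟨_, !![a', 0; 0, d'], by simp [ha1, hd1, ← Matrix.one_fin_two],
        by simp [ha2, hd2, ← Matrix.one_fin_two]⟩, rfl⟩
    have u3 : IsUnit (!![1, a' * P 0 1; 0, 1] : M2 D) :=
      ⟨⟨_, !![1, -(a' * P 0 1); 0, 1], by simp [← Matrix.one_fin_two], by simp [← Matrix.one_fin_two]⟩, rfl⟩
    obtain ⟨u, hu⟩ := (u1.mul u2).mul u3
    rw [← e] at hu
    exact Or.inl ⟨u.inv, hu ▸ u.val_inv, hu ▸ u.inv_val⟩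
  rcases h with h | h
  · exact key P h
  · have hw : (!![0, 1; 1, 0] : M2 D) * !![0, 1; 1, 0] = 1 := by simp [← Matrix.one_fin_two]
    rcases key (!![0, 1; 1, 0] * P) (by simpa [m2_mul] using h) with ⟨Q, h1, h2⟩ | ⟨c, h1, h2⟩
    · refine Or.inl ⟨Q * !![0, 1; 1, 0], ?_, by rw [mul_assoc, h2]⟩
      calc _ = !![0, 1; 1, 0] * (!![0, 1; 1, 0] * P * Q) * !![0, 1; 1, 0] := by
            rw [← mul_assoc, ← mul_assoc, ← mul_assoc, hw, one_mul]
        _ = 1 := by rw [h1, mul_one, hw]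
    · exact Or.inr ⟨c, by simpa [m2_mul] using h2, by simpa [m2_mul] using h1⟩

theorem idem_conj {e : M2 D} (h : e * e = e) (h0 : e ≠ 0) (h1 : e ≠ 1) :
    ∃ P Q : M2 D, P * Q = 1 ∧ Q * P = 1 ∧ Q * e * P = !![1, 0; 0, 0] := by
  obtain ⟨v, hv, ev⟩ := ex_col h0
  obtain ⟨w, hw, ew⟩ := ex_col (sub_ne_zero.2 h1.symm)
  set a := e * v with ha
  set b := (1 - e) * w with hb
  have ea : a * !![1, 0; 0, 0] = a := by rw [ha, mul_assoc, ← ev]
  have eb : b * !![1, 0; 0, 0] = b := by rw [hb, mul_assoc, ← ew]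
  have h2 : e * a = a := by rw [ha, ← mul_assoc, h]
  have h3 : e * b = 0 := by rw [hb, ← mul_assoc, mul_sub, mul_one, h, sub_self, zero_mul]
  have col : ∀ x : M2 D, x * !![1, 0; 0, 0] = x → x 0 1 = 0 ∧ x 1 1 = 0 := fun x hx =>
    ⟨by rw [← hx]; simp [m2_mul], by rw [← hx]; simp [m2_mul]⟩
  let P : M2 D := a + b * !![0, 1; 0, 0]
  have hP : e * P = P * !![1, 0; 0, 0] := by
    have h4 : (!![0, 1; 0, 0] : M2 D) * !![1, 0; 0, 0] = 0 := m2_ext (by simp) (by simp) (by simp) (by simp)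
    rw [mul_add, add_mul, h2, ← mul_assoc e b, h3, ea, mul_assoc, h4, zero_mul, mul_zero]
  rcases inv_or_dep P (by
    by_contra c
    push Not at c
    exact hv (m2_ext (by simpa [P, m2_mul] using c.1) (col a ea).1 (by simpa [P, m2_mul] using c.2)
      (col a ea).2)) with ⟨Q, q1, q2⟩ | ⟨c, c1, c2⟩
  · exact ⟨P, Q, q1, q2, by rw [mul_assoc, hP, ← mul_assoc, q2, one_mul]⟩
  · have hc : b = a * !![c, 0; 0, 0] := by
      refine m2_ext ?_ ?_ ?_ ?_
      · simpa [P, m2_mul, (col a ea).1] using c1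
      · simp [m2_mul, (col b eb).1]
      · simpa [P, m2_mul, (col a ea).2] using c2
      · simp [m2_mul, (col b eb).2]
    exact (hw (by rw [← h3, hc, ← mul_assoc, h2])).elim

theorem cj_mul {P Q : M2 D} (h : P * Q = 1) (x y : M2 D) : Q * (x * y) * P = Q * x * P * (Q * y * P) := by
  calc _ = Q * x * (P * Q) * y * P := by rw [h]; noncomm_ring
    _ = _ := by noncomm_ring

theorem cj_inj {P Q : M2 D} (h : P * Q = 1) {x y : M2 D} (e : Q * x * P = Q * y * P) : x = y := by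
  calc x = P * Q * x * (P * Q) := by rw [h]; noncomm_ring
    _ = P * (Q * y * P) * Q := by rw [← e]; noncomm_ring
    _ = P * Q * y * (P * Q) := by noncomm_ring
    _ = y := by rw [h]; noncomm_ring

theorem cj_zero {P Q : M2 D} (h : P * Q = 1) {x : M2 D} (e : Q * x * P = 0) : x = 0 :=
  cj_inj h (by rw [e, mul_zero, zero_mul])

theorem cj_compl {P Q e : M2 D} (h : Q * P = 1) (he : Q * e * P = !![1, 0; 0, 0]) :
    Q * (1 - e) * P = !![0, 0; 0, 1] := by
  rw [mul_sub, sub_mul, mul_one, h, he]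
  exact m2_ext (by simp) (by simp) (by simp) (by simp)

theorem corner (x : M2 D) : !![1, 0; 0, 0] * x * !![0, 0; 0, 1] = !![0, x 0 1; 0, 0] := by
  rw [Matrix.eta_fin_two x, Matrix.mul_fin_two, Matrix.mul_fin_two]
  exact m2_ext (by simp) (by simp) (by simp) (by simp)

theorem corner_inj {e x w : M2 D} (h : e * e = e) (h0 : e ≠ 0) (h1 : e ≠ 1) (hx : e * x * (1 - e) ≠ 0)
    (hw : e * x * (1 - e) * w = 0) : (1 - e) * w = 0 := by
  obtain ⟨P, Q, q1, q2, he⟩ := idem_conj h h0 h1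
  have h2 : (Q * x * P) 0 1 ≠ 0 := fun c => hx (cj_zero q1 (by
    rw [cj_mul q1, cj_mul q1, he, cj_compl q2 he, corner, c]
    exact m2_ext rfl rfl rfl rfl))
  have h3 := congrArg (fun y => Q * y * P) hw
  simp only [mul_zero, zero_mul] at h3
  rw [cj_mul q1, cj_mul q1, cj_mul q1, he, cj_compl q2 he, corner] at h3
  refine cj_zero q1 ?_
  rw [cj_mul q1, cj_compl q2 he]
  generalize Q * x * P = x' at h2 h3
  generalize Q * w * P = w' at h3
  have h4 := congrFun (congrFun h3 0) 0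
  have h5 := congrFun (congrFun h3 0) 1
  simp [m2_mul, h2] at h4 h5
  exact m2_ext (by simp [m2_mul]) (by simp [m2_mul]) (by simp [m2_mul, h4]) (by simp [m2_mul, h5])

/-- three pairwise orthogonal idempotents: one is zero -/
theorem three_idem {e f g : M2 D} (he : e * e = e) (hf : f * f = f) (hg : g * g = g) (h1 : e * f = 0)
    (h2 : f * e = 0) (h3 : e * g = 0) (h4 : g * e = 0) (h5 : f * g = 0) : e = 0 ∨ f = 0 ∨ g = 0 := by
  by_cases h0 : e = 0
  · exact Or.inl h0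
  by_cases h6 : e = 1
  · exact Or.inr (Or.inl (by rwa [h6, one_mul] at h1))
  obtain ⟨P, Q, q1, q2, hc⟩ := idem_conj he h0 h6
  have key : ∀ y : M2 D, e * y = 0 → y * e = 0 → Q * y * P = !![0, 0; 0, (Q * y * P) 1 1] := by
    intro y a b
    have a' := cj_mul q1 e y
    have b' := cj_mul q1 y e
    rw [a, hc, mul_zero, zero_mul] at a'
    rw [b, hc, mul_zero, zero_mul] at b'
    generalize Q * y * P = y' at a' b'
    exact m2_ext (by simpa [m2_mul] using (congrFun (congrFun a' 0) 0).symm)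
      (by simpa [m2_mul] using (congrFun (congrFun a' 0) 1).symm)
      (by simpa [m2_mul] using (congrFun (congrFun b' 1) 0).symm) rfl
  have h7 := cj_mul q1 f g
  rw [h5, mul_zero, zero_mul, key f h1 h2, key g h3 h4] at h7
  have h8 : (Q * f * P) 1 1 * (Q * g * P) 1 1 = 0 := by
    generalize (Q * f * P) 1 1 = a at h7
    generalize (Q * g * P) 1 1 = b at h7
    simpa only [Matrix.mul_fin_two, Matrix.zero_apply, Matrix.of_apply, Matrix.cons_val', Matrix.cons_val_one,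
      Matrix.cons_val_fin_one, mul_zero, zero_add] using (congrFun (congrFun h7 1) 1).symm
  right
  refine (mul_eq_zero.1 h8).imp (fun c => cj_zero q1 ?_) fun c => cj_zero q1 ?_
  · rw [key f h1 h2, c]; exact m2_ext rfl rfl rfl rfl
  · rw [key g h3 h4, c]; exact m2_ext rfl rfl rfl rfl

/-- change of basis -/
def cjr (ρ : G →* M2 D) (P Q : M2 D) (h1 : P * Q = 1) (h2 : Q * P = 1) : G →* M2 D where
  toFun g := Q * ρ g * P
  map_one' := by rw [map_one, mul_one, h2]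
  map_mul' a b := by
    rw [map_mul]
    calc Q * (ρ a * ρ b) * P = Q * ρ a * (P * Q) * ρ b * P := by rw [h1]; noncomm_ring
      _ = _ := by noncomm_ring

theorem cjr_apply (ρ : G →* M2 D) (P Q : M2 D) (h1 : P * Q = 1) (h2 : Q * P = 1) (g : G) :
    cjr ρ P Q h1 h2 g = Q * ρ g * P := rfl

theorem cjr_inj {ρ : G →* M2 D} (hρ : Function.Injective ρ) (P Q : M2 D) (h1 : P * Q = 1)
    (h2 : Q * P = 1) : Function.Injective (cjr ρ P Q h1 h2) := fun _ _ e => hρ (cj_inj h1 e)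

variable [CharZero D]

theorem two_cancel {x : M2 D} (h : x + x = 0) : x = 0 := by
  ext i j
  have := congrFun (congrFun h i) j
  rw [Matrix.add_apply, ← two_mul, Matrix.zero_apply] at this
  exact (mul_eq_zero.1 this).resolve_left two_ne_zero

theorem neg_one_ne : (-1 : M2 D) ≠ 1 := fun e =>
  one_ne_zero (two_cancel (x := (1 : M2 D)) (by nth_rw 1 [← e]; exact neg_add_cancel 1))

/-- the idempotent of an involution -/
theorem half {t : M2 D} (h : t * t = 1) : ∃ e : M2 D, e * e = e ∧ e + e = 1 + t ∧ (e = 0 → t = -1) ∧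
    (e = 1 → t = 1) ∧ ∀ x, x * t = t * x → x * e = e * x := by
  have h2 : (1 / 2 : ℚ) • (1 + t) + (1 / 2 : ℚ) • (1 + t) = 1 + t := by rw [← add_smul]; norm_num
  refine ⟨(1 / 2 : ℚ) • (1 + t), ?_, h2, fun e => ?_, fun e => ?_, fun x hx => ?_⟩
  · rw [smul_mul_smul_comm, show (1 + t) * (1 + t) = (2 : ℚ) • (1 + t) by
      rw [two_smul, add_mul, mul_add, mul_add, h]; noncomm_ring, smul_smul]
    norm_num
  · rw [e, add_zero] at h2
    exact eq_neg_of_add_eq_zero_right h2.symm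
  · rw [e] at h2
    exact (add_left_cancel h2).symm
  · rw [mul_smul_comm, smul_mul_assoc, mul_add, add_mul, hx, mul_one, one_mul]

theorem invol_conj {t : M2 D} (h : t * t = 1) (h1 : t ≠ 1) (h2 : t ≠ -1) :
    ∃ P Q : M2 D, P * Q = 1 ∧ Q * P = 1 ∧ Q * t * P = !![1, 0; 0, -1] := by
  obtain ⟨e, e1, e2, e3, e4, -⟩ := half h
  obtain ⟨P, Q, q1, q2, he⟩ := idem_conj e1 (fun c => h2 (e3 c)) fun c => h1 (e4 c)
  refine ⟨P, Q, q1, q2, ?_⟩
  rw [show t = e + e - 1 by rw [e2, add_sub_cancel_left], mul_sub, mul_add, sub_mul, add_mul, he, mul_one, q2]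
  exact m2_ext (by simp) (by simp) (by simp) (by simp)

theorem eq_zero_of_neg {x : D} (h : -x = x) : x = 0 :=
  (mul_eq_zero.1 (show 2 * x = 0 by rw [two_mul]; nth_rw 1 [← h]; exact neg_add_cancel x)).resolve_left
    two_ne_zero

theorem diag_of_comm {x : M2 D} (h : x * !![1, 0; 0, -1] = !![1, 0; 0, -1] * x) :
    x = !![x 0 0, 0; 0, x 1 1] :=
  m2_ext rfl (eq_zero_of_neg (by simpa [m2_mul] using congrFun (congrFun h 0) 1))
    (eq_zero_of_neg (by simpa [m2_mul] using (congrFun (congrFun h 1) 0).symm)) rfl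

theorem anti_of_anti {x : M2 D} (h : x * !![1, 0; 0, -1] = -(!![1, 0; 0, -1] * x)) :
    x = !![0, x 0 1; x 1 0, 0] :=
  m2_ext (eq_zero_of_neg (by
      have := congrFun (congrFun h 0) 0
      rw [Matrix.neg_apply, m2_mul, m2_mul] at this
      simpa using this.symm)) rfl rfl
    (eq_zero_of_neg (by
      have := congrFun (congrFun h 1) 1
      rw [Matrix.neg_apply, m2_mul, m2_mul] at this
      simpa using this))

theorem comm_invol {s t : M2 D} (hs : s * s = 1) (s1 : s ≠ 1) (s2 : s ≠ -1) (ht : t * t = 1) (t1 : t ≠ 1)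
    (t2 : t ≠ -1) (h : s * t = t * s) : t = s ∨ t = -s := by
  obtain ⟨P, Q, q1, q2, he⟩ := invol_conj hs s1 s2
  have h1 := diag_of_comm (x := Q * t * P) (by rw [← he, ← cj_mul q1, ← cj_mul q1, h])
  have h2 := cj_mul q1 t t
  rw [ht, mul_one, q2, h1] at h2
  have a0 := dx_invol (u := (Q * t * P) 0 0) (by simpa [m2_mul] using (congrFun (congrFun h2 0) 0).symm)
  have a1 := dx_invol (u := (Q * t * P) 1 1) (by simpa [m2_mul] using (congrFun (congrFun h2 1) 1).symm)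
  rcases a0 with a0 | a0 <;> rcases a1 with a1 | a1 <;> rw [a0, a1] at h1
  · exact (t1 (cj_inj q1 (by rw [h1, mul_one, q2, Matrix.one_fin_two]))).elim
  · exact Or.inl (cj_inj q1 (by rw [h1, he]))
  · refine Or.inr (cj_inj q1 ?_)
    rw [h1, mul_neg, neg_mul, he]
    exact m2_ext (by simp) (by simp) (by simp) (by simp)
  · refine (t2 (cj_inj q1 ?_)).elim
    rw [h1, mul_neg, neg_mul, mul_one, q2]
    exact m2_ext (by simp) (by simp) (by simp) (by simp)

variable {ρ : G →* M2 D} {z : G}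

theorem nci_iff (hρ : Function.Injective ρ) (hz : ρ z = -1) {s : G} :
    Nci z s ↔ s * s = 1 ∧ ρ s ≠ 1 ∧ ρ s ≠ -1 := by
  rw [Nci, ← hz, ← map_one ρ, hρ.ne_iff, hρ.ne_iff]

theorem ax_of (hρ : Function.Injective ρ) (hz : ρ z = -1) : Ax z where
  zz := hρ (by simp [hz])
  ne := fun e => neg_one_ne (by rw [← hz, e, map_one])
  zc := fun g => hρ (by simp [hz])
  f1 := fun s t hs ht h => by
    rw [nci_iff hρ hz] at hs ht
    refine (comm_invol (by rw [← map_mul, hs.1, map_one]) hs.2.1 hs.2.2 (by rw [← map_mul, ht.1, map_one])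
      ht.2.1 ht.2.2 (by rw [← map_mul, h, map_mul])).imp (fun e => hρ e) fun e => hρ ?_
    rw [e, map_mul, hz, neg_one_mul]

theorem four_neg (hρ : Function.Injective ρ) {a b : G} (ha : a * a = 1) (hb : b * b = 1) (a1 : a ≠ 1)
    (b1 : b ≠ 1) (hab : a ≠ b) (h : a * b = b * a) : ρ a = -1 ∨ ρ b = -1 ∨ ρ (a * b) = -1 := by
  by_cases c1 : ρ a = -1
  · exact Or.inl c1
  by_cases c2 : ρ b = -1
  · exact Or.inr (Or.inl c2)
  have h1 : ρ a * ρ a = 1 := by rw [← map_mul, ha, map_one]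
  rcases comm_invol h1 (fun e => a1 (hρ (e.trans (map_one ρ).symm))) c1 (by rw [← map_mul, hb, map_one])
    (fun e => b1 (hρ (e.trans (map_one ρ).symm))) c2 (by rw [← map_mul, h, map_mul]) with e | e
  · exact (hab (hρ e).symm).elim
  · exact Or.inr (Or.inr (by rw [map_mul, e, mul_neg, h1]))

theorem Irr.cen (hI : Irr ρ) {s : G} (hs : s * s = 1) (hc : ∀ g, g * s = s * g) :
    ρ s = 1 ∨ ρ s = -1 := by
  obtain ⟨e, e1, -, e3, e4, e5⟩ := half (t := ρ s) (by rw [← map_mul, hs, map_one])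
  by_contra c
  push Not at c
  obtain ⟨g, hg⟩ := hI e e1 (fun d => c.2 (e3 d)) fun d => c.1 (e4 d)
  exact hg (by rw [← e5 _ (by rw [← map_mul, hc, map_mul]), mul_assoc, mul_sub, mul_one, e1, sub_self, mul_zero])

theorem unip_pow (c : D) (n : ℕ) : (!![1, 0; c, 1] : M2 D) ^ n = !![1, 0; n * c, 1] := by
  induction n with
  | zero => simp [Matrix.one_fin_two]
  | succ n ih =>
    rw [pow_succ, ih]
    exact m2_ext (by simp) (by simp) (by simp [add_mul]) (by simp)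

theorem proj [Finite G] (hρ : Function.Injective ρ) {e : M2 D} (h : e * e = e) (h0 : e ≠ 0) (h1 : e ≠ 1)
    (X : Subgroup G) (hX : ∀ x ∈ X, e * ρ x * (1 - e) = 0) :
    ∃ p q : X →* Dˣ, (∀ x, p x = 1 → q x = 1 → x = 1) ∧
      ∀ x : X, ρ x = -1 → p x = -1 ∧ q x = -1 := by
  obtain ⟨P, Q, q1, q2, he⟩ := idem_conj h h0 h1
  let σ := cjr ρ P Q q1 q2
  have h2 : ∀ x : X, σ x 0 1 = 0 := fun x => by
    have := congrArg (fun y => Q * y * P) (hX x x.2)
    simp only [mul_zero, zero_mul] at this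
    rw [cj_mul q1, cj_mul q1, he, cj_compl q2 he] at this
    rw [corner] at this
    exact congrFun (congrFun this 0) 1
  let p : X →* D := ⟨⟨fun x => σ x 0 0, by simp⟩, fun a b => by simp [m2_mul, h2]⟩
  let q : X →* D := ⟨⟨fun x => σ x 1 1, by simp⟩, fun a b => by simp [m2_mul, h2]⟩
  refine ⟨p.toHomUnits, q.toHomUnits, fun x a b => ?_, fun x hx => ?_⟩
  · have h3 : σ x = !![1, 0; σ x 1 0, 1] :=
      m2_ext (congrArg Units.val a) (h2 x) rfl (congrArg Units.val b)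
    have h4 := unip_pow (σ x 1 0) (orderOf (x : G))
    rw [← h3, ← map_pow, pow_orderOf_eq_one, map_one] at h4
    have h5 : (orderOf (x : G) : D) * σ x 1 0 = 0 := by simpa using (congrFun (congrFun h4 1) 0).symm
    rw [(mul_eq_zero.1 h5).resolve_left (Nat.cast_ne_zero.2 (orderOf_pos _).ne'), ← Matrix.one_fin_two,
      ← map_one σ] at h3
    exact Subtype.ext (cjr_inj hρ P Q q1 q2 h3)
  · have h3 : σ x = -1 := by rw [cjr_apply, hx, mul_neg, neg_mul, mul_one, q2]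
    exact ⟨Units.ext (show σ x 0 0 = _ by simp [h3]), Units.ext (show σ x 1 1 = _ by simp [h3])⟩

theorem proj_cent [Finite G] (hρ : Function.Injective ρ) (hz : ρ z = -1) {s : G} (hs : Nci z s)
    (X : Subgroup G) (hX : ∀ x ∈ X, x * s = s * x) :
    ∃ p q : X →* Dˣ, (∀ x, p x = 1 → q x = 1 → x = 1) ∧
      ∀ x : X, ρ x = -1 → p x = -1 ∧ q x = -1 := by
  rw [nci_iff hρ hz] at hs
  obtain ⟨e, e1, -, e3, e4, e5⟩ := half (t := ρ s) (by rw [← map_mul, hs.1, map_one])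
  exact proj hρ e1 (fun d => hs.2.2 (e3 d)) (fun d => hs.2.1 (e4 d)) X fun x hx => by
    rw [← e5 _ (by rw [← map_mul, hX x hx, map_mul]), mul_assoc, mul_sub, mul_one, e1, sub_self, mul_zero]

theorem dx_fpf (X : Subgroup Dˣ) [Finite X] : H82.IntFPF X := by
  let ρ : X →* D := (Units.coeHom D).comp X.subtype
  have hρ : H82.NZ ρ := by
    intro g hg
    have h3 := mul_geom_sum (ρ g) (orderOf g)
    rw [← map_pow, pow_orderOf_eq_one, map_one, sub_self] at h3
    exact (mul_eq_zero.1 h3).resolve_left (sub_ne_zero.2 fun e => hg (Subtype.ext (Units.ext e)))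
  exact hρ.intFPF

theorem dx_two (X : Subgroup Dˣ) [Finite X] (hX : IsPGroup 2 X) :
    IsCyclic X ∨ ∃ k, Nonempty (X ≃* QG k) := (dx_fpf X).two_cases hX

theorem dx_odd (X : Subgroup Dˣ) [Finite X] {p : ℕ} [Fact p.Prime] (h2 : p ≠ 2) (hX : IsPGroup p X) :
    IsCyclic X :=
  topEquiv.isCyclic.1 ((dx_fpf X).isCyclic_of_odd h2 (hX.to_subgroup ⊤))

end H99.GD
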