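import Cfsg.Agent.Lib.GD.Bas
import Cfsg.Agent.Lib.TwoGrp.RankOne
import Cfsg.Agent.Lib.FrobC.Perfect
import Cfsg.Agent.Lib.FGS.TwoOrbits
import Cfsg.Agent.S0519
import Cfsg.Agent.S3116
import Cfsg.Agent.S3742

/-! 2-groups whose abelian normal subgroups are cyclic. -/

set_option autoImplicit false

namespace H99.GD

open H13.PS QuaternionGroup Subgroup
open scoped MatrixGroups

variable {P : Type*} [Group P] [Finite P]

/-- a non-cyclic abelian 2-subgroup contains an involution different from `z` -/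
theorem exists_nci {z : P} (A : Subgroup P) (hA : IsPGroup 2 A) (hc : IsMulCommutative A)
    (hn : ¬ IsCyclic A) : ∃ s ∈ A, Nci z s := by
  by_contra h
  push Not at h
  letI : CommGroup A := { (inferInstance : Group A) with mul_comm := hc.1.1 }
  have k : ∀ a : A, a * a = 1 → a = 1 ∨ (a : P) = z := fun a ha => by
    by_contra h'
    push Not at h'
    exact h a a.2 ⟨congrArg Subtype.val ha, fun e => h'.1 (Subtype.ext e), h'.2⟩
  by_cases hz : z ∈ A
  · exact hn (H78.TwoOrbits.isCyclic_of_unique_invol hA ⟨z, hz⟩ fun a ha =>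
      (k a ha).imp_right Subtype.ext)
  · exact hn (H78.TwoOrbits.isCyclic_of_unique_invol hA 1 fun a ha =>
      (k a ha).imp_right fun e => absurd (e ▸ a.2) hz)

namespace MC

theorem idx {c : P} (h : Nat.card P = 2 * orderOf c) : (zpowers c).index = 2 := by
  have := (zpowers c).card_mul_index
  rw [Nat.card_zpowers, h, mul_comm 2] at this
  exact Nat.eq_of_mul_eq_mul_left (orderOf_pos c) this

theorem cases (hP : IsPGroup 2 P)
    (hn : ∀ A : Subgroup P, A.Normal → IsMulCommutative A → IsCyclic A) :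
    H13.TG.UI P ∨ (∃ n : ℕ, 8 ≤ n ∧ Nonempty (P ≃* DihedralGroup n)) ∨ Cfsg.IsQuasiDihedral P := by
  by_cases hm : ∃ B : Subgroup P, IsMulCommutative B ∧ ¬ IsCyclic B
  · rcases (Cfsg.Agent.S0519.result 2 hP hn hm).2 with ⟨n, ⟨e⟩⟩ | h | h
    · rcases n with _ | n
      · haveI : Finite (QuaternionGroup 0) := Finite.of_equiv _ e.toEquiv
        haveI : Finite (ZMod (2 * 0)) := Finite.of_injective (QuaternionGroup.a (n := 0))
          fun _ _ h => QuaternionGroup.a.inj h
        haveI : Finite ℤ := ‹Finite (ZMod (2 * 0))›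
        exact (not_finite ℤ).elim
      · exact Or.inl ((H13.TG.ui_quat (n + 1)).of_injective e.toMonoidHom e.injective)
    · exact Or.inr (Or.inl h)
    · exact Or.inr (Or.inr h)
  push Not at hm
  refine Or.inl fun x y hx hy x1 y1 => ?_
  haveI : Nontrivial P := ⟨x, 1, x1⟩
  haveI := hP.center_nontrivial
  obtain ⟨z, hz⟩ := exists_prime_orderOf_dvd_card' (G := center P) 2
    (((hP.to_subgroup _).card_eq_or_dvd).resolve_left Finite.one_lt_card.ne')
  have z2 : (z : P) * z = 1 := by
    rw [← pow_two, ← Subgroup.coe_pow, ← hz, pow_orderOf_eq_one, coe_one]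
  have z1 : (z : P) ≠ 1 := fun e => by
    rw [Subtype.ext (a2 := (1 : center P)) e, orderOf_one] at hz
    omega
  have k : ∀ w : P, w * w = 1 → w ≠ 1 → w = z := fun w hw w1 => by
    haveI := hm (closure {w, (z : P)}) (isMulCommutative_closure (by
      rintro a (rfl | rfl) b (rfl | rfl)
      exacts [rfl, mem_center_iff.1 z.2 _, (mem_center_iff.1 z.2 _).symm, rfl]))
    exact congrArg Subtype.val (H13.TG.ui_of_isCyclic (G := closure {w, (z : P)})
      ⟨w, subset_closure (by simp)⟩ ⟨z, subset_closure (by simp)⟩ (Subtype.ext hw) (Subtype.ext z2)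
      (fun e => w1 (congrArg Subtype.val e)) fun e => z1 (congrArg Subtype.val e))
  rw [k x hx x1, k y hy y1]

end MC

theorem mc_cyc (hP : IsPGroup 2 P) (hn : ∀ A : Subgroup P, A.Normal → IsMulCommutative A → IsCyclic A) :
    ∃ c : P, (zpowers c).index = 1 ∨ (zpowers c).index = 2 := by
  rcases MC.cases hP hn with h | ⟨n, hn, ⟨e⟩⟩ | ⟨n, -, hc, x, -, hx, -⟩
  · rcases h.cases hP with h | ⟨n, ⟨e⟩⟩
    · obtain ⟨c, hc⟩ := isCyclic_iff_exists_zpowers_eq_top.1 h
      exact ⟨c, Or.inl (by rw [hc, index_top])⟩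
    · refine ⟨e.symm (QuaternionGroup.a 1), Or.inr (MC.idx ?_)⟩
      rw [MulEquiv.orderOf_eq, QuaternionGroup.orderOf_a_one, Nat.card_congr e.toEquiv,
        H13.TG.card_quat]
      ring
  · haveI : NeZero n := ⟨by omega⟩
    refine ⟨e.symm (DihedralGroup.r 1), Or.inr (MC.idx ?_)⟩
    rw [MulEquiv.orderOf_eq, DihedralGroup.orderOf_r_one, Nat.card_congr e.toEquiv,
      DihedralGroup.nat_card]
  · exact ⟨x, Or.inr (MC.idx (by rw [hc, hx, pow_succ']))⟩

theorem mc_aut (hP : IsPGroup 2 P) (hn : ∀ A : Subgroup P, A.Normal → IsMulCommutative A → IsCyclic A) :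
    Group.IsSolvable (MulAut P) := by
  have k : IsPGroup 2 (MulAut P) → Group.IsSolvable (MulAut P) := fun h =>
    haveI := h.isNilpotent
    inferInstance
  rcases MC.cases hP hn with h | ⟨n, hn, h⟩ | h
  · rcases h.aut_cases hP with h | ⟨⟨e⟩⟩
    · exact k h
    · obtain ⟨f⟩ := Cfsg.Agent.S3742.result
      haveI := H82.isSolvable_perm (α := Fin 4) (by simp)
      exact solvable_of_solvable_injective (f := ((MulAut.congr e).trans f).toMonoidHom)
        (MulEquiv.injective _)
  · exact k (Cfsg.Agent.S3116.result hP (Or.inl ⟨n, by omega, h⟩))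
  · exact k (Cfsg.Agent.S3116.result hP (Or.inr h))

end H99.GD
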