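import Cfsg.Agent.Lib.GD.MC
import Cfsg.Agent.S0088

/-! # Non-central involutions: a normal four-group and fusion into it -/

set_option autoImplicit false

namespace H99.GD

open H13.PS QuaternionGroup Subgroup
open scoped MatrixGroups

namespace NC

theorem sgn {P : Type*} [Group P] (C : P → Prop) (h : ∀ x y, C (x * y) ↔ (C x ↔ C y)) :
    ∃ φ : P →* ℤˣ, ∀ x, φ x = 1 ↔ C x := by
  classical
  have hne : (-1 : ℤˣ) ≠ 1 := by decide
  refine ⟨MonoidHom.mk' (fun x => if C x then 1 else -1) ?_, fun x => ?_⟩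
  · intro x y
    have := h x y
    by_cases hx : C x <;> by_cases hy : C y <;> simp_all
  · by_cases hx : C x <;> simp [hx, hne]

theorem cyc_inv {P : Type*} [Group P] [Finite P] [IsCyclic P] {u v : P} (hu : u * u = 1)
    (hv : v * v = 1) (u1 : u ≠ 1) (v1 : v ≠ 1) : u = v := by
  classical
  have := Fintype.ofFinite P
  by_contra hne
  have h1 := IsCyclic.card_pow_eq_one_le (α := P) (n := 2) (by norm_num)
  have h2 : ({1, u, v} : Finset P) ⊆ Finset.univ.filter fun a : P => a ^ 2 = 1 := by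
    intro a ha
    simp only [Finset.mem_insert, Finset.mem_singleton] at ha
    rcases ha with rfl | rfl | rfl <;> simp [pow_two, hu, hv]
  have h3 := Finset.card_le_card h2
  rw [Finset.card_eq_three.mpr ⟨1, u, v, u1.symm, v1.symm, hne, rfl⟩] at h3
  omega

variable {G : Type*} [Group G] [Finite G] {z : G}

omit [Finite G] in
theorem two_zp {t : G} (ht : t * t = 1) : IsPGroup 2 (zpowers t) := by
  rintro ⟨_, n, rfl⟩
  refine ⟨1, Subtype.ext ?_⟩
  have : t ^ (2 : ℤ) = 1 := by rw [zpow_two, ht]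
  show (t ^ n) ^ (2 ^ 1) = 1
  rw [pow_one, ← zpow_natCast, ← zpow_mul, mul_comm, zpow_mul]
  simp only [Nat.cast_ofNat, this, one_zpow]

/-- Thompson transfer for a homomorphism to an abelian group -/
theorem thx0 (hp : commutator G = ⊤) (T : Sylow 2 G) {A : Type*} [CommGroup A]
    (φ : (T : Subgroup G) →* A) (ε : A)
    (hε : ∀ s : (T : Subgroup G), s ^ 2 = 1 → φ s = 1 ∨ φ s = ε) {t : G} (ht : t * t = 1) :
    ∃ (g : G) (h : g * t * g⁻¹ ∈ (T : Subgroup G)), φ ⟨_, h⟩ = 1 := by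
  obtain ⟨g, h, h1, -⟩ := H58.exists_extremal_conj (idx2 hp) T φ ε hε (y := t) (by rw [pow_two, ht])
    (zpowers t) (two_zp ht) (mem_zpowers t)
    (zpowers_le.mpr (mem_centralizer_singleton_iff.mpr rfl))
  refine ⟨g⁻¹, by rw [inv_inv]; exact h, ?_⟩
  simpa only [inv_inv] using h1

theorem thx1 (hp : commutator G = ⊤) (T : Sylow 2 G) (C : ↥(T : Subgroup G) → Prop)
    (h : ∀ x y, C (x * y) ↔ (C x ↔ C y)) {t : G} (ht : t * t = 1) :
    ∃ (g : G) (h : g * t * g⁻¹ ∈ (T : Subgroup G)), C ⟨_, h⟩ := by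
  obtain ⟨φ, hφ⟩ := sgn C h
  obtain ⟨g, h1, h2⟩ := thx0 hp T φ (-1) (fun s _ => Int.units_eq_one_or _) ht
  exact ⟨g, h1, (hφ _).mp h2⟩

omit [Finite G] in
theorem anti_ne (hz : Ax z) {s g : G} (h : g * s = z * s * g) : g * s ≠ s * g := by
  intro h'
  rw [h', mul_assoc] at h
  exact hz.ne (by simpa using h.symm)

omit [Finite G] in
theorem cen_mul (hz : Ax z) {s x y : G} (hx : x * s = s * x ∨ x * s = z * s * x)
    (hy : y * s = s * y ∨ y * s = z * s * y) :
    x * y * s = s * (x * y) ↔ (x * s = s * x ↔ y * s = s * y) := by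
  rcases hx with hx | hx <;> rcases hy with hy | hy
  · simp only [hx, hy, iff_true]
    rw [mul_assoc, hy, ← mul_assoc, hx, mul_assoc]
  · have h1 : x * y * s = z * s * (x * y) := by
      calc x * y * s = x * (z * s * y) := by rw [mul_assoc, hy]
        _ = (x * z) * s * y := by simp only [mul_assoc]
        _ = z * (x * s) * y := by rw [hz.zc x]; simp only [mul_assoc]
        _ = _ := by rw [hx]; simp only [mul_assoc]
    simp only [anti_ne hz h1, anti_ne hz hy, hx, true_iff, iff_self]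
  · have h1 : x * y * s = z * s * (x * y) := by
      rw [mul_assoc, hy, ← mul_assoc, hx]; simp only [mul_assoc]
    simp only [anti_ne hz h1, anti_ne hz hx, hy, iff_true, iff_self]
  · have h1 : x * y * s = s * (x * y) := by
      calc x * y * s = x * (z * s * y) := by rw [mul_assoc, hy]
        _ = (x * z) * s * y := by simp only [mul_assoc]
        _ = z * (x * s) * y := by rw [hz.zc x]; simp only [mul_assoc]
        _ = (z * z) * (s * (x * y)) := by rw [hx]; simp only [mul_assoc]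
        _ = _ := by rw [hz.zz, one_mul]
    simp only [h1, anti_ne hz hx, anti_ne hz hy, iff_self]

end NC

variable {G : Type*} [Group G] [Finite G] {z : G}

theorem nf4 (hp : commutator G = ⊤) (hz : Ax z) (T : Sylow 2 G) (h : ∃ x, Nci z x) :
    ∃ s ∈ T, Nci z s ∧ ∀ g ∈ T, g * s = s * g ∨ g * s = z * s * g := by
  obtain ⟨x, hx⟩ := h
  by_contra hcon
  have hzT : z ∈ (T : Subgroup G) := hz.mem T
  have hn : ∀ A : Subgroup (T : Subgroup G), A.Normal → IsMulCommutative A → IsCyclic A := by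
    intro A hA hc
    by_contra hcy
    obtain ⟨s, hsA, hs⟩ := exists_nci (z := (⟨z, hzT⟩ : (T : Subgroup G))) A
      (T.isPGroup'.to_subgroup A) hc hcy
    have hs' : Nci z (s : G) :=
      ⟨congrArg Subtype.val hs.1, fun h => hs.2.1 (Subtype.ext h), fun h => hs.2.2 (Subtype.ext h)⟩
    refine hcon ⟨s, s.2, hs', fun g hg => ?_⟩
    have h1 : (⟨g, hg⟩ : (T : Subgroup G)) * s * (⟨g, hg⟩ : (T : Subgroup G))⁻¹ ∈ A :=
      hA.conj_mem s hsA _
    have h2 := congrArg (fun a : A => ((a : (T : Subgroup G)) : G))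
      (hc.is_comm.comm (⟨s, hsA⟩ : A) ⟨_, h1⟩)
    have h3 : (s : G) * (g * s * g⁻¹) = (g * s * g⁻¹) * s := h2
    rcases hz.f1 _ _ hs' (hs'.cj hz g) h3 with h4 | h4
    · exact Or.inl (by rw [← mul_inv_eq_iff_eq_mul, h4])
    · exact Or.inr (by rw [← mul_inv_eq_iff_eq_mul, h4])
  obtain ⟨c, hc⟩ := mc_cyc T.isPGroup' hn
  have hN : (zpowers c).Normal := by
    rcases hc with hc | hc
    · rw [index_eq_one.mp hc]; infer_instance
    · exact normal_of_index_eq_two hc
  have key : ∃ (g : G) (h : g * x * g⁻¹ ∈ (T : Subgroup G)),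
      (⟨_, h⟩ : (T : Subgroup G)) ∈ zpowers c := by
    rcases hc with hc | hc
    · obtain ⟨g, hg⟩ := into_sylow T (NC.two_zp hx.1)
      exact ⟨g, hg x (mem_zpowers x), by rw [index_eq_one.mp hc]; exact mem_top _⟩
    · exact NC.thx1 hp T (fun y => y ∈ zpowers c) (fun _ _ => mul_mem_iff_of_index_two hc) hx.1
  obtain ⟨g, h, hC⟩ := key
  have hs := hx.cj hz g
  refine hcon ⟨_, h, hs, fun w hw => Or.inl ?_⟩
  have hs2 := hs.cj hz w
  have h1 := hN.conj_mem _ hC ⟨w, hw⟩
  have h2 : (⟨_, h1⟩ : zpowers c) = ⟨_, hC⟩ :=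
    NC.cyc_inv (Subtype.ext (Subtype.ext hs2.1)) (Subtype.ext (Subtype.ext hs.1))
      (fun e => hs2.2.1 (congrArg (fun a : zpowers c => ((a : (T : Subgroup G)) : G)) e))
      (fun e => hs.2.1 (congrArg (fun a : zpowers c => ((a : (T : Subgroup G)) : G)) e))
  have h3 : w * (g * x * g⁻¹) * w⁻¹ = g * x * g⁻¹ :=
    congrArg (fun a : zpowers c => ((a : (T : Subgroup G)) : G)) h2
  rw [← mul_inv_eq_iff_eq_mul, h3]

theorem c0 (hp : commutator G = ⊤) (hz : Ax z) (T : Sylow 2 G) {s : G} (hT : s ∈ T) (hs : Nci z s)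
    (hn : ∀ g ∈ T, g * s = s * g ∨ g * s = z * s * g)
    (ha : ∀ x ∈ T, ∀ y ∈ T, x * s = s * x → y * s = s * y → x * y = y * x) : False := by
  classical
  have hzT : z ∈ (T : Subgroup G) := hz.mem T
  by_cases hall : ∀ g ∈ T, g * s = s * g
  · have hc : IsMulCommutative (T : Subgroup G) :=
      ⟨⟨fun a b => Subtype.ext (ha a a.2 b b.2 (hall a a.2) (hall b b.2))⟩⟩
    have h1 := Cfsg.Agent.S0088.result (T : Subgroup G) hc T.card_coprime_index
    have h2 : z ∈ (T : Subgroup G) ⊓ commutator G ⊓ center G :=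
      ⟨⟨hzT, by rw [hp]; exact mem_top _⟩, mem_center_iff.mpr hz.zc⟩
    rw [h1] at h2
    exact hz.ne (mem_bot.mp h2)
  push Not at hall
  obtain ⟨w, hw, hw0⟩ := hall
  have hws : w * s = z * s * w := (hn w hw).resolve_left hw0
  have hwT : w ∈ (T : Subgroup G) := hw
  let T0 : Subgroup G := (T : Subgroup G) ⊓ centralizer {s}
  have mT0 : ∀ {x : G}, x ∈ T0 ↔ x ∈ (T : Subgroup G) ∧ x * s = s * x := by
    intro x
    simp only [T0, mem_inf, mem_centralizer_singleton_iff]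
  have cm : ∀ {x y : G}, x ∈ T0 → y ∈ T0 → x * y = y * x := fun hx hy =>
    ha _ (mT0.mp hx).1 _ (mT0.mp hy).1 (mT0.mp hx).2 (mT0.mp hy).2
  have mul_iff : ∀ {x y : G}, x ∈ (T : Subgroup G) → y ∈ (T : Subgroup G) →
      (x * y ∈ T0 ↔ (x ∈ T0 ↔ y ∈ T0)) := by
    intro x y hx hy
    simp only [mT0, hx, hy, mul_mem hx hy, true_and]
    exact NC.cen_mul hz (hn x hx) (hn y hy)
  have hw1 : w ∉ T0 := fun h => hw0 (mT0.mp h).2
  have hz0 : z ∈ T0 := mT0.mpr ⟨hzT, (hz.zc s).symm⟩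
  -- conjugation by outer elements
  have cj0 : ∀ {x y : G}, x ∈ T0 → y ∈ (T : Subgroup G) → y * x * y⁻¹ ∈ T0 := by
    intro x y hx hy
    rw [mul_iff (mul_mem hy (mT0.mp hx).1) (inv_mem hy), mul_iff hy (mT0.mp hx).1, inv_mem_iff]
    simp only [hx, iff_true]
  have cjw : ∀ {x y : G}, x ∈ T0 → y ∈ (T : Subgroup G) → y ∉ T0 → y * x * y⁻¹ = w * x * w⁻¹ := by
    intro x y hx hy hy0
    have h1 : w⁻¹ * y ∈ T0 := by
      rw [mul_iff (inv_mem hwT) hy, inv_mem_iff]
      simp only [hw1, hy0]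
    have h2 := cm h1 hx
    calc y * x * y⁻¹ = w * (w⁻¹ * y * x) * y⁻¹ := by group
      _ = w * (x * (w⁻¹ * y)) * y⁻¹ := by rw [h2]
      _ = _ := by group
  have sq0 : ∀ {x : G}, x ∈ (T : Subgroup G) → x * x ∈ T0 := fun hx => (mul_iff hx hx).mpr Iff.rfl
  let V : G → G := fun x => if x ∈ T0 then x * (w * x * w⁻¹) else x * x * z
  have V0 : ∀ {x : G}, x ∈ T0 → V x = x * (w * x * w⁻¹) := fun hx => if_pos hx
  have V1 : ∀ {x : G}, x ∉ T0 → V x = x * x * z := fun hx => if_neg hx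
  have Vm : ∀ {x : G}, x ∈ (T : Subgroup G) → V x ∈ T0 := by
    intro x hx
    by_cases h : x ∈ T0
    · rw [V0 h]; exact mul_mem h (cj0 h hwT)
    · rw [V1 h]; exact mul_mem (sq0 hx) hz0
  have Vmul : ∀ {x y : G}, x ∈ (T : Subgroup G) → y ∈ (T : Subgroup G) → V (x * y) = V x * V y := by
    intro x y hx hy
    have hxy := mul_iff hx hy
    by_cases h1 : x ∈ T0 <;> by_cases h2 : y ∈ T0
    · rw [V0 (mul_mem h1 h2), V0 h1, V0 h2]
      have h3 := cm h2 (cj0 h1 hwT)
      calc x * y * (w * (x * y) * w⁻¹) = x * (y * (w * x * w⁻¹)) * (w * y * w⁻¹) := by group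
        _ = x * ((w * x * w⁻¹) * y) * (w * y * w⁻¹) := by rw [h3]
        _ = _ := by group
    · rw [V1 (by rw [hxy]; simp only [h1, h2, true_iff, not_false_eq_true]), V0 h1, V1 h2,
        ← cjw h1 hy h2]
      group
    · rw [V1 (by rw [hxy]; simp only [h1, h2, iff_true, not_false_eq_true]), V1 h1, V0 h2,
        ← cjw h2 hx h1]
      have h3 := cm (cj0 h2 hx) (mul_mem (mul_mem (sq0 hx) hz0) h2)
      calc x * y * (x * y) * z = (x * y * x⁻¹) * (x * x * (y * z)) := by group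
        _ = (x * y * x⁻¹) * (x * x * z * y) := by rw [hz.zc y]; simp only [mul_assoc]
        _ = x * x * z * y * (x * y * x⁻¹) := h3
        _ = _ := by simp only [mul_assoc]
    · have h0 : x * y ∈ T0 := by rw [hxy]; simp only [h1, h2]
      have h1' : x⁻¹ ∉ T0 := by rwa [inv_mem_iff]
      rw [V0 h0, V1 h1, V1 h2, ← cjw h0 (inv_mem hx) h1']
      have h3 : x * (y * y) * x⁻¹ = y * y := by
        rw [cjw (sq0 hy) hx h1, ← cjw (sq0 hy) hy h2]; group
      have h4 := cm (sq0 hy) (sq0 hx)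
      calc x * y * (x⁻¹ * (x * y) * x⁻¹⁻¹) = (x * (y * y) * x⁻¹) * (x * x) := by group
        _ = x * x * (y * y) * (z * z) := by rw [h3, h4, hz.zz, mul_one]
        _ = x * x * ((y * y) * z) * z := by simp only [mul_assoc]
        _ = x * x * (z * (y * y)) * z := by rw [hz.zc (y * y)]
        _ = _ := by simp only [mul_assoc]
  let _ : CommGroup T0 := { (inferInstance : Group T0) with
    mul_comm := fun a b => Subtype.ext (cm a.2 b.2) }
  let δ : (T : Subgroup G) →* T0 := MonoidHom.mk' (fun x => ⟨V x, Vm x.2⟩)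
    (fun x y => Subtype.ext (Vmul x.2 y.2))
  have hwsw : w * s * w⁻¹ = z * s := by rw [hws]; group
  have Vn : ∀ {x : G}, Nci z x → V x = z := by
    intro x hx
    by_cases h : x ∈ T0
    · rw [V0 h]
      rcases hz.f1 s x hs hx (mT0.mp h).2.symm with rfl | rfl
      · rw [hwsw, ← mul_assoc, hz.zc x, mul_assoc, hs.1, mul_one]
      · calc z * s * (w * (z * s) * w⁻¹) = z * s * ((w * z) * s * w⁻¹) := by simp only [mul_assoc]
          _ = z * s * (z * (w * s * w⁻¹)) := by rw [hz.zc w]; simp only [mul_assoc]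
          _ = z * s * ((z * z) * s) := by rw [hwsw]; simp only [mul_assoc]
          _ = z * (s * s) := by rw [hz.zz, one_mul, mul_assoc]
          _ = z := by rw [hs.1, mul_one]
    · rw [V1 h, hx.1, one_mul]
  have hε : ∀ x : (T : Subgroup G), x ^ 2 = 1 → δ x = 1 ∨ δ x = ⟨z, hz0⟩ := by
    intro x hx
    have hx2 : (x : G) * x = 1 := by rw [pow_two] at hx; exact congrArg Subtype.val hx
    by_cases h1 : (x : G) = 1
    · left
      rw [show x = 1 from Subtype.ext h1, map_one]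
    by_cases h2 : (x : G) = z
    · left
      apply Subtype.ext
      show V x = 1
      rw [h2, V0 hz0, hz.zc w, mul_inv_cancel_right, hz.zz]
    · right
      exact Subtype.ext (Vn ⟨hx2, h1, h2⟩)
  obtain ⟨g, h, h1⟩ := NC.thx0 hp T δ _ hε hs.1
  have h2 : V (g * s * g⁻¹) = 1 := congrArg Subtype.val h1
  rw [Vn (hs.cj hz g)] at h2
  exact hz.ne h2

theorem conj_s (hp : commutator G = ⊤) (hz : Ax z) (T : Sylow 2 G) {s : G} (hT : s ∈ T) (hs : Nci z s)
    (hn : ∀ g ∈ T, g * s = s * g ∨ g * s = z * s * g) {t : G} (ht : Nci z t) :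
    IsConj s t ∨ IsConj (z * s) t := by
  obtain ⟨g, h, h1⟩ := NC.thx1 hp T (fun y => (y : G) * s = s * y)
    (fun x y => NC.cen_mul hz (hn x x.2) (hn y y.2)) ht.1
  have h2 : IsConj (g * t * g⁻¹) t := (isConj_iff.mpr ⟨g, rfl⟩).symm
  rcases hz.f1 s _ hs (ht.cj hz g) h1.symm with h3 | h3
  · exact Or.inl (h3 ▸ h2)
  · exact Or.inr (h3 ▸ h2)

end H99.GD
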