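import Cfsg.Agent.Lib.GD.Bas
import Cfsg.Agent.Lib.LocStruct.Conj

/-! No Frobenius subgroup with complement of odd prime order. -/

set_option autoImplicit false

namespace H99.GD

open H13.PS QuaternionGroup Subgroup
open scoped MatrixGroups

variable {G H : Type*} [Group G] [Finite G] [Group H] {f : G →* H} {z : G} {χ : G → ℚ}

theorem Chi.nofrob (h : Chi z χ) (E : Subgroup G) (hE : E ≠ ⊥) {b : G} {r : ℕ} (hr : r.Prime) (h2 : r ≠ 2)
    (hb : orderOf b = r) (hn : b ∈ normalizer (E : Set G)) (hf : ∀ x ∈ E, b * x = x * b → x = 1) :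
    False := by
  classical
  haveI := Fintype.ofFinite G
  haveI : Fact r.Prime := ⟨hr⟩
  have bN : zpowers b ≤ normalizer (E : Set G) := zpowers_le.2 hn
  have cB : Nat.card (zpowers b) = r := by rw [Nat.card_zpowers, hb]
  have cm : ∀ y ∈ zpowers b, b * y = y * b := by
    rintro _ ⟨k, rfl⟩
    exact (Commute.refl b).zpow_right k
  let φ : E × zpowers b → (E ⊔ zpowers b : Subgroup G) := fun q =>
    ⟨q.1 * q.2, mul_mem (mem_sup_left q.1.2) (mem_sup_right q.2.2)⟩
  have hφ : Function.Bijective φ := by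
    refine ⟨fun q q' e => ?_, fun g => ?_⟩
    · have e1 : (q.1 * q.2 : G) = q'.1 * q'.2 := congrArg Subtype.val e
      have e2 : ((q'.1 : G)⁻¹ * q.1 : G) = q'.2 * (q.2 : G)⁻¹ := by
        rw [inv_mul_eq_iff_eq_mul, ← mul_assoc, ← e1, mul_inv_cancel_right]
      have e3 := hf _ (mul_mem (inv_mem q'.1.2) q.1.2)
        (e2 ▸ cm _ (mul_mem q'.2.2 (inv_mem q.2.2)))
      exact Prod.ext (Subtype.ext (inv_mul_eq_one.1 e3).symm)
        (Subtype.ext (mul_inv_eq_one.1 (e2.symm.trans e3)).symm)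
    · obtain ⟨x, hx, y, hy, e⟩ := (H69.mem_sup_of_le_normalizer_left bN).1 g.2
      exact ⟨(⟨x, hx⟩, ⟨y, hy⟩), Subtype.ext e.symm⟩
  have k : ∀ y : zpowers b, y ≠ 1 → ∀ x : E, χ (x * y) = χ y := fun y hy x => by
    have hb' : b ∈ zpowers (y : G) := by
      have o : orderOf y = r := ((Nat.dvd_prime hr).1 (cB ▸ orderOf_dvd_natCard y)).resolve_left
        fun e => hy (orderOf_eq_one_iff.1 e)
      exact (eq_of_le_of_card_ge (zpowers_le.2 y.2) (by
        rw [cB, Nat.card_zpowers, Subgroup.orderOf_coe, o])).ge (mem_zpowers b)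
    let ψ : E → E := fun w => ⟨w * (y * (w : G)⁻¹ * (y : G)⁻¹),
      mul_mem w.2 (H69.conj_mem_of_mem_normalizer (bN y.2) (inv_mem w.2))⟩
    have hψ : Function.Injective ψ := fun w w' e => by
      have e1 : (w * (y * (w : G)⁻¹ * (y : G)⁻¹) : G) = w' * (y * (w' : G)⁻¹ * (y : G)⁻¹) :=
        congrArg Subtype.val e
      have c : Commute (y : G) ((w' : G)⁻¹ * w) := by
        change _ = _
        calc (y : G) * ((w' : G)⁻¹ * w) = (w' : G)⁻¹ * (w' * (y * (w' : G)⁻¹ * (y : G)⁻¹)) * y * w := by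
              group
          _ = _ := by rw [← e1]; group
      obtain ⟨j, hj⟩ := mem_zpowers_iff.1 hb'
      exact Subtype.ext (inv_mul_eq_one.1 (hf _ (mul_mem (inv_mem w'.2) w.2)
        (hj ▸ (c.zpow_left j).eq))).symm
    obtain ⟨w, rfl⟩ := Finite.surjective_of_injective hψ x
    rw [← h.cj w y]
    congr 1
    simp only [ψ]
    group
  have s1 : ∑ x : (E ⊔ zpowers b : Subgroup G), χ x =
      ∑ x : E, χ x + Nat.card E * (∑ y : zpowers b, χ y - 2) := by
    rw [← hφ.sum_comp fun x => χ x, Fintype.sum_prod_type_right,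
      ← Finset.add_sum_erase _ _ (Finset.mem_univ (1 : zpowers b)),
      ← Finset.add_sum_erase _ (fun y : zpowers b => χ y) (Finset.mem_univ (1 : zpowers b)),
      coe_one, h.one, add_sub_cancel_left, Finset.mul_sum]
    congr 1
    · simp [φ]
    · refine Finset.sum_congr rfl fun y hy => ?_
      rw [Finset.sum_congr rfl fun x _ => k y (Finset.ne_of_mem_erase hy) x, Finset.sum_const,
        Finset.card_univ, nsmul_eq_mul, Nat.card_eq_fintype_card]
  have c1 : (Nat.card (E ⊔ zpowers b : Subgroup G) : ℚ) = Nat.card E * r := by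
    rw [← Nat.card_eq_of_bijective φ hφ, Nat.card_prod, cB, Nat.cast_mul]
  have a1 := h.sub _ fun e => hE (le_bot_iff.1 ((le_sup_left : E ≤ E ⊔ zpowers b).trans e.le))
  have a2 := h.sub E hE
  have a3 := h.sub (zpowers b) fun e => by
    rw [e, card_bot] at cB
    exact hr.one_lt.ne cB
  rw [finsum_eq_sum_of_fintype] at a1 a2 a3
  rw [s1, c1] at a1
  rw [cB] at a3
  have r3 : (3 : ℚ) ≤ r := by exact_mod_cast (hr.two_le.lt_of_ne' h2)
  have n0 : (0 : ℚ) < Nat.card E := by exact_mod_cast Nat.card_pos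
  rcases a2 with a2 | a2 <;> rcases a3 with a3 | a3 <;> rw [a2, a3] at a1 <;> rcases a1 with a1 | a1 <;>
    nlinarith

namespace NF

omit [Finite G] in
theorem lift (hz : Ax z) (hf : Cov f z) {g : H} {m : ℕ} (hg : g ^ (2 * m + 1) = 1) :
    ∃ x, f x = g ∧ x ^ (2 * m + 1) = 1 := by
  obtain ⟨x, rfl⟩ := hf.surj g
  refine ⟨x ^ (2 * m + 1 + 1), by rw [map_pow, pow_succ, hg, one_mul], ?_⟩
  rw [pow_right_comm, show 2 * m + 1 + 1 = 2 * (m + 1) by ring, pow_mul]
  rcases (hf.ker (x ^ (2 * m + 1))).1 (by rw [map_pow, hg]) with e | e <;> rw [e]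
  · simp
  · rw [pow_two, hz.zz, one_pow]

theorem f21 (h : Chi z χ) (hz : Ax z) (hf : Cov f z) {a b : H} (ha : a ^ 7 = 1) (a1 : a ≠ 1)
    (hb : b ^ 3 = 1) (hab : b * a = a * a * b) : False := by
  obtain ⟨x, rfl, hx⟩ := lift hz hf (m := 3) ha
  obtain ⟨y, rfl, hy⟩ := lift hz hf (m := 1) hb
  have x1 : x ≠ 1 := fun e => a1 (by rw [e, map_one])
  have e : y * x * y⁻¹ = x * x := by
    rcases (hf.ker (y * x * y⁻¹ * (x * x)⁻¹)).1 (by
      simp only [map_mul, map_inv, hab]; group) with e | e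
    · exact mul_inv_eq_one.1 e
    · have := congrArg (· ^ (2 * 3 + 1)) (mul_inv_eq_iff_eq_mul.1 e)
      rw [conj_pow, hx, Commute.mul_pow (hz.zc _).symm, (Commute.refl x).mul_pow, hx, pow_succ,
        pow_mul, pow_two, hz.zz] at this
      exact absurd (by simpa using this.symm) hz.ne
  have k : ∀ w ∈ zpowers x, y * w * y⁻¹ = w * w := by
    rintro _ ⟨j, rfl⟩
    rw [← conj_zpow, e, (Commute.refl x).mul_zpow]
  have k1 : ∀ w ∈ zpowers x, y * w = w * y → w = 1 := fun w hw c => by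
    have := k w hw
    rw [c, mul_inv_cancel_right] at this
    exact left_eq_mul.1 this
  haveI : Fact (Nat.Prime 3) := ⟨Nat.prime_three⟩
  refine h.nofrob (zpowers x) (by rwa [Ne, zpowers_eq_bot]) Nat.prime_three (by decide)
    (orderOf_eq_prime hy fun c => x1 (k1 x (mem_zpowers x) (by rw [c, one_mul, mul_one])))
    (H69.mem_normalizer_of_cj_le fun w hw => ?_) k1
  obtain ⟨v, hv, rfl⟩ := H69.mem_cj'.1 hw
  rw [k v hv]
  exact mul_mem hv hv

theorem sgn {n m : ℕ} {a : Equiv.Perm (Fin n)} (h : a ^ (2 * m + 1) = 1) :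
    a ∈ alternatingGroup (Fin n) := by
  have := congrArg Equiv.Perm.sign h
  rwa [map_pow, map_one, pow_succ, pow_mul, Int.units_sq, one_pow, one_mul] at this

theorem ex {n : ℕ} (hn : n = 7 ∨ n = 8 ∨ n = 9) : ∃ a b : Equiv.Perm (Fin n),
    a ^ 7 = 1 ∧ a ≠ 1 ∧ b ^ 3 = 1 ∧ b * a = a * a * b := by
  rcases hn with rfl | rfl | rfl <;>
    exact ⟨c[0, 1, 2, 3, 4, 5, 6], c[1, 2, 4] * c[3, 6, 5], by decide +kernel, by decide +kernel,
      by decide +kernel, by decide +kernel⟩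

end NF

theorem Chi.no_alt (h : Chi z χ) (hz : Ax z) (hf : Cov f z) {n : ℕ} (hn : n = 7 ∨ n = 8 ∨ n = 9)
    (e : H ≃* alternatingGroup (Fin n)) : False := by
  obtain ⟨a, b, ha, a1, hb, hab⟩ := NF.ex hn
  refine NF.f21 h hz hf (a := e.symm ⟨a, NF.sgn (m := 3) ha⟩) (b := e.symm ⟨b, NF.sgn (m := 1) hb⟩)
    ?_ (fun c => a1 (congrArg Subtype.val ((MulEquiv.map_eq_one_iff _).1 c))) ?_ ?_
  · rw [← map_pow, MulEquiv.map_eq_one_iff]
    exact Subtype.ext ha
  · rw [← map_pow, MulEquiv.map_eq_one_iff]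
    exact Subtype.ext hb
  · rw [← map_mul, ← map_mul, ← map_mul]
    exact congrArg _ (Subtype.ext hab)

end H99.GD
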