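import Cfsg.Agent.Lib.GD.MB
import Cfsg.Agent.Lib.LocStruct.SylowIn
import Cfsg.Agent.S0126

/-! Odd order `p`-subgroups of `GL₂(D)` are abelian of rank at most two. -/

set_option autoImplicit false

namespace H99.GD

open H13.PS QuaternionGroup Subgroup
open scoped MatrixGroups

variable {G : Type*} [Group G] [Finite G] {D : Type*} [DivisionRing D] [CharZero D] {ρ : G →* M2 D} {z : G}

namespace ODD

/-- the averaging idempotent -/
noncomputable def ε (ρ : G →* M2 D) (p : ℕ) (x : G) : M2 D :=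
  (p : ℚ)⁻¹ • ∑ i ∈ Finset.range p, ρ x ^ i

/-- the stabiliser of a matrix under left multiplication -/
def fx (ρ : G →* M2 D) (w : M2 D) : Subgroup G where
  carrier := {g | ρ g * w = w}
  one_mem' := by simp
  mul_mem' := fun {a b} (ha : ρ a * w = w) (hb : ρ b * w = w) => by
    change ρ (a * b) * w = w
    rw [map_mul, mul_assoc, hb, ha]
  inv_mem' := fun {a} (ha : ρ a * w = w) => by
    change ρ a⁻¹ * w = w
    calc ρ a⁻¹ * w = ρ a⁻¹ * (ρ a * w) := by rw [ha]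
      _ = w := by rw [← mul_assoc, ← map_mul, inv_mul_cancel, map_one, one_mul]

variable {p : ℕ} [hp : Fact p.Prime] {x y : G}

omit [Finite G] in
theorem fix {w : M2 D} (h : x ∈ fx ρ w) : ε ρ p x * w = w := by
  have k : ∀ i ∈ Finset.range p, ρ x ^ i * w = w := fun i _ => by
    rw [← map_pow]; exact pow_mem h i
  rw [ε, smul_mul_assoc, Finset.sum_mul, Finset.sum_congr rfl k, Finset.sum_const,
    Finset.card_range, ← Nat.cast_smul_eq_nsmul ℚ, smul_smul,
    inv_mul_cancel₀ (Nat.cast_ne_zero.2 hp.out.ne_zero), one_smul]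

omit [Finite G] hp in
theorem self (hx : x ^ p = 1) : x ∈ fx ρ (ε ρ p x) := by
  change ρ x * _ = _
  have := mul_geom_sum (ρ x) p
  rw [← map_pow, hx, map_one, sub_self, sub_mul, one_mul, sub_eq_zero] at this
  rw [ε, mul_smul_comm, this]

omit [Finite G] hp in
theorem comm {w : M2 D} (h : Commute w (ρ x)) : Commute w (ε ρ p x) :=
  (Commute.sum_right _ _ _ fun i _ => h.pow_right i).smul_right _

omit [Finite G] hp in
theorem cj (g : G) : ε ρ p (g * x * g⁻¹) * ρ g = ρ g * ε ρ p x := by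
  rw [ε, ε, smul_mul_assoc, mul_smul_comm, Finset.sum_mul, Finset.mul_sum]
  congr 1
  refine Finset.sum_congr rfl fun i _ => ?_
  rw [← map_pow, ← map_pow, ← map_mul, ← map_mul, conj_pow, inv_mul_cancel_right]

omit [Finite G] hp in
theorem cj_ne (h : ε ρ p x ≠ 0) (g : G) : ε ρ p (g * x * g⁻¹) ≠ 0 := fun e => h (by
  have := congrArg (ρ g⁻¹ * ·) (cj (ρ := ρ) (p := p) (x := x) g)
  rwa [e, zero_mul, mul_zero, ← mul_assoc, ← map_mul, inv_mul_cancel, map_one, one_mul,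
    eq_comm] at this)

omit [Finite G] hp in
theorem ne_one (hρ : Function.Injective ρ) (hx : x ^ p = 1) (h1 : x ≠ 1) : ε ρ p x ≠ 1 := fun e => by
  have : ρ x * _ = _ := self (ρ := ρ) hx
  rw [e, mul_one] at this
  exact h1 (hρ (this.trans (map_one ρ).symm))

theorem eq_of_mem (hx : x ^ p = 1) (h1 : x ≠ 1) (hy : y ∈ zpowers x) (y1 : y ≠ 1) :
    ε ρ p y = ε ρ p x := by
  have hy' : y ^ p = 1 := by
    obtain ⟨k, rfl⟩ := mem_zpowers_iff.1 hy
    rw [← zpow_natCast, zpow_comm, zpow_natCast, hx, one_zpow]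
  have e : zpowers y = zpowers x := eq_of_le_of_card_ge (zpowers_le.2 hy) (by
    rw [Nat.card_zpowers, Nat.card_zpowers, orderOf_eq_prime hx h1, orderOf_eq_prime hy' y1])
  have c : Commute (ρ y) (ρ x) := by
    obtain ⟨k, rfl⟩ := mem_zpowers_iff.1 hy
    exact ((Commute.refl x).zpow_left k).map ρ
  have a := fix (p := p) (zpowers_le.2 (self (ρ := ρ) hx) hy)
  have b := fix (p := p) (zpowers_le.2 (self (ρ := ρ) hy') (e.ge (mem_zpowers x)))
  rw [← a, ← (comm (comm c).symm).eq, b]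

/-- a `p`-subgroup stabilising a line embeds in a product of two cyclic groups -/
theorem key (hρ : Function.Injective ρ) (h2 : p ≠ 2) {X : Subgroup G} (hX : IsPGroup p X)
    (hx : x ^ p = 1) (h1 : x ≠ 1) (h0 : ε ρ p x ≠ 0) (h : ∀ g ∈ X, Commute (ρ g) (ε ρ p x)) :
    ∃ a b : X →* Dˣ, IsCyclic a.range ∧ IsCyclic b.range ∧ Function.Injective (a.prod b) := by
  have i := fix (p := p) (self (ρ := ρ) hx)
  obtain ⟨a, b, hab, -⟩ := proj hρ i h0 (ne_one hρ hx h1) X fun g hg => by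
    rw [← (h g hg).eq, mul_assoc, mul_sub, i, mul_one, sub_self, mul_zero]
  have k : ∀ a : X →* Dˣ, IsCyclic a.range := fun a =>
    haveI : Finite a.range := Finite.of_surjective _ a.rangeRestrict_surjective
    dx_odd _ h2 (hX.of_surjective _ a.rangeRestrict_surjective)
  exact ⟨a, b, k a, k b, (injective_iff_map_eq_one _).2 fun g hg =>
    hab g (congrArg Prod.fst hg) (congrArg Prod.snd hg)⟩

theorem key_comm (hρ : Function.Injective ρ) (h2 : p ≠ 2) {X : Subgroup G} (hX : IsPGroup p X)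
    (hx : x ^ p = 1) (h1 : x ≠ 1) (h0 : ε ρ p x ≠ 0) (h : ∀ g ∈ X, Commute (ρ g) (ε ρ p x)) :
    IsMulCommutative X := by
  obtain ⟨a, b, ha, hb, hi⟩ := key hρ h2 hX hx h1 h0 h
  have k : ∀ a : X →* Dˣ, IsCyclic a.range → ∀ u v, a (u * v) = a (v * u) := fun a c u v => by
    rw [map_mul, map_mul]
    exact congrArg Subtype.val (c.isMulCommutative.1.1 (a.rangeRestrict u) (a.rangeRestrict v))
  exact ⟨⟨fun u v => hi (Prod.ext (k a ha u v) (k b hb u v))⟩⟩

theorem cyc_of {E : Subgroup G} (hE : ∀ x ∈ E, x ^ p = 1) (hc : IsMulCommutative E)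
    (h : ∀ x ∈ E, x ≠ 1 → ε ρ p x = 0) : IsCyclic E := by
  refine (H82.NZ.intFPF (ρ := ρ.comp E.subtype) fun g hg => ?_).isCyclic_of_comm hc.1.1
  rw [orderOf_eq_prime (p := p) (Subtype.ext (hE g g.2)) hg]
  exact (smul_eq_zero.1 (h g g.2 fun e => hg (Subtype.ext e))).resolve_left
    (inv_ne_zero (Nat.cast_ne_zero.2 hp.out.ne_zero))

theorem cyc_card {X : Type*} [Group X] (c : IsCyclic X) (h : ∀ x : X, x ^ p = 1) :
    Nat.card X ≤ p := by
  rw [← IsCyclic.exponent_eq_card]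
  exact Nat.le_of_dvd hp.out.pos (Monoid.exponent_dvd_of_forall_pow_eq_one h)

theorem orth {A : Subgroup G} (hA : Cfsg.IsElementaryAbelian p A) (hc : Nat.card A = p ^ 2) {c : G}
    (cA : c ∈ A) (c0 : ε ρ p c = 0) (hx : x ∈ A) (hy : y ∈ A) (h1 : x ≠ 1) (h : y ∉ zpowers x) :
    ε ρ p x * ε ρ p y = 0 ∧ ε ρ p y * ε ρ p x = 0 := by
  have cm : Commute (ρ y) (ρ x) :=
    Commute.map (congrArg Subtype.val (hA.1.1.1 ⟨y, hy⟩ ⟨x, hx⟩)) ρ
  have l : zpowers x ⊔ zpowers y ≤ A := sup_le (zpowers_le.2 hx) (zpowers_le.2 hy)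
  have ox : Nat.card (zpowers x) = p := by rw [Nat.card_zpowers, orderOf_eq_prime (hA.2 x hx) h1]
  have e : zpowers x ⊔ zpowers y = A := by
    obtain ⟨k, hk, e⟩ := (Nat.dvd_prime_pow hp.out).1 (hc ▸ card_dvd_of_le l)
    rcases hk.eq_or_lt with rfl | hk
    · exact eq_of_le_of_card_ge l (hc.trans e.symm).le
    refine absurd ((eq_of_le_of_card_ge (le_sup_left : zpowers x ≤ zpowers x ⊔ zpowers y) ?_).ge
      (mem_sup_right (mem_zpowers y))) h
    rw [e, ox]
    exact (Nat.pow_le_pow_right hp.out.pos (Nat.lt_succ_iff.1 hk)).trans (pow_one p).le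
  have k : A ≤ fx ρ (ε ρ p x * ε ρ p y) := by
    rw [← e]
    refine sup_le (zpowers_le.2 ?_) (zpowers_le.2 ?_)
    · change ρ x * _ = _
      rw [← mul_assoc, self (ρ := ρ) (hA.2 x hx)]
    · change ρ y * _ = _
      rw [← mul_assoc, (comm cm).eq, mul_assoc, self (ρ := ρ) (hA.2 y hy)]
  have := fix (p := p) (k cA)
  rw [c0, zero_mul] at this
  exact ⟨this.symm, (comm (comm cm).symm).symm.eq.trans this.symm⟩

end ODD

open ODD in
theorem odd_comm (hρ : Function.Injective ρ) {p : ℕ} [Fact p.Prime] (h2 : p ≠ 2) (P : Subgroup G)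
    (hP : IsPGroup p P) : IsMulCommutative P := by
  have hp : p.Prime := Fact.out
  by_cases hc : IsCyclic P
  · exact hc.isMulCommutative
  obtain ⟨A₀, hn, he, hA⟩ := Cfsg.Agent.S0126.result h2 hP hc
  set A := A₀.map P.subtype with hAd
  have cA : Nat.card A = p ^ 2 := (card_map_of_injective P.subtype_injective).trans hA
  have eA : Cfsg.IsElementaryAbelian p A := by
    haveI := he.1
    refine ⟨map_isMulCommutative _ _, ?_⟩
    rintro _ ⟨a, ha, rfl⟩
    rw [← map_pow, he.2 a ha, map_one]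
  have nA : ∀ g ∈ P, ∀ a ∈ A, g * a * g⁻¹ ∈ A := by
    rintro g hg _ ⟨a, ha, rfl⟩
    exact ⟨_, hn.conj_mem a ha ⟨g, hg⟩, rfl⟩
  have A0 : A₀ ≠ ⊥ := fun e => by
    rw [e, card_bot] at hA
    exact (Nat.one_lt_pow two_ne_zero hp.one_lt).ne hA
  obtain ⟨c, hc1, hc2, c1⟩ : ∃ c ∈ A, (∀ g ∈ P, g * c = c * g) ∧ c ≠ 1 := by
    obtain ⟨⟨c, hc⟩, c1⟩ := ne_bot_iff_exists_ne_one.1 (H69.inf_centralizer_ne_bot
      (hP.to_le (map_subtype_le A₀)) hP (H69.normal_iff_le_normalizer_map.1 hn)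
      fun e => A0 (H69.map_subtype_eq_bot_iff.1 e))
    exact ⟨c, hc.1, hc.2, fun e => c1 (Subtype.ext e)⟩
  by_cases c0 : ε ρ p c = 0
  swap
  · exact key_comm hρ h2 hP (eA.2 c hc1) c1 c0 fun g hg => comm (Commute.map (hc2 g hg) ρ)
  by_cases h : ∀ x ∈ A, x ≠ 1 → ε ρ p x = 0
  · have := cyc_card (cyc_of eA.2 eA.1 h) fun x => Subtype.ext (eA.2 x x.2)
    rw [cA] at this
    exact absurd this (by nlinarith [hp.two_le])
  push Not at h
  obtain ⟨x, hx, x1, x0⟩ := h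
  refine key_comm hρ h2 hP (eA.2 x hx) x1 x0 fun g hg => ?_
  have n1 : ∀ g : G, g * x * g⁻¹ ≠ 1 := fun g e => x1 (conj_eq_one_iff.1 e)
  by_cases m : g * x * g⁻¹ ∈ zpowers x
  · have := cj (ρ := ρ) (p := p) (x := x) g
    rw [eq_of_mem (eA.2 x hx) x1 m (n1 g)] at this
    exact this.symm
  exfalso
  have gg := mul_mem hg hg
  have m1 : g * g * x * (g * g)⁻¹ ∉ zpowers x := fun e => m (by
    have k : ∀ n : ℕ, (g * g) ^ n * x * ((g * g) ^ n)⁻¹ ∈ zpowers x := fun n => by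
      induction n with
      | zero => simp
      | succ n ih =>
        obtain ⟨i, hi⟩ := mem_zpowers_iff.1 ih
        have : (g * g) ^ (n + 1) * x * ((g * g) ^ (n + 1))⁻¹ = (g * g * x * (g * g)⁻¹) ^ i := by
          rw [conj_zpow, hi, pow_succ']; generalize (g * g) ^ n = w; group
        rw [this]
        exact zpow_mem e i
    obtain ⟨n, hn⟩ := hP ⟨g, hg⟩
    obtain ⟨j, hj⟩ : Odd (p ^ n) := (hp.odd_of_ne_two h2).pow
    have e1 : (g * g) ^ (j + 1) = g := by
      have : g ^ p ^ n = 1 := congrArg Subtype.val hn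
      rw [← pow_two, ← pow_mul, show 2 * (j + 1) = p ^ n + 1 by omega, pow_succ, this, one_mul]
    have := k (j + 1)
    rwa [e1] at this)
  have m2 : g * g * x * (g * g)⁻¹ ∉ zpowers (g * x * g⁻¹) := fun e => m (by
    obtain ⟨i, hi⟩ := mem_zpowers_iff.1 e
    refine mem_zpowers_iff.2 ⟨i, ?_⟩
    rw [conj_zpow] at hi
    calc x ^ i = g⁻¹ * (g * x ^ i * g⁻¹) * g := by group
      _ = _ := by rw [hi]; group)
  have a1 := nA g hg x hx
  have a2 := nA _ gg x hx
  obtain ⟨o1, o2⟩ := orth eA cA hc1 c0 hx a1 x1 m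
  obtain ⟨o3, o4⟩ := orth eA cA hc1 c0 hx a2 x1 m1
  rcases three_idem (fix (self (eA.2 _ hx))) (fix (self (eA.2 _ a1))) (fix (self (eA.2 _ a2)))
    o1 o2 o3 o4 (orth eA cA hc1 c0 a1 a2 (n1 g) m2).1 with e | e | e
  exacts [x0 e, cj_ne x0 _ e, cj_ne x0 _ e]

open ODD in
theorem odd_rank (hρ : Function.Injective ρ) {p : ℕ} [Fact p.Prime] (h2 : p ≠ 2) (E : Subgroup G)
    (hE : ∀ x ∈ E, x ^ p = 1) : Nat.card E ≤ p ^ 2 := by
  have hp : p.Prime := Fact.out
  have hE' : ∀ x : E, x ^ p = 1 := fun x => Subtype.ext (hE x x.2)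
  have hP : IsPGroup p E := fun x => ⟨1, by rw [pow_one, hE']⟩
  have hc := odd_comm hρ h2 E hP
  by_cases h : ∀ x ∈ E, x ≠ 1 → ε ρ p x = 0
  · exact (cyc_card (cyc_of hE hc h) hE').trans (by nlinarith [hp.two_le])
  push Not at h
  obtain ⟨x, hx, x1, x0⟩ := h
  obtain ⟨a, b, ha, hb, hi⟩ := key hρ h2 hP (hE x hx) x1 x0 fun g hg =>
    comm (Commute.map (congrArg Subtype.val (hc.1.1 ⟨g, hg⟩ ⟨x, hx⟩)) ρ)
  have k : ∀ a : E →* Dˣ, IsCyclic a.range → Nat.card a.range ≤ p := fun a c =>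
    cyc_card c fun u => by
      obtain ⟨u, rfl⟩ := a.rangeRestrict_surjective u
      rw [← map_pow, hE', map_one]
  haveI : Finite a.range := Finite.of_surjective _ a.rangeRestrict_surjective
  haveI : Finite b.range := Finite.of_surjective _ b.rangeRestrict_surjective
  have := Nat.card_le_card_of_injective (a.rangeRestrict.prod b.rangeRestrict) fun u v e =>
    hi (Prod.ext (congrArg (·.1.1) e) (congrArg (·.2.1) e))
  rw [Nat.card_prod] at this
  exact this.trans ((Nat.mul_le_mul (k a ha) (k b hb)).trans (pow_two p).ge)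

end H99.GD
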