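import Cfsg.Agent.Lib.GD.Bas
import Cfsg.Agent.S0088

/-! # GD, package R2: the kernel of a minimal cover is a 2-group -/

set_option autoImplicit false

namespace H99.GD

open H13.PS QuaternionGroup Subgroup
open scoped MatrixGroups

variable {G S : Type*} [Group G] [Finite G] [Group S] {f : G →* S}

omit [Finite G] in
theorem Min.r2_sup (hf : Min f) {K L : Subgroup G} (hL : L ≤ f.ker) (h : K ⊔ L = ⊤) : K = ⊤ := by
  refine hf.min K ?_
  have := congrArg (Subgroup.map f) h
  rwa [Subgroup.map_sup, (Subgroup.map_eq_bot_iff _).2 hL, sup_bot_eq, ← MonoidHom.range_eq_map,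
    MonoidHom.range_eq_top.2 hf.surj] at this

theorem Min.ker_two (hf : Min f)
    (ho : ∀ p : ℕ, p.Prime → p ≠ 2 → ∀ P : Subgroup G, IsPGroup p P → IsMulCommutative P) :
    IsPGroup 2 f.ker := by
  refine IsPGroup.of_card (Nat.eq_prime_pow_of_unique_prime_dvd Nat.card_pos.ne' fun {p} hp hd => ?_)
  by_contra h2
  have : Fact p.Prime := ⟨hp⟩
  obtain ⟨P0⟩ : Nonempty (Sylow p f.ker) := inferInstance
  have n0 : (P0 : Subgroup f.ker).map f.ker.subtype ≠ ⊥ := fun e =>
    P0.ne_bot_of_dvd_card hd ((Subgroup.map_eq_bot_iff_of_injective _ f.ker.subtype_injective).1 e)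
  have : ((P0 : Subgroup f.ker).map f.ker.subtype).Normal :=
    normalizer_eq_top_iff.1 (hf.r2_sup le_rfl P0.normalizer_sup_eq_top)
  obtain ⟨P, hP⟩ := (P0.isPGroup'.map f.ker.subtype).exists_le_sylow
  have hc := ho p hp h2 P P.isPGroup'
  rcases hf.normal (centralizer ((P0 : Subgroup f.ker).map f.ker.subtype : Set G)) with e | e
  · refine n0 (le_bot_iff.1 ((le_inf (le_inf hP (hf.perfect ▸ le_top)) fun x hx => ?_).trans
      (Cfsg.Agent.S0088.result (P : Subgroup G) hc P.card_coprime_index).le))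
    exact mem_center_iff.2 fun g => (mem_centralizer_iff.1 (e.ge (mem_top g)) x hx).symm
  · have hk : (P : Subgroup G) ≤ f.ker := fun x hx => e (mem_centralizer_iff.2 fun y hy =>
      congrArg Subtype.val (hc.is_comm.comm ⟨y, hP hy⟩ ⟨x, hx⟩))
    have : (P : Subgroup G).Normal := normalizer_eq_top_iff.1 (hf.r2_sup le_rfl (P.normalizer_sup_eq_top' hk))
    obtain ⟨K, hK⟩ := exists_right_complement'_of_coprime P.card_coprime_index
    have e1 := hf.r2_sup hk hK.symm.sup_eq_top
    have e2 := hK.disjoint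
    rw [e1, disjoint_top] at e2
    exact n0 (le_bot_iff.1 (hP.trans e2.le))

theorem exists_min (hs : IsSimpleGroup S) (hn : ¬ IsMulCommutative S) (hf : Function.Surjective f) :
    ∃ K : Subgroup G, Min (f.comp K.subtype) := by
  obtain ⟨K, hK⟩ := exists_minimal_of_wellFoundedLT (fun K : Subgroup G => K.map f = ⊤)
    ⟨⊤, by rw [← MonoidHom.range_eq_map, MonoidHom.range_eq_top.2 hf]⟩
  refine ⟨K, hs, hn, fun s => ?_, fun L hL => ?_⟩
  · obtain ⟨x, hx, e⟩ := hK.prop.ge (mem_top s)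
    exact ⟨⟨x, hx⟩, e⟩
  · rw [← Subgroup.map_map] at hL
    refine eq_top_iff.2 fun x _ => ?_
    obtain ⟨y, hy, e⟩ := hK.le_of_le hL (map_subtype_le L) x.2
    exact Subtype.ext e ▸ hy

end H99.GD
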