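import Cfsg.Agent.Lib.GD.MB
import Cfsg.Agent.Lib.GD.NC
import Cfsg.Agent.Lib.TwoGrp.RankOne
import Cfsg.Agent.S0088
import Cfsg.Agent.S0215

/-! The kernel of a minimal central cover has order two; a conjugate not commuting with `s`. -/

set_option autoImplicit false

namespace H99.GD

open H13.PS QuaternionGroup Subgroup
open scoped MatrixGroups

variable {G : Type*} [Group G] [Finite G] {D : Type*} [DivisionRing D] [CharZero D] {ρ : G →* M2 D} {z : G} {S : Type*} [Group S] {f : G →* S}

namespace R4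

theorem sq_one {X : Type*} [Group X] {k : ℕ} (e : X ≃* QG k) {u : X} (hu : ∀ g, g * u = u * g) :
    u * u = 1 := by
  have h : ∀ y, e u * y = y * e u := fun y => by
    obtain ⟨g, rfl⟩ := e.surjective y
    rw [← map_mul, ← map_mul, hu]
  apply e.injective
  rw [map_mul, map_one]
  rcases central (h _) (h _) with c | c <;> rw [c]
  exacts [one_mul _, zz]

theorem comm {X : Type*} [Group X] [Finite X] (hX : IsPGroup 2 X) (p : X →* Dˣ) {u : X}
    (hu : ∀ g, g * u = u * g) (h : p (u * u) = -1) (a b : X) : p (a * b * a⁻¹ * b⁻¹) = 1 := by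
  haveI : Finite p.range := Finite.of_surjective _ p.rangeRestrict_surjective
  rcases dx_two p.range (hX.of_surjective _ p.rangeRestrict_surjective) with c | ⟨k, ⟨e⟩⟩
  · letI := c.commGroup
    have := congrArg Subtype.val (mul_comm (p.rangeRestrict a) (p.rangeRestrict b))
    have e : p a * p b = p b * p a := this
    rw [map_mul, map_mul, map_mul, e, map_inv, map_inv]
    group
  · have := congrArg Subtype.val (sq_one e (u := p.rangeRestrict u) fun g => by
      obtain ⟨g, rfl⟩ := p.rangeRestrict_surjective g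
      rw [← map_mul, ← map_mul, hu])
    have e : p u * p u = 1 := this
    rw [← map_mul, h] at e
    have := congrArg Units.val e
    norm_num at this

omit [Finite G] in
theorem exists_u {N : Subgroup G} (h : ∀ w ∈ N, w * w = 1 → w = 1 ∨ w = z) (k : ℕ) :
    ∀ x ∈ N, x ^ 2 ^ k = 1 → x = 1 ∨ x = z ∨ ∃ u ∈ N, u * u = z := by
  induction k with
  | zero => exact fun x _ hx => Or.inl (by simpa using hx)
  | succ k ih =>
    intro x hx e
    rcases ih (x * x) (mul_mem hx hx) (by rw [← pow_two, ← pow_mul, ← pow_succ', e]) with c | c | c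
    · exact (h x hx c).imp_right Or.inl
    · exact Or.inr (Or.inr ⟨x, hx, c⟩)
    · exact Or.inr (Or.inr c)

end R4

theorem cov_of (hρ : Function.Injective ρ) (hz : ρ z = -1) (hI : Irr ρ) (hf : Min f) (hzf : z ∈ f.ker)
    (h2 : IsPGroup 2 f.ker) (hc : f.ker ≤ center G) : Cov f z := by
  refine ⟨hf.simple, hf.nc, hf.surj, fun x => ⟨fun hx => ?_, ?_⟩⟩
  swap
  · rintro (rfl | rfl)
    exacts [map_one f, hzf]
  have ax := ax_of hρ hz
  obtain ⟨k, hk⟩ := h2 ⟨x, hx⟩
  rcases R4.exists_u (N := f.ker) (z := z) (fun w hw h => (hI.cen h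
    (mem_center_iff.1 (hc hw))).imp (fun e => hρ (e.trans (map_one ρ).symm))
      fun e => hρ (e.trans hz.symm)) k x hx (congrArg Subtype.val hk) with c | c | ⟨u, hu, uu⟩
  · exact Or.inl c
  · exact Or.inr c
  exfalso
  have uc := mem_center_iff.1 (hc hu)
  obtain ⟨T⟩ : Nonempty (Sylow 2 G) := inferInstance
  have uT : u ∈ T := by
    obtain ⟨n, hn⟩ := into_sylow T h2
    have := hn u hu
    rwa [uc, mul_inv_cancel_right] at this
  by_cases hN : ∃ x, Nci z x
  · obtain ⟨s, sT, hs, hn⟩ := nf4 hf.perfect ax T hN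
    obtain ⟨p, q, hpq, hneg⟩ := proj_cent hρ hz hs ((T : Subgroup G) ⊓ centralizer {s})
      fun x hx => mem_centralizer_singleton_iff.1 hx.2
    have hX : IsPGroup 2 ((T : Subgroup G) ⊓ centralizer {s} : Subgroup G) :=
      T.isPGroup'.to_le inf_le_left
    let u' : ((T : Subgroup G) ⊓ centralizer {s} : Subgroup G) :=
      ⟨u, uT, mem_centralizer_singleton_iff.2 (uc s).symm⟩
    have u1 : ∀ g, g * u' = u' * g := fun g => Subtype.ext (uc g)
    obtain ⟨n1, n2⟩ := hneg (u' * u') (by rw [← hz, ← uu]; rfl)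
    refine c0 hf.perfect ax T sT hs hn fun x hx y hy h1 h2 => ?_
    have := congrArg Subtype.val (hpq _
      (R4.comm hX p u1 n1 ⟨x, hx, mem_centralizer_singleton_iff.2 h1⟩
        ⟨y, hy, mem_centralizer_singleton_iff.2 h2⟩) (R4.comm hX q u1 n2 _ _))
    exact commutatorElement_eq_one_iff_mul_comm.1 this
  · have k : ∀ x : G, x * x = 1 → x ≠ 1 → x = z := fun x a b => by
      by_contra c
      exact hN ⟨x, a, b, c⟩
    have ui : H13.TG.UI G := fun x y a b c d => (k x a c).trans (k y b d).symm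
    rcases (ui.subgroup T).cases T.isPGroup' with c | ⟨n, ⟨e⟩⟩
    · have := Cfsg.Agent.S0088.result (T : Subgroup G) c.isMulCommutative T.card_coprime_index
      exact ax.ne (mem_bot.1 (this.le ⟨⟨ax.mem T, hf.perfect.ge (mem_top z)⟩,
        mem_center_iff.2 ax.zc⟩))
    · have := congrArg Subtype.val (R4.sq_one (k := n) e (u := ⟨u, uT⟩) fun g => Subtype.ext (uc g))
      exact ax.ne (uu.symm.trans this)

theorem exists_tau (hz : Ax z) (hf : Cov f z) (T : Sylow 2 G) {s : G} (hT : s ∈ T) (hs : Nci z s)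
    (hn : ∀ g ∈ T, g * s = s * g ∨ g * s = z * s * g) : ∃ τ ∈ T, Nci z τ ∧ τ * s = z * s * τ := by
  haveI : Finite S := Finite.of_surjective f hf.surj
  haveI := hf.simple
  have s1 : f s ≠ 1 := fun e => ((hf.ker s).1 e).elim hs.2.1 hs.2.2
  have so : orderOf (f s) = 2 := orderOf_eq_prime (by rw [pow_two, ← map_mul, hs.1, map_one]) s1
  have fz : f z = 1 := (hf.ker z).2 (Or.inr rfl)
  by_contra hc
  push Not at hc
  obtain ⟨N, hN, ho, h⟩ := Cfsg.Agent.S0215.result (T.mapSurjective hf.surj) (f s) so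
    (mem_map_of_mem f hT) fun g hg => by
      obtain ⟨g, rfl⟩ := hf.surj g
      obtain ⟨t, ht, e⟩ := mem_map.1 hg
      have e1 : f (g * s * g⁻¹ * t⁻¹) = 1 := by
        rw [map_mul, map_mul, map_mul, map_inv, map_inv, e, mul_inv_cancel]
      have m : g * s * g⁻¹ * t⁻¹ ∈ T := by
        rcases (hf.ker _).1 e1 with c | c <;> rw [c]
        exacts [one_mem _, hz.mem T]
      have m1 : g * s * g⁻¹ ∈ T := (T : Subgroup G).mul_mem_cancel_right (inv_mem ht) |>.1 m
      have n := hs.cj hz g
      rw [← map_inv, ← map_mul, ← map_mul]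
      rcases hz.f1 s _ hs n ((hn _ m1).resolve_right (hc _ m1 n)).symm with c | c <;> rw [c]
      rw [map_mul, fz, one_mul]
  rcases hN.eq_bot_or_eq_top with rfl | rfl
  · exact s1 (simple_center hf.nc fun g =>
      (commutatorElement_eq_one_iff_mul_comm.1 (mem_bot.1 (h g))).symm)
  · rw [card_top] at ho
    exact (Nat.not_even_iff_odd.2 ho) (even_iff_two_dvd.2 (so ▸ orderOf_dvd_natCard _))

end H99.GD
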