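import Cfsg.Agent.Lib.GD.Defs
import Cfsg.Agent.Lib.Char.Galois

set_option autoImplicit false
set_option linter.unusedSectionVars false

namespace H99.GD

open H13.PS QuaternionGroup Subgroup
open scoped MatrixGroups TensorProduct

variable {G : Type*} [Group G] [Finite G] {V : Type*} [AddCommGroup V] [Module ℚ V] [FiniteDimensional ℚ V]

namespace REP

/-- the complexified representation -/
noncomputable def cx (π : G →* Module.End ℚ V) : Representation ℂ G (ℂ ⊗[ℚ] V) where
  toFun g := (π g).baseChange ℂ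
  map_one' := by rw [map_one, LinearMap.baseChange_one]
  map_mul' a b := by rw [map_mul, LinearMap.baseChange_mul]

theorem cx_char (π : G →* Module.End ℚ V) (g : G) :
    (cx π).character g = ((LinearMap.trace ℚ V (π g) : ℚ) : ℂ) := by
  show LinearMap.trace ℂ _ ((π g).baseChange ℂ) = _
  rw [LinearMap.trace_baseChange]
  rfl

theorem sum_eq (π : G →* Module.End ℚ V) :
    ∑ᶠ g : G, LinearMap.trace ℚ V (π g) =
      Nat.card G * Module.finrank ℚ (Representation.invariants (k := ℚ) (G := G) (V := V) π) := by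
  classical
  haveI := Fintype.ofFinite G
  have h0 : (Nat.card G : ℚ) ≠ 0 := Nat.cast_ne_zero.2 Nat.card_pos.ne'
  haveI : Invertible (Nat.card G : ℚ) := invertibleOfNonzero h0
  have h := Representation.card_inv_mul_sum_char_eq_finrank (k := ℚ) (G := G) (V := V) π
  rw [finsum_eq_sum_of_fintype, ← h, ← mul_assoc, mul_inv_cancel₀ h0, one_mul]
  rfl

end REP

theorem trace_pow (π : G →* Module.End ℚ V) (g : G) (n : ℕ) (h : n.Coprime (orderOf g)) :
    LinearMap.trace ℚ V (π (g ^ n)) = LinearMap.trace ℚ V (π g) := by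
  obtain ⟨σ, hσ⟩ := H8.exists_ringEquiv_pow (orderOf_pos g) h
  have h1 := H8.map_character_eq_pow (REP.cx π) (σ : ℂ →+* ℂ) (orderOf_pos g) hσ
    (pow_orderOf_eq_one g)
  rw [REP.cx_char, REP.cx_char, map_ratCast] at h1
  exact_mod_cast h1.symm

theorem trace_norm (π : G →* Module.End ℚ V) (X : Subgroup G) :
    (Nat.card X : ℚ) * ∑ᶠ g : G, LinearMap.trace ℚ V (π g) ^ 2 ≤
      Nat.card G * ∑ᶠ x : X, LinearMap.trace ℚ V (π x) ^ 2 := by
  let τ : G →* Module.End ℚ (V ⊗[ℚ] V) := Representation.tprod (k := ℚ) (G := G) π π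
  have hτ : ∀ g, LinearMap.trace ℚ V (π g) ^ 2 = LinearMap.trace ℚ _ (τ g) := fun g => by
    rw [sq, ← LinearMap.trace_tensorProduct']
    rfl
  simp only [hτ]
  have h1 := REP.sum_eq τ
  have h2 := REP.sum_eq (τ.comp X.subtype)
  have h3 : ∑ᶠ x : X, LinearMap.trace ℚ _ (τ x) =
      ∑ᶠ x : X, LinearMap.trace ℚ _ ((τ.comp X.subtype) x) := rfl
  rw [h3, h1, h2]
  have h4 : Module.finrank ℚ (Representation.invariants (k := ℚ) (G := G) τ) ≤
      Module.finrank ℚ (Representation.invariants (k := ℚ) (G := X) (τ.comp X.subtype)) :=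
    Submodule.finrank_mono (fun v hv x => hv x)
  have h5 : (Module.finrank ℚ (Representation.invariants (k := ℚ) (G := G) τ) : ℚ) ≤
      Module.finrank ℚ (Representation.invariants (k := ℚ) (G := X) (τ.comp X.subtype)) := by
    exact_mod_cast h4
  have h6 : (0 : ℚ) ≤ (Nat.card X : ℚ) * Nat.card G := by positivity
  nlinarith [mul_le_mul_of_nonneg_left h5 h6]

end H99.GD
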