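import Cfsg.Agent.Lib.GD.NF

/-! `SL(2, q)` with a normalised rational trace: `q - 1` is a power of two. -/

set_option autoImplicit false

namespace H99.GD

open H13.PS QuaternionGroup Subgroup
open scoped MatrixGroups

namespace SLA

variable {F : Type*} [Field F]

/-- the diagonal torus -/
def dg (F : Type*) [Field F] : Fˣ →* SL(2, F) where
  toFun c := ⟨!![(c : F), 0; 0, ((c⁻¹ : Fˣ) : F)], by simp [Matrix.det_fin_two]⟩
  map_one' := Subtype.ext (by ext i j; fin_cases i <;> fin_cases j <;> simp)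
  map_mul' c d := Subtype.ext (Eq.trans (by simp [mul_comm]) (Matrix.mul_fin_two ..).symm)

theorem dg_val (c : Fˣ) : (dg F c).1 = !![(c : F), 0; 0, ((c⁻¹ : Fˣ) : F)] := rfl

theorem dg_inj : Function.Injective (dg F) := fun c d e => Units.ext (by
  have := congrFun (congrFun (congrArg Subtype.val e) 0) 0
  simpa [dg_val] using this)

/-- upper unitriangular matrices -/
def Un (F : Type*) [Field F] : Subgroup SL(2, F) where
  carrier := {g | g.1 0 0 = 1 ∧ g.1 1 0 = 0 ∧ g.1 1 1 = 1}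
  one_mem' := by simp
  mul_mem' := fun {a b} ha hb => by
    simp only [Set.mem_ofPred_eq] at *
    simp [Matrix.mul_apply, Fin.sum_univ_two, ha, hb]
  inv_mem' := fun {a} ha => by
    simp only [Set.mem_ofPred_eq] at *
    simp [Matrix.SpecialLinearGroup.SL2_inv_expl, ha]

theorem mem_Un {g : SL(2, F)} : g ∈ Un F ↔ g.1 0 0 = 1 ∧ g.1 1 0 = 0 ∧ g.1 1 1 = 1 := Iff.rfl

theorem Un_ne : Un F ≠ ⊥ := fun h => by
  let g : SL(2, F) := ⟨!![1, 1; 0, 1], by simp [Matrix.det_fin_two]⟩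
  have : g ∈ Un F := ⟨rfl, rfl, rfl⟩
  rw [h, mem_bot] at this
  simpa [g] using congrFun (congrFun (congrArg Subtype.val this) 0) 1

theorem dg_conj (c : Fˣ) {x : SL(2, F)} (hx : x ∈ Un F) : dg F c * x * (dg F c)⁻¹ ∈ Un F := by
  rw [← map_inv, mem_Un]
  simp [dg_val, Matrix.mul_apply, Fin.sum_univ_two, Matrix.vecMul, dotProduct, hx.1, hx.2.1, hx.2.2]

/-- the rational parametrisation of the conic `α² - αβ + β² = 1` -/
def par (F : Type*) [Field F] : Option F → F × F
  | none => (1, 0)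
  | some t => (t * ((2 * t - 1) / (t ^ 2 - t + 1)) - 1, (2 * t - 1) / (t ^ 2 - t + 1))

theorem par_surj (h3 : ∀ t : F, t ^ 2 - t + 1 ≠ 0) (h2 : (2 : F) ≠ 0) {α β : F}
    (h : α ^ 2 - α * β + β ^ 2 = 1) : ∃ o, par F o = (α, β) := by
  by_cases hb : β = 0
  · subst hb
    rcases mul_self_eq_one_iff.1 (show α * α = 1 by linear_combination h) with rfl | rfl
    · exact ⟨none, rfl⟩
    · exact ⟨some 2⁻¹, by simp [par, mul_inv_cancel₀ h2]⟩
  · have e : (2 * ((α + 1) / β) - 1) / (((α + 1) / β) ^ 2 - (α + 1) / β + 1) = β := by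
      rw [div_eq_iff (h3 _)]
      field_simp
      linear_combination -h
    exact ⟨some ((α + 1) / β), by rw [par, e, div_mul_cancel₀ _ hb, add_sub_cancel_right]⟩

end SLA

open SLA

variable {F : Type*} [Field F] [Fintype F] {χ : SL(2, F) → ℚ}

theorem sl_pow (h : Chi (-1) χ) (hF : Odd (Fintype.card F)) : ∃ m : ℕ, Fintype.card F = 2 ^ m + 1 := by
  classical
  have h1 : 1 < Fintype.card F := Fintype.one_lt_card
  rcases Nat.eq_two_pow_or_exists_odd_prime_and_dvd (Fintype.card F - 1) with ⟨m, e⟩ | ⟨r, hr, hd, ho⟩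
  · exact ⟨m, by omega⟩
  have : Fact r.Prime := ⟨hr⟩
  obtain ⟨c, hc⟩ := exists_prime_orderOf_dvd_card (G := Fˣ) r (by rwa [Fintype.card_units])
  have h2 : r ≠ 2 := by rintro rfl; exact absurd ho (by decide)
  refine (h.nofrob (Un F) Un_ne hr h2 (b := dg F c) (by rw [orderOf_injective _ dg_inj, hc])
    (mem_normalizer_iff.2 fun x => ⟨dg_conj c, fun hx => ?_⟩) fun x hx e => ?_).elim
  · have := dg_conj c⁻¹ hx
    rwa [map_inv, show (dg F c)⁻¹ * (dg F c * x * (dg F c)⁻¹) * (dg F c)⁻¹⁻¹ = x by group] at this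
  · have e1 : (c : F) * x.1 0 1 = x.1 0 1 * (c : F)⁻¹ := by
      simpa [dg_val, Matrix.mul_apply, Fin.sum_univ_two, Matrix.vecMul, dotProduct] using
        congrFun (congrFun (congrArg Subtype.val e) 0) 1
    have e2 : x.1 0 1 = 0 := by
      by_contra n
      have e3 : c ^ 2 = 1 := Units.ext (by
        field_simp at e1
        simpa using e1)
      exact h2 ((Nat.prime_dvd_prime_iff_eq hr Nat.prime_two).1 (hc ▸ orderOf_dvd_of_pow_eq_one e3))
    exact Subtype.ext (by
      ext i j; fin_cases i <;> fin_cases j <;> simp [hx.1, hx.2.1, hx.2.2, e2])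

theorem three_pow_ne {m j : ℕ} (hm : 4 ≤ m) : 3 ^ j ≠ 2 ^ m + 1 := fun e => by
  obtain ⟨n, rfl⟩ := Nat.exists_eq_add_of_le hm
  have h1 : 3 ^ j % 80 = 3 ^ (j % 4) % 80 := by
    conv_lhs => rw [← Nat.div_add_mod j 4, pow_add, pow_mul, Nat.mul_mod, Nat.pow_mod]
    simp
  have h2 : ¬ 5 ∣ 2 ^ n := fun h => absurd ((by norm_num : Nat.Prime 5).dvd_of_dvd_pow h) (by decide)
  rw [e, pow_add] at h1
  have h3 : j % 4 < 4 := Nat.mod_lt _ (by decide)
  generalize j % 4 = r at h1 h3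
  interval_cases r <;> omega

/-- the centraliser of an element of order three -/
theorem card_cent (h3 : ∀ t : F, t ^ 2 - t + 1 ≠ 0) (h2 : (2 : F) ≠ 0) {u : SL(2, F)}
    (hu : u.1 * u.1 + u.1 + 1 = 0) : Nat.card (centralizer {u}) ≤ Fintype.card F + 1 := by
  have e0 := congrFun (congrFun hu 0) 0
  have e1 := congrFun (congrFun hu 1) 0
  simp only [Matrix.add_apply, Matrix.mul_apply, Fin.sum_univ_two, Matrix.one_apply_eq, Matrix.zero_apply,
    Matrix.one_apply_ne (show (1 : Fin 2) ≠ 0 by decide)] at e0 e1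
  have hc : u.1 1 0 ≠ 0 := fun e => h3 (-u.1 0 0) (by rw [e] at e0; linear_combination e0)
  have ht : u.1 1 1 = -1 - u.1 0 0 := mul_left_cancel₀ hc (by linear_combination e1)
  have key : ∀ x : centralizer {u}, ∃ α β : F, α ^ 2 - α * β + β ^ 2 = 1 ∧ x.1.1 = α • 1 + β • u.1 := by
    rintro ⟨x, hx⟩
    have e : x.1 * u.1 = u.1 * x.1 :=
      congrArg Subtype.val (mem_centralizer_singleton_iff (G := SL(2, F)).1 hx)
    have k0 := congrFun (congrFun e 0) 0
    have k1 := congrFun (congrFun e 1) 0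
    simp only [Matrix.mul_apply, Fin.sum_univ_two] at k0 k1
    obtain ⟨β, hb⟩ : ∃ β, x.1 1 0 = β * u.1 1 0 := ⟨_, (div_mul_cancel₀ _ hc).symm⟩
    have k2 : x.1 0 1 = β * u.1 0 1 := mul_left_cancel₀ hc (by rw [hb] at k0; linear_combination k0)
    have k3 : x.1 1 1 = x.1 0 0 - β * u.1 0 0 + β * u.1 1 1 :=
      mul_left_cancel₀ hc (by rw [hb] at k1; linear_combination k1)
    refine ⟨x.1 0 0 - β * u.1 0 0, β, ?_, ?_⟩
    · have d := x.2
      rw [Matrix.det_fin_two, hb, k2, k3, ht] at d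
      linear_combination d + β ^ 2 * e0
    · ext i j; fin_cases i <;> fin_cases j <;> simp [hb, k2, k3]
  choose α β k1 k2 using key
  choose o ho using fun x => par_surj h3 h2 (k1 x)
  rw [← Fintype.card_option, ← Nat.card_eq_fintype_card]
  refine Nat.card_le_card_of_injective o fun x y e => Subtype.ext (Subtype.ext ?_)
  have := (ho x).symm.trans (e ▸ ho y)
  rw [k2, k2, (Prod.mk.inj this).1, (Prod.mk.inj this).2]

end H99.GD
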