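import Cfsg.Agent.Lib.GD.Bas

/-! The norm inequality for the Borel subgroup of `SL(2, F)`. -/

set_option autoImplicit false

namespace H99.GD

open H13.PS QuaternionGroup Subgroup
open scoped MatrixGroups

namespace SLB

open Finset

section Gen

variable {G : Type*} [Group G] [Fintype G] (B : Subgroup G) [DecidablePred (· ∈ B)]

omit [DecidablePred (· ∈ B)] in
theorem card_le (T : Finset G) (hT : ∀ x ∈ T, ∀ y ∈ T, x⁻¹ * y ∈ B) : #T ≤ Nat.card B := by
  rcases T.eq_empty_or_nonempty with rfl | ⟨x, hx⟩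
  · simp
  · rw [← Nat.card_eq_finsetCard]
    exact Nat.card_le_card_of_injective (fun y : T => (⟨x⁻¹ * y, hT x hx y y.2⟩ : B))
      fun y y' e => Subtype.ext (mul_left_cancel (congrArg Subtype.val e))

theorem count (φ : G → ℚ) (cj : ∀ g h, φ (g * h * g⁻¹) = φ h) :
    ∑ g, φ g * (#{x | x⁻¹ * g * x ∈ B} : ℚ) = Nat.card G * ∑ᶠ b : B, φ b := by
  have e : ∑ᶠ b : B, φ b = ∑ g, if g ∈ B then φ g else 0 := by
    rw [finsum_eq_sum_of_fintype, ← Finset.sum_filter]
    exact (Finset.sum_subtype _ (by simp) φ).symm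
  simp only [Finset.card_filter, Nat.cast_sum, Finset.mul_sum]
  rw [Finset.sum_comm, e, Nat.card_eq_fintype_card, ← nsmul_eq_mul, ← Finset.card_univ,
    ← Finset.sum_const]
  refine Finset.sum_congr rfl fun x _ => ?_
  rw [← (MulAut.conj x).toEquiv.sum_comp]
  refine Finset.sum_congr rfl fun g _ => ?_
  have : x⁻¹ * (x * g * x⁻¹) * x = g := by group
  simp [this, cj]

theorem bound [DecidableEq G] (φ : G → ℚ) (p : ∀ g, 0 ≤ φ g) (cj : ∀ g h, φ (g * h * g⁻¹) = φ h)
    (nm : (Nat.card B : ℚ) * ∑ᶠ g, φ g ≤ Nat.card G * ∑ᶠ b : B, φ b) (S Z : Finset G)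
    (hS : ∀ g ∈ S, ∀ x, x⁻¹ * g * x ∉ B)
    (hZ : ∀ g ∉ Z, φ g = 0 ∨ ∀ x y, x⁻¹ * g * x ∈ B → y⁻¹ * g * y ∈ B → x⁻¹ * y ∈ B) :
    (Nat.card B : ℚ) * ∑ g ∈ S, φ g ≤ (Nat.card G - Nat.card B) * ∑ g ∈ Z, φ g := by
  have le : (Nat.card B : ℚ) ≤ Nat.card G := by exact_mod_cast B.card_le_card_group
  have k : ∀ g, φ g * (#{x | x⁻¹ * g * x ∈ B} : ℚ) ≤ Nat.card B * φ g -
      Nat.card B * (if g ∈ S then φ g else 0) +
      (Nat.card G - Nat.card B) * if g ∈ Z then φ g else 0 := fun g => by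
    have pg := p g
    by_cases s : g ∈ S
    · rw [Finset.filter_false_of_mem fun x _ => hS g s x, if_pos s]
      have : 0 ≤ if g ∈ Z then φ g else 0 := by split_ifs <;> simp [pg]
      simpa using mul_nonneg (sub_nonneg.2 le) this
    rw [if_neg s]
    by_cases z : g ∈ Z
    · have : (#{x | x⁻¹ * g * x ∈ B} : ℚ) ≤ Nat.card G := by
        rw [Nat.card_eq_fintype_card]; exact_mod_cast Finset.card_le_univ _
      rw [if_pos z]; nlinarith
    rw [if_neg z]
    rcases hZ g z with e | e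
    · simp [e]
    · have : (#{x | x⁻¹ * g * x ∈ B} : ℚ) ≤ Nat.card B := by
        exact_mod_cast card_le B _ fun x hx y hy => e x y (by simpa using hx) (by simpa using hy)
      nlinarith
  have := Finset.sum_le_sum fun g (_ : g ∈ Finset.univ) => k g
  rw [count B φ cj, Finset.sum_add_distrib, Finset.sum_sub_distrib, ← Finset.mul_sum,
    ← Finset.mul_sum, ← Finset.mul_sum, Fintype.sum_ite_mem, Fintype.sum_ite_mem] at this
  rw [finsum_eq_sum_of_fintype] at nm
  linarith

end Gen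

variable {F : Type*} [Field F]

/-- upper triangular matrices -/
def Bor (F : Type*) [Field F] : Subgroup SL(2, F) where
  carrier := {g | g.1 1 0 = 0}
  one_mem' := by simp
  mul_mem' := fun {a b} ha hb => by
    simp only [Set.mem_ofPred_eq] at *
    simp [Matrix.mul_apply, Fin.sum_univ_two, ha, hb]
  inv_mem' := fun {a} ha => by
    simp only [Set.mem_ofPred_eq] at *
    simp [Matrix.SpecialLinearGroup.SL2_inv_expl, ha]

theorem mem_Bor {g : SL(2, F)} : g ∈ Bor F ↔ g.1 1 0 = 0 := Iff.rfl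

theorem inv_mul_mem {x y : SL(2, F)} : x⁻¹ * y ∈ Bor F ↔ x.1 0 0 * y.1 1 0 = x.1 1 0 * y.1 0 0 := by
  rw [mem_Bor, ← sub_eq_zero (a := x.1 0 0 * _), Matrix.SpecialLinearGroup.coe_mul, Matrix.mul_apply]
  simp [Matrix.SpecialLinearGroup.SL2_inv_expl, Fin.sum_univ_two, neg_add_eq_sub]

theorem det2 (x : SL(2, F)) : x.1 0 0 * x.1 1 1 - x.1 0 1 * x.1 1 0 = 1 := by
  rw [← Matrix.det_fin_two, x.2]

theorem card_G [Fintype F] [Fintype SL(2, F)] :
    Nat.card SL(2, F) ≤ Nat.card (Bor F) * (Fintype.card F + 1) := by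
  classical
  rw [Nat.card_eq_fintype_card, ← Fintype.card_option]
  refine Finset.card_le_mul_card_image_of_maps_to (s := univ) (t := univ)
    (f := fun x : SL(2, F) => if x.1 1 0 = 0 then none else some (x.1 0 0 / x.1 1 0))
    (fun _ _ => mem_univ _) _ fun b _ => card_le _ _ fun x hx y hy => ?_
  have e := (mem_filter.1 hx).2.trans (mem_filter.1 hy).2.symm
  rw [inv_mul_mem]
  split_ifs at e with h1 h2 h2
  · simp [h1, h2]
  · have := Option.some.inj e
    field_simp at this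
    linear_combination this

theorem neg_pow {c : F} (m : ℕ) (h : c ^ 2 ^ m = 1) : c * c = 1 ∨ ∃ j, c ^ 2 ^ (j + 1) = -1 := by
  induction m with
  | zero => left; simp at h; simp [h]
  | succ m ih =>
    rw [pow_succ, pow_mul, pow_two, mul_self_eq_one_iff] at h
    rcases h with h | h
    · exact ih h
    · rcases m with _ | m
      · left; simp at h; simp [h]
      · exact Or.inr ⟨m, h⟩

theorem pow_form {b : Matrix (Fin 2) (Fin 2) F} {c d t : F} (h : b = !![c, (d - c) * t; 0, d]) (n : ℕ) :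
    b ^ n = !![c ^ n, (d ^ n - c ^ n) * t; 0, d ^ n] := by
  induction n with
  | zero => ext i j; fin_cases i <;> fin_cases j <;> simp
  | succ n ih =>
    rw [pow_succ, ih, h, Matrix.mul_fin_two]
    congr 1
    ext i j; fin_cases i <;> fin_cases j <;> simp <;> ring

theorem split [Fintype F] {m : ℕ} (hF : Fintype.card F = 2 ^ m + 1) {b w : SL(2, F)} (hb : b ∈ Bor F)
    (hw : w ∉ Bor F) (h : w⁻¹ * (b * w) ∈ Bor F) : b = 1 ∨ b = -1 ∨ ∃ j, b ^ 2 ^ (j + 1) = -1 := by
  rw [inv_mul_mem, Matrix.SpecialLinearGroup.coe_mul, Matrix.mul_apply, Matrix.mul_apply,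
    Fin.sum_univ_two, Fin.sum_univ_two, hb] at h
  have d := det2 b
  rw [mem_Bor] at hb hw
  rw [hb, mul_zero, sub_zero] at d
  have e : b.1 = !![b.1 0 0, (b.1 1 1 - b.1 0 0) * (w.1 0 0 / w.1 1 0); 0, b.1 1 1] := by
    have : b.1 0 1 = (b.1 1 1 - b.1 0 0) * (w.1 0 0 / w.1 1 0) := by
      field_simp
      apply mul_left_cancel₀ hw
      linear_combination -h
    rw [← this, ← hb]; exact Matrix.eta_fin_two _
  have c0 : b.1 0 0 ≠ 0 := left_ne_zero_of_mul_eq_one d
  have c1 := FiniteField.pow_card_sub_one_eq_one _ c0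
  rw [hF, Nat.add_sub_cancel] at c1
  rcases neg_pow m c1 with k | ⟨j, k⟩
  · have e1 : b.1 1 1 = b.1 0 0 := mul_left_cancel₀ c0 (d.trans k.symm)
    rw [e1, sub_self, zero_mul] at e
    rcases mul_self_eq_one_iff.1 k with k | k <;> rw [k] at e
    · exact Or.inl (Subtype.ext (e.trans Matrix.one_fin_two.symm))
    · refine Or.inr (Or.inl (Subtype.ext (e.trans ?_)))
      ext i j; fin_cases i <;> fin_cases j <;> simp
  · refine Or.inr (Or.inr ⟨j, Subtype.ext ?_⟩)
    have k' : b.1 1 1 ^ 2 ^ (j + 1) = -1 := by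
      have := mul_pow (b.1 0 0) (b.1 1 1) (2 ^ (j + 1))
      rw [d, one_pow, k] at this
      linear_combination this
    rw [Matrix.SpecialLinearGroup.coe_pow, pow_form e, k, k']
    ext i j; fin_cases i <;> fin_cases j <;> simp

theorem eig {g x : SL(2, F)} (h : x⁻¹ * g * x ∈ Bor F)
    (hg : ∀ (v : Fin 2 → F) (c : F), g.1.mulVec v = c • v → v = 0) : False := by
  have e : g.1 * x.1 = x.1 * (x⁻¹ * g * x).1 := by
    rw [← Matrix.SpecialLinearGroup.coe_mul, ← Matrix.SpecialLinearGroup.coe_mul]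
    exact congrArg Subtype.val (by group : g * x = x * (x⁻¹ * g * x))
  have k := hg (fun i => x.1 i 0) ((x⁻¹ * g * x).1 0 0) (funext fun i => by
    have := congrFun (congrFun e i) 0
    rw [Matrix.mul_apply, Matrix.mul_apply, Fin.sum_univ_two (f := fun j => x.1 i j * _),
      mem_Bor.1 h, mul_zero, add_zero, mul_comm] at this
    exact this)
  have d := det2 x
  rw [show x.1 0 0 = 0 from congrFun k 0, show x.1 1 0 = 0 from congrFun k 1] at d
  simp at d

end SLB

variable {F : Type*} [Field F] [Fintype F] {χ : SL(2, F) → ℚ}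

open SLB in
theorem sl_bound (h : Chi (-1) χ) {m : ℕ} (hF : Fintype.card F = 2 ^ m + 1) (S : Finset SL(2, F))
    (hS : ∀ g ∈ S, ∀ (v : Fin 2 → F) (c : F), g.1.mulVec v = c • v → v = 0) :
    ∑ g ∈ S, χ g ^ 2 ≤ 8 * Fintype.card F := by
  classical
  have b := bound (Bor F) (fun g => χ g ^ 2) (fun g => sq_nonneg _) (fun g x => by rw [h.cj])
    (h.norm _) S {1, -1} (fun g hg x hx => eig hx (hS g hg)) fun g hg => by
      by_contra hn
      push Not at hn
      obtain ⟨n0, x, y, hx, hy, n⟩ := hn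
      have e : g = x * (x⁻¹ * g * x) * x⁻¹ := by group
      rcases split hF hx n (by convert hy using 1; group) with k | k | ⟨j, k⟩
      · exact hg (by rw [e, k]; simp)
      · exact hg (by rw [e, k]; simp)
      · exact n0 (by rw [e, h.cj, h.two (by simp) k]; simp)
  have z : ∑ g ∈ ({1, -1} : Finset SL(2, F)), χ g ^ 2 ≤ 8 := by
    have n := h.neg 1
    rw [mul_one, h.one] at n
    have := Finset.sum_le_card_nsmul ({1, -1} : Finset SL(2, F)) (fun g => χ g ^ 2) 4 fun g hg => by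
      rcases Finset.mem_insert.1 hg with rfl | hg
      · rw [h.one]; norm_num
      · rw [Finset.mem_singleton.1 hg, n]; norm_num
    have c : (({1, -1} : Finset SL(2, F)).card : ℚ) ≤ 2 := by exact_mod_cast Finset.card_le_two
    rw [nsmul_eq_mul] at this
    linarith
  have c : (Nat.card SL(2, F) : ℚ) ≤ Nat.card (Bor F) * (Fintype.card F + 1) := by
    exact_mod_cast card_G
  have le : (Nat.card (Bor F) : ℚ) ≤ Nat.card SL(2, F) := by exact_mod_cast (Bor F).card_le_card_group
  have p : (0 : ℚ) < Nat.card (Bor F) := by exact_mod_cast Nat.card_pos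
  refine le_of_mul_le_mul_left (b.trans ?_) p
  nlinarith [mul_le_mul_of_nonneg_left z (sub_nonneg.2 le)]

end H99.GD
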