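import Cfsg.Agent.Lib.GD.SLA
import Cfsg.Agent.Lib.GD.SLB
import Cfsg.Agent.Lib.GL.Basic

/-! `SL(2, q)` with a normalised rational trace: `q = 5` or `q = 9`. -/

set_option autoImplicit false

namespace H99.GD

open H13.PS QuaternionGroup Subgroup
open scoped MatrixGroups

namespace SLC

variable {F : Type*} [Field F]

/-- the fixed-point-free elements of order three -/
def P3 (u : SL(2, F)) : Prop := u.1 * u.1 + u.1 + 1 = 0

theorem P3.cube {u : SL(2, F)} (h : P3 u) : u ^ 3 = 1 := Subtype.ext (by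
  have : u.1 ^ 3 - 1 = (u.1 - 1) * (u.1 * u.1 + u.1 + 1) := by noncomm_ring
  rw [show u.1 * u.1 + u.1 + 1 = 0 from h, mul_zero, sub_eq_zero] at this
  exact this)

theorem P3.ord {u : SL(2, F)} (h : P3 u) (h3 : (3 : F) ≠ 0) : orderOf u = 3 :=
  haveI : Fact (Nat.Prime 3) := ⟨Nat.prime_three⟩
  orderOf_eq_prime h.cube fun e => h3 (by
    have := congrFun (congrFun (show u.1 * u.1 + u.1 + 1 = 0 from h) 0) 0
    rw [e] at this
    simp only [Matrix.SpecialLinearGroup.coe_one, mul_one, Matrix.add_apply, Matrix.one_apply_eq,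
      Matrix.zero_apply] at this
    linear_combination this)

theorem P3.conj {u : SL(2, F)} (h : P3 u) (g : SL(2, F)) : P3 (g * u * g⁻¹) := by
  have e1 : (g⁻¹).1 * g.1 = 1 := congrArg Subtype.val (inv_mul_cancel g)
  have e2 : g.1 * (g⁻¹).1 = 1 := congrArg Subtype.val (mul_inv_cancel g)
  show g.1 * u.1 * (g⁻¹).1 * (g.1 * u.1 * (g⁻¹).1) + g.1 * u.1 * (g⁻¹).1 + 1 = 0
  calc _ = g.1 * u.1 * ((g⁻¹).1 * g.1) * u.1 * (g⁻¹).1 + g.1 * u.1 * (g⁻¹).1 + g.1 * (g⁻¹).1 := by
        rw [e2]; noncomm_ring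
    _ = g.1 * (u.1 * u.1 + u.1 + 1) * (g⁻¹).1 := by rw [e1]; noncomm_ring
    _ = 0 := by rw [show u.1 * u.1 + u.1 + 1 = 0 from h, mul_zero, zero_mul]

theorem P3.eig (h3 : ∀ t : F, t ^ 2 - t + 1 ≠ 0) {u : SL(2, F)} (h : P3 u) (v : Fin 2 → F) (c : F)
    (e : u.1.mulVec v = c • v) : v = 0 := by
  have : (u.1 * u.1 + u.1 + 1).mulVec v = ((-c) ^ 2 - -c + 1) • v := by
    rw [Matrix.add_mulVec, Matrix.add_mulVec, ← Matrix.mulVec_mulVec, e, Matrix.mulVec_smul, e,
      Matrix.one_mulVec]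
    module
  rw [show u.1 * u.1 + u.1 + 1 = 0 from h, Matrix.zero_mulVec] at this
  exact (smul_eq_zero.1 this.symm).resolve_left (h3 _)

theorem neg_ne (h2 : (2 : F) ≠ 0) : (-1 : SL(2, F)) ≠ 1 := fun e => h2 (by
  have := congrFun (congrFun (congrArg Subtype.val e) 0) 0
  simp only [Matrix.SpecialLinearGroup.coe_neg, Matrix.SpecialLinearGroup.coe_one, Matrix.neg_apply,
    Matrix.one_apply_eq] at this
  linear_combination -this)

/-- the companion matrix of `X² - t X + 1` -/
def cp (t : F) : SL(2, F) := ⟨!![0, -1; 1, t], by simp [Matrix.det_fin_two]⟩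

theorem cp_val (t : F) : (cp t).1 = !![0, -1; 1, t] := rfl

theorem cp_P3 : P3 (cp (-1 : F)) := by
  rw [P3, cp_val, Matrix.mul_fin_two]
  ext i j; fin_cases i <;> fin_cases j <;> simp

theorem cp_cube (h : (17 : F) = 0) : P3 (cp (7 : F) ^ 3) := by
  have e : (cp (7 : F) ^ 3).1 = !![-7, -48; 48, 329] := by
    rw [Matrix.SpecialLinearGroup.coe_pow, pow_three, cp_val, Matrix.mul_fin_two, Matrix.mul_fin_two]
    norm_num
  rw [P3, e, Matrix.mul_fin_two]
  ext i j; fin_cases i <;> fin_cases j <;> simp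
  · linear_combination (-133) * h
  · linear_combination (-912) * h
  · linear_combination 912 * h
  · linear_combination 6251 * h

open Finset in
theorem card_P3 [Fintype F] [DecidableEq F] [DecidablePred (P3 (F := F))]
    (h3 : ∀ t : F, t ^ 2 - t + 1 ≠ 0) (h2 : (2 : F) ≠ 0) :
    Fintype.card F * (Fintype.card F - 1) ≤ #{g : SL(2, F) | P3 g} := by
  have k : #(univ : Finset SL(2, F)) ≤ Nat.card (centralizer {cp (-1 : F)}) * #{g : SL(2, F) | P3 g} :=
    Finset.card_le_mul_card_image_of_maps_to (f := fun g => g * cp (-1) * g⁻¹)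
      (fun g _ => mem_filter.2 ⟨mem_univ _, cp_P3.conj g⟩) _ fun b _ => SLB.card_le _ _ fun x hx y hy => by
        have e := (mem_filter.1 hx).2.trans (mem_filter.1 hy).2.symm
        rw [mem_centralizer_singleton_iff]
        calc _ = x⁻¹ * (y * cp (-1) * y⁻¹) * y := by group
          _ = _ := by rw [← e]; group
  rw [card_univ, ← Nat.card_eq_fintype_card, H10.card_SL_two, Nat.card_eq_fintype_card] at k
  have := k.trans (Nat.mul_le_mul_right _ (card_cent h3 h2 cp_P3))
  rw [mul_comm (Fintype.card F + 1)] at this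
  exact Nat.le_of_mul_le_mul_right this (Nat.succ_pos _)

open Finset in
/-- the norm inequality for the classes of elements of order three and six -/
theorem key [Fintype F] {χ : SL(2, F) → ℚ} (h : Chi (-1) χ) {m : ℕ} (hF : Fintype.card F = 2 ^ m + 1)
    (h3 : ∀ t : F, t ^ 2 - t + 1 ≠ 0) (h2 : (2 : F) ≠ 0) (h3' : (3 : F) ≠ 0) {u : SL(2, F)} (hu : P3 u)
    (R : Finset SL(2, F)) (hR : ∀ g ∈ R, ¬ P3 g ∧ ¬ P3 (-g) ∧ P3 (g ^ 3)) :
    (Fintype.card F * (Fintype.card F - 1) : ℚ) / 2 + 2 * (χ u ^ 2 - 1 / 4) + ∑ g ∈ R, χ g ^ 2 ≤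
      8 * Fintype.card F := by
  classical
  set A : Finset SL(2, F) := {g | P3 g} with hA
  have mA : ∀ g, g ∈ A ↔ P3 g := fun g => by simp [hA]
  set B : Finset SL(2, F) := A.map ⟨fun g => -g, neg_injective⟩ with hB
  have mB : ∀ g, g ∈ B → P3 (-g) := fun g hg => by
    obtain ⟨x, hx, rfl⟩ := mem_map.1 hg
    simpa using (mA x).1 hx
  have d1 : Disjoint A B := disjoint_left.2 fun g h1 h4 => neg_ne h2 (by
    have := (mB g h4).cube
    rwa [neg_pow, ((mA g).1 h1).cube, mul_one, Odd.neg_one_pow (by decide)] at this)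
  have d2 : Disjoint (A ∪ B) R := disjoint_right.2 fun g h1 h4 =>
    (mem_union.1 h4).elim (fun k => (hR g h1).1 ((mA g).1 k)) fun k => (hR g h1).2.1 (mB g k)
  have b := sl_bound h hF (A ∪ B ∪ R) fun g hg v c e => by
    rcases mem_union.1 hg with k | k
    · rcases mem_union.1 k with k | k
      · exact ((mA g).1 k).eig h3 v c e
      · exact (mB g k).eig h3 v (-c) (by
          rw [Matrix.SpecialLinearGroup.coe_neg, Matrix.neg_mulVec, e, neg_smul])
    · exact (hR g k).2.2.eig h3 v (c ^ 3) (by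
        rw [Matrix.SpecialLinearGroup.coe_pow, pow_three, ← Matrix.mulVec_mulVec, ← Matrix.mulVec_mulVec,
          e, Matrix.mulVec_smul, e, Matrix.mulVec_smul, Matrix.mulVec_smul, e]
        module)
  have e : ∑ g ∈ B, χ g ^ 2 = ∑ g ∈ A, χ g ^ 2 := by
    rw [hB, sum_map]
    refine sum_congr rfl fun g _ => ?_
    show χ (-g) ^ 2 = _
    rw [← neg_one_mul, h.neg, neg_sq]
  rw [sum_union d2, sum_union d1, e] at b
  have s1 : χ u ^ 2 - 1 / 4 ≤ ∑ g ∈ A, (χ g ^ 2 - 1 / 4) :=
    single_le_sum (f := fun g => χ g ^ 2 - 1 / 4) (fun g hg => by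
      rcases h.three (((mA g).1 hg).ord h3') with k | k <;> rw [k] <;> norm_num) ((mA u).2 hu)
  rw [sum_sub_distrib, sum_const, nsmul_eq_mul] at s1
  have s2 : (Fintype.card F * (Fintype.card F - 1) : ℚ) ≤ #A := by
    have := card_P3 h3 h2
    rw [← Nat.cast_le (α := ℚ), Nat.cast_mul, Nat.cast_pred Fintype.card_pos] at this
    exact this
  linarith

end SLC

open SLC

variable {F : Type*} [Field F] [Fintype F] {χ : SL(2, F) → ℚ}

theorem sl_main (h : Chi (-1) χ) (hF : Odd (Fintype.card F)) (h3 : 3 < Fintype.card F) :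
    Fintype.card F = 5 ∨ Fintype.card F = 9 := by
  obtain ⟨m, hm⟩ := sl_pow h hF
  by_cases h4 : m < 4
  · rw [hm] at h3 ⊢
    interval_cases m <;> simp at h3 ⊢
  exfalso
  have h4 : 4 ≤ m := not_lt.1 h4
  have k2 : (2 : F) ≠ 0 := Ring.two_ne_zero fun e => by
    have := FiniteField.even_card_iff_char_two.1 e
    have := Nat.odd_iff.1 hF
    omega
  have k3 : (3 : F) ≠ 0 := fun e => by
    obtain ⟨n, hp, hn⟩ := FiniteField.card F (ringChar F)
    rw [(Nat.prime_dvd_prime_iff_eq hp Nat.prime_three).1 (ringChar.dvd (by exact_mod_cast e))] at hn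
    exact three_pow_ne h4 (hn.symm.trans hm)
  have k4 : ∀ t : F, t ^ 2 - t + 1 ≠ 0 := fun t e => by
    have e1 : (-t) ^ 3 = 1 := by linear_combination (-t - 1) * e
    have e2 := FiniteField.pow_card_sub_one_eq_one (-t) fun e0 => by simp [e0] at e1
    rw [hm, Nat.add_sub_cancel] at e2
    have e3 : -t = 1 := (pow_gcd_eq_one.2 ⟨e1, e2⟩).symm.trans (by
      rw [Nat.Coprime.pow_right m (by decide : Nat.Coprime 3 2), pow_one]) |>.symm
    exact k3 (by linear_combination e + (t - 2) * e3)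
  have k5 : χ (cp (-1 : F)) ^ 2 - 1 / 4 ≥ 0 := by
    rcases h.three (cp_P3.ord k3) with k | k <;> rw [k] <;> norm_num
  have b := key h hm k4 k2 k3 cp_P3 ∅ (by simp)
  have q17 : 17 ≤ Fintype.card F := hm ▸ Nat.succ_le_succ (Nat.pow_le_pow_right two_pos h4)
  have q : Fintype.card F = 17 := le_antisymm (by
    have q' : (17 : ℚ) ≤ Fintype.card F := by exact_mod_cast q17
    have : (Fintype.card F : ℚ) ≤ 17 := by
      rw [Finset.sum_empty] at b
      nlinarith
    exact_mod_cast this) q17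
  have k17 : (17 : F) = 0 := by simpa [q] using FiniteField.cast_card_eq_zero F
  have hu := cp_cube k17
  have b2 := key h hm k4 k2 k3 hu {cp 7} fun g hg => by
    rw [Finset.mem_singleton.1 hg]
    refine ⟨fun e => ?_, fun e => ?_, hu⟩
    · have := congrFun (congrFun e 1) 0
      simp [cp_val] at this
      exact one_ne_zero (α := F) (by linear_combination k17 - 2 * this)
    · have := congrFun (congrFun e 1) 0
      simp [cp_val] at this
      exact one_ne_zero (α := F) (by linear_combination 3 * this - k17)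
  rw [q, Finset.sum_singleton] at b2
  have o9 : orderOf (cp (7 : F)) = 9 :=
    haveI : Fact (Nat.Prime 3) := ⟨Nat.prime_three⟩
    orderOf_eq_prime_pow (p := 3) (n := 1) (fun e => by
      have := hu.ord k3
      rw [pow_one] at e
      rw [e, orderOf_one] at this
      exact absurd this (by decide)) (by rw [show 3 ^ (1 + 1) = 3 * 3 by rfl, pow_mul, hu.cube])
  rcases h.three (hu.ord k3) with k | k <;> rw [k] at b2
  · push_cast at b2
    nlinarith [sq_nonneg (χ (cp (7 : F)))]
  · refine h.nine o9 k (pow_eq_zero_iff two_ne_zero |>.1 (le_antisymm ?_ (sq_nonneg _)))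
    push_cast at b2
    linarith

end H99.GD
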