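import Cfsg.Agent.Lib.GD.MB
import Cfsg.Agent.Lib.GD.REP

set_option autoImplicit false
set_option linter.unusedSectionVars false
set_option linter.style.haveILetI false

namespace H99.GD

open H13.PS QuaternionGroup Subgroup
open scoped MatrixGroups

variable {G : Type*} [Group G] [Finite G] {D : Type*} [DivisionRing D] [CharZero D] {ρ : G →* M2 D} {z : G}

namespace TR

theorem trace_idem {V : Type*} [AddCommGroup V] [Module ℚ V] [FiniteDimensional ℚ V]
    {f : Module.End ℚ V} (h : f * f = f) :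
    LinearMap.trace ℚ V f = Module.finrank ℚ (LinearMap.range f) :=
  (LinearMap.IsIdempotentElem.isProj_range f h).trace

/-- the rational envelope -/
noncomputable abbrev Env (ρ : G →* M2 D) : Subalgebra ℚ (M2 D) := Algebra.adjoin ℚ (Set.range ρ)

theorem env_fin (ρ : G →* M2 D) : FiniteDimensional ℚ (Env ρ) := by
  have h : (Subalgebra.toSubmodule (Env ρ)) = Submodule.span ℚ (Set.range ρ) := by
    rw [Algebra.adjoin_eq_span]
    congr 1
    have : Set.range ρ = (MonoidHom.mrange ρ : Set (M2 D)) := rfl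
    rw [this, Submonoid.closure_eq]
  have h2 : FiniteDimensional ℚ (Submodule.span ℚ (Set.range ρ)) :=
    FiniteDimensional.span_of_finite ℚ (Set.finite_range ρ)
  rw [← h] at h2
  exact h2

/-- the representation with values in the envelope -/
noncomputable def rh (ρ : G →* M2 D) : G →* Env ρ where
  toFun g := ⟨ρ g, Algebra.subset_adjoin ⟨g, rfl⟩⟩
  map_one' := Subtype.ext (map_one ρ)
  map_mul' a b := Subtype.ext (map_mul ρ a b)

theorem rh_coe (g : G) : ((rh ρ g : Env ρ) : M2 D) = ρ g := rfl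

/-- the regular trace -/
noncomputable def tr (ρ : G →* M2 D) : Env ρ →ₗ[ℚ] ℚ :=
  (LinearMap.trace ℚ (Env ρ)).comp (Algebra.lmul ℚ (Env ρ)).toLinearMap

theorem tr_apply (w : Env ρ) : tr ρ w = LinearMap.trace ℚ (Env ρ) (Algebra.lmul ℚ (Env ρ) w) := rfl

theorem tr_idem {e : Env ρ} (he : e * e = e) :
    tr ρ e = Module.finrank ℚ (LinearMap.range (Algebra.lmul ℚ (Env ρ) e)) := by
  haveI := env_fin ρ
  rw [tr_apply]
  exact trace_idem (by rw [← map_mul, he])

theorem tr_le (hI : Irr ρ) {e : Env ρ} (he : e * e = e) (h0 : e ≠ 0) (h1 : e ≠ 1) :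
    tr ρ (1 - e) ≤ tr ρ e := by
  haveI := env_fin ρ
  have he' : (1 - e) * (1 - e) = 1 - e := by
    rw [sub_mul, mul_sub, mul_sub, he]; simp
  have hE : (e : M2 D) * e = e := by exact_mod_cast congrArg Subtype.val he
  have hE0 : (e : M2 D) ≠ 0 := fun h => h0 (Subtype.ext h)
  have hE1 : (e : M2 D) ≠ 1 := fun h => h1 (Subtype.ext h)
  obtain ⟨g, hg⟩ := hI e hE hE0 hE1
  rw [tr_idem he, tr_idem he', Nat.cast_le]
  let x : Env ρ := e * rh ρ g * (1 - e)
  let φ : LinearMap.range (Algebra.lmul ℚ (Env ρ) (1 - e)) →ₗ[ℚ]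
      LinearMap.range (Algebra.lmul ℚ (Env ρ) e) :=
    LinearMap.codRestrict _ ((Algebra.lmul ℚ (Env ρ) x).comp (Submodule.subtype _))
      (fun w => ⟨rh ρ g * (1 - e) * w, by
        show e * (rh ρ g * (1 - e) * w) = e * rh ρ g * (1 - e) * w
        simp only [mul_assoc]⟩)
  refine LinearMap.finrank_le_finrank_of_injective (f := φ) ?_
  rw [injective_iff_map_eq_zero]
  rintro ⟨w, v, rfl⟩ hw
  have h2 : x * ((1 - e) * v) = 0 := congrArg Subtype.val hw
  have h3 : (e : M2 D) * ρ g * (1 - e) * ((1 - e) * v) = 0 := by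
    have := congrArg Subtype.val h2
    exact this
  have h4 := corner_inj hE hE0 hE1 hg h3
  apply Subtype.ext
  show (1 - e) * v = 0
  rw [← he', mul_assoc]
  exact Subtype.ext h4

theorem tr_half (hI : Irr ρ) {e : Env ρ} (he : e * e = e) (h0 : e ≠ 0) (h1 : e ≠ 1) :
    2 * tr ρ e = tr ρ 1 := by
  have he' : (1 - e) * (1 - e) = 1 - e := by
    rw [sub_mul, mul_sub, mul_sub, he]; simp
  have a := tr_le hI he h0 h1
  have b := tr_le hI he' (fun h => h1 (sub_eq_zero.1 h).symm) (fun h => h0 (by simpa using h))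
  rw [sub_sub_cancel] at b
  rw [map_sub] at a b
  linarith

theorem tr_one_pos : 0 < tr ρ 1 := by
  haveI := env_fin ρ
  rw [tr_apply, map_one, LinearMap.trace_one]
  exact_mod_cast Module.finrank_pos

end TR

open TR in
theorem exists_chi (hρ : Function.Injective ρ) (hI : Irr ρ) (hz : ρ z = -1) : ∃ χ : G → ℚ, Chi z χ := by
  classical
  haveI := env_fin ρ
  let π : G →* Module.End ℚ (Env ρ) := (Algebra.lmul ℚ (Env ρ) : Env ρ →* _).comp (rh ρ)
  have hπ : ∀ g, tr ρ (rh ρ g) = LinearMap.trace ℚ _ (π g) := fun g => rfl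
  have hN := tr_one_pos (ρ := ρ)
  set N := tr ρ 1 with hNd
  refine ⟨fun g => 2 / N * tr ρ (rh ρ g), ?_, ?_, ?_, ?_, ?_, ?_⟩
  · rw [map_one, ← hNd]; field_simp
  · intro g h
    rw [hπ, hπ, map_mul π, LinearMap.trace_mul_comm, ← map_mul π, ← mul_assoc, inv_mul_cancel,
      one_mul]
  · intro g
    have : rh ρ (z * g) = -rh ρ g := Subtype.ext (by
      show ρ (z * g) = -ρ g
      rw [map_mul, hz, neg_one_mul])
    rw [this, map_neg, mul_neg]
  · intro g n hn
    rw [hπ, hπ, trace_pow π g n hn]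
  · intro X hX
    haveI := Fintype.ofFinite X
    have h0 : (Nat.card X : ℚ) ≠ 0 := Nat.cast_ne_zero.2 Nat.card_pos.ne'
    let S : Env ρ := ∑ x : X, rh ρ x
    have hS : ∀ y : X, rh ρ y * S = S := fun y => by
      rw [Finset.mul_sum]
      exact Fintype.sum_equiv (Equiv.mulLeft y) _ _ (fun x => by simp)
    have hSS : S * S = (Nat.card X : ℚ) • S := by
      conv_lhs => rw [show S * S = (∑ x : X, rh ρ x) * S from rfl, Finset.sum_mul]
      simp only [hS]
      rw [Finset.sum_const, Finset.card_univ, Nat.card_eq_fintype_card, Nat.cast_smul_eq_nsmul]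
    let e : Env ρ := (Nat.card X : ℚ)⁻¹ • S
    have he : e * e = e := by
      simp only [e, smul_mul_smul_comm, hSS, smul_smul]
      congr 1
      field_simp
    have hsum : ∑ᶠ x : X, 2 / N * tr ρ (rh ρ x) = 2 / N * (Nat.card X * tr ρ e) := by
      rw [finsum_eq_sum_of_fintype, ← Finset.mul_sum, ← map_sum]
      congr 1
      simp only [e, map_smul, smul_eq_mul]
      rw [← mul_assoc, mul_inv_cancel₀ h0, one_mul]
    have h1 : e ≠ 1 := fun h => hX (by
      rw [eq_bot_iff]
      intro y hy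
      have h2 : rh ρ y * e = e := by
        simp only [e, mul_smul_comm]
        rw [hS ⟨y, hy⟩]
      rw [h, mul_one] at h2
      exact hρ (by rw [map_one]; exact congrArg Subtype.val h2))
    rw [hsum]
    by_cases he0 : e = 0
    · left; rw [he0, map_zero]; simp
    · right
      have := tr_half hI he he0 h1
      rw [← hNd] at this
      rw [show tr ρ e = N / 2 by linarith]
      field_simp
  · intro X
    have h := trace_norm π X
    haveI := Fintype.ofFinite X
    haveI := Fintype.ofFinite G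
    simp only [finsum_eq_sum_of_fintype] at h ⊢
    simp only [hπ, mul_pow, ← Finset.mul_sum]
    have h2 : (0 : ℚ) ≤ (2 / N) ^ 2 := sq_nonneg _
    nlinarith [mul_le_mul_of_nonneg_left h h2]

end H99.GD
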