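import Cfsg.Agent.Lib.GD.Bas

/-! # GD, package XP: the quotient is not `PSp₄(q)` -/

set_option autoImplicit false

namespace H99.GD

open H13.PS QuaternionGroup Subgroup
open scoped MatrixGroups

namespace XP

open Matrix

variable {K : Type*} [Field K]

/-- the symmetric matrix with the given entries -/
def sy (v : K × K × K) : Matrix (Fin 2) (Fin 2) K := !![v.1, v.2.1; v.2.1, v.2.2]

theorem sy_add (v w : K × K × K) : sy (v + w) = sy v + sy w := by
  ext i j; fin_cases i <;> fin_cases j <;> simp [sy]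

theorem sy_t (v : K × K × K) : (sy v)ᵀ = sy v := by
  ext i j; fin_cases i <;> fin_cases j <;> simp [sy]

theorem sy_zero : sy (0 : K × K × K) = 0 := by
  ext i j; fin_cases i <;> fin_cases j <;> simp [sy]

/-- the unipotent radical of the stabiliser of a Lagrangian -/
def un : Multiplicative (K × K × K) →* symplecticGroup (Fin 2) K where
  toFun v := ⟨fromBlocks 1 (sy v.toAdd) 0 1, by
    rw [SymplecticGroup.mem_iff, J, fromBlocks_transpose, sy_t, fromBlocks_multiply, fromBlocks_multiply]
    simp⟩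
  map_one' := Subtype.ext (by simp [sy_zero])
  map_mul' v w := Subtype.ext (by simp [sy_add, fromBlocks_multiply, add_comm])

theorem un_cen {v : Multiplicative (K × K × K)} (h : un v ∈ center (symplecticGroup (Fin 2) K)) :
    v = 1 := by
  have e := congrArg Subtype.val (mem_center_iff.1 h (SymplecticGroup.symJ (Fin 2) K))
  change J (Fin 2) K * fromBlocks 1 (sy v.toAdd) 0 1 = fromBlocks 1 (sy v.toAdd) 0 1 * J (Fin 2) K at e
  rw [J, fromBlocks_multiply, fromBlocks_multiply, fromBlocks_inj] at e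
  have e1 : sy v.toAdd = 0 := by simpa using e.1.symm
  have a := congrFun (congrFun e1 0) 0
  have b := congrFun (congrFun e1 0) 1
  have c := congrFun (congrFun e1 1) 1
  exact Multiplicative.toAdd.injective (Prod.ext a (Prod.ext b c))

end XP

variable {G H : Type*} [Group G] [Finite G] [Group H] {f : G →* H} {z : G} {χ : G → ℚ}

theorem no_psp (hz : Ax z) (hf : Cov f z)
    (hr : ∀ p : ℕ, p.Prime → p ≠ 2 → ∀ E : Subgroup G, (∀ x ∈ E, x ^ p = 1) → Nat.card E ≤ p ^ 2)
    {K : Type*} [Field K] [Fintype K] (hK : Odd (Fintype.card K)) (e : H ≃* Cfsg.PSp 2 K) : False := by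
  obtain ⟨n, hp, hn⟩ := FiniteField.card K (ringChar K)
  set p := ringChar K
  have po : Odd p := (Nat.odd_pow_iff n.ne_zero).1 (hn ▸ hK)
  let U : Multiplicative (K × K × K) →* Cfsg.PSp 2 K := (QuotientGroup.mk' _).comp XP.un
  have Ui : Function.Injective U := (injective_iff_map_eq_one U).2 fun v hv =>
    XP.un_cen ((QuotientGroup.eq_one_iff _).1 hv)
  have Up : ∀ v, U v ^ p = 1 := fun v => by
    rw [← map_pow, show v ^ p = 1 from Multiplicative.toAdd.injective (by
      rw [toAdd_pow, toAdd_one, ← Nat.cast_smul_eq_nsmul K, CharP.cast_eq_zero, zero_smul]), map_one]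
  have zc : ∀ g, Commute g z := hz.zc
  have cm : ∀ {x y : G}, e (f x) ∈ U.range → x ^ p = 1 → e (f y) ∈ U.range → Commute x y := by
    rintro x y ⟨v, hv⟩ xp ⟨w, hw⟩
    have : f (y * x * y⁻¹ * x⁻¹) = 1 := e.injective (by
      simp only [map_mul, map_inv, map_one, ← hv, ← hw]
      rw [← map_mul, mul_comm w, map_mul]; group)
    rcases (hf.ker _).1 this with c | c
    · rw [mul_inv_eq_one, mul_inv_eq_iff_eq_mul] at c
      exact c.symm
    · have c1 := congrArg (· ^ p) (mul_inv_eq_iff_eq_mul.1 c)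
      obtain ⟨j, hj⟩ := po
      simp only [conj_pow, (zc x).symm.mul_pow, xp, mul_one, mul_inv_cancel] at c1
      rw [hj, pow_succ, pow_mul, pow_two, hz.zz, one_pow, one_mul] at c1
      exact (hz.ne c1.symm).elim
  let E : Subgroup G :=
    { carrier := {x | e (f x) ∈ U.range ∧ x ^ p = 1}
      mul_mem' := fun {x y} hx hy => ⟨by rw [map_mul, map_mul]; exact mul_mem hx.1 hy.1,
        by rw [(cm hx.1 hx.2 hy.1).mul_pow, hx.2, hy.2, mul_one]⟩
      one_mem' := ⟨by rw [map_one, map_one]; exact one_mem _, one_pow _⟩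
      inv_mem' := fun {x} hx => ⟨by rw [map_inv, map_inv]; exact inv_mem hx.1, by rw [inv_pow, hx.2, inv_one]⟩ }
  have on : ∀ v, ∃ x : E, e (f x) = U v := fun v => by
    obtain ⟨x, hx⟩ := hf.surj (e.symm (U v))
    have h1 : e (f x) = U v := by rw [hx, e.apply_symm_apply]
    have h2 : e (f (x ^ (p + 1))) = U v := by rw [map_pow, map_pow, h1, pow_succ, Up, one_mul]
    refine ⟨⟨x ^ (p + 1), ⟨v, h2.symm⟩, ?_⟩, h2⟩
    obtain ⟨j, hj⟩ := po.add_one
    rw [← pow_mul, mul_comm, pow_mul, hj, ← two_mul, pow_mul, pow_two]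
    rcases (hf.ker (x ^ p)).1 (e.injective (by rw [map_pow, map_pow, h1, Up, map_one])) with c | c
    · rw [c, mul_one, one_pow]
    · rw [c, hz.zz, one_pow]
  choose s hs using on
  have c1 := Nat.card_le_card_of_injective s fun v w h => Ui (by rw [← hs, ← hs, h])
  have c2 := c1.trans (hr p hp (fun h => by rw [h] at po; exact absurd po (by decide)) E fun x hx => hx.2)
  rw [Nat.card_eq_fintype_card, Fintype.card_multiplicative, Fintype.card_prod, Fintype.card_prod] at c2
  have c3 : p ≤ Fintype.card K := hn ▸ Nat.le_self_pow n.ne_zero p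
  have := hp.two_le
  nlinarith [Nat.mul_le_mul c3 (Nat.mul_le_mul c3 c3)]

end H99.GD
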